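import Cfsg.Agent.MCX.Bas

/-! Sylow counting modulo `p ^ k`. -/

set_option autoImplicit false

namespace Cfsg.Agent.MCX

open Subgroup

variable {S : Type*} [Group S] [Finite S] {P : Sylow 5 S} {z : S}

theorem a9a_orb {H X : Type*} [Group H] [Finite X] [MulAction H X] (d : ℕ) :
    d ∣ Nat.card {x : X // d ∣ Nat.card (MulAction.orbit H x)} := by
  classical
  have := Fintype.ofFinite X
  rw [Nat.card_eq_fintype_card, Fintype.card_subtype, Finset.card_eq_sum_card_image (MulAction.orbit H)]
  refine Finset.dvd_sum fun b hb => ?_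
  obtain ⟨y, hy, rfl⟩ := Finset.mem_image.1 hb
  have hy' := (Finset.mem_filter.1 hy).2
  have e : (Finset.univ.filter fun x : X => d ∣ Nat.card (MulAction.orbit H x)).filter
      (fun a => MulAction.orbit H a = MulAction.orbit H y) = (MulAction.orbit H y).toFinset := by
    ext a
    simp only [Finset.mem_filter, Finset.mem_univ, true_and, Set.mem_toFinset]
    exact ⟨fun h => MulAction.orbit_eq_iff.1 h.2, fun h =>
      ⟨(MulAction.orbit_eq_iff.2 h).symm ▸ hy', MulAction.orbit_eq_iff.2 h⟩⟩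
  rw [e, Set.toFinset_card, ← Nat.card_eq_fintype_card]
  exact hy'

/-- `P` acts on the Sylow subgroups; the stabilizer of `Q` is `P ⊓ N(Q) = P ⊓ Q`. The set of `Q`
with `p^k ∣ [P : P ⊓ Q]` is a union of orbits of sizes divisible by `p ^ k`. -/
theorem cnt {G : Type*} [Group G] [Finite G] (p k : ℕ) [Fact p.Prime] (R : Sylow p G) :
    Nat.card (Sylow p G) ≡
      Nat.card {Q : Sylow p G // ¬ p ^ k ∣ (Q : Subgroup G).relIndex (R : Subgroup G)}
      [MOD p ^ k] := by
  classical
  have e : ∀ Q : Sylow p G, Nat.card (MulAction.orbit (R : Subgroup G) Q) =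
      (Q : Subgroup G).relIndex (R : Subgroup G) := fun Q => by
    have h1 : MulAction.stabilizer (R : Subgroup G) Q = (Q : Subgroup G).subgroupOf R := by
      ext g
      rw [MulAction.mem_stabilizer_iff, mem_subgroupOf, Subgroup.smul_def, Sylow.smul_eq_iff_mem_normalizer]
      exact ⟨fun h => ((R.2.inf_normalizer_sylow Q).le ⟨g.2, h⟩).2, fun h => le_normalizer h⟩
    rw [Nat.card_coe_set_eq, ← MulAction.index_stabilizer, h1, relIndex]
  have h := a9a_orb (H := (R : Subgroup G)) (X := Sylow p G) (p ^ k)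
  simp only [e] at h
  have := Fintype.ofFinite (Sylow p G)
  rw [Nat.card_eq_fintype_card] at h
  rw [Nat.card_eq_fintype_card, Nat.card_eq_fintype_card, Fintype.card_subtype_compl]
  exact ((Nat.modEq_iff_dvd' (Nat.sub_le _ _)).2 (by
    rwa [Nat.sub_sub_self (Fintype.card_subtype_le _)])).symm

/-- ambient form inside a subgroup `M` with Sylow subgroup `D` (apply `cnt` in `M`;
`card_sylow_eq_index_normalizer`) -/
theorem cnt_amb {G : Type*} [Group G] [Finite G] (p k : ℕ) [Fact p.Prime] (hk : k ≠ 0)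
    {M D : Subgroup G} (hDM : D ≤ M) (hD : IsPGroup p D) (hi : ¬ p ∣ D.relIndex M)
    (hT : ∀ g ∈ M, g ∉ normalizer (D : Set G) →
      p ^ k ∣ (D.map (MulAut.conj g).toMonoidHom).relIndex D) :
    (normalizer (D : Set G)).relIndex M ≡ 1 [MOD p ^ k] := by
  let R : Sylow p M := (hD.comap_subtype (K := M)).toSylow hi
  have hR : (R : Subgroup M) = D.subgroupOf M := rfl
  have h := cnt p k R
  have hN : normalizer (R : Set M) = (normalizer (D : Set G)).subgroupOf M := (subgroupOf_normalizer_eq hDM).symm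
  rw [R.card_eq_index_normalizer, hR, hN] at h
  have h0 : ¬ p ^ k ∣ (R : Subgroup M).relIndex (D.subgroupOf M) := by
    rw [hR, relIndex_self, Nat.dvd_one]
    exact (Nat.one_lt_pow hk (Fact.out : p.Prime).one_lt).ne'
  have h1 : ∀ Q : Sylow p M, ¬ p ^ k ∣ (Q : Subgroup M).relIndex (D.subgroupOf M) → Q = R := fun Q hQ => by
    obtain ⟨g, rfl⟩ := MulAction.exists_smul_eq M R Q
    rw [Sylow.smul_eq_iff_mem_normalizer, hN, mem_subgroupOf]
    by_contra hg
    have e : ((g • R : Sylow p M) : Subgroup M) = (D.map (MulAut.conj (g : G)).toMonoidHom).subgroupOf M := by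
      ext y
      rw [Sylow.coe_subgroup_smul, mem_pointwise_smul_iff_inv_smul_mem, hR, mem_subgroupOf, mem_subgroupOf,
        mem_cj]
      simp
    rw [e, relIndex_subgroupOf hDM] at hQ
    exact hQ (hT g g.2 hg)
  rwa [Nat.card_eq_one_iff_exists.2 ⟨⟨R, h0⟩, fun Q => Subtype.ext (h1 Q Q.2)⟩] at h

end Cfsg.Agent.MCX
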