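import Cfsg.Agent.MCX.A4
import Cfsg.Agent.MCX.A9a

/-! Sylow counting modulo 25. -/

set_option autoImplicit false

namespace Cfsg.Agent.MCX

open Subgroup

variable {S : Type*} [Group S] [Finite S] {P : Sylow 5 S} {z : S}

theorem a9_mul (T R : Subgroup S) : T.relIndex R * Nat.card (T ⊓ R : Subgroup S) = Nat.card R := by
  have h1 := (T.subgroupOf R).index_mul_card
  have h2 : Nat.card (T.subgroupOf R) = Nat.card (T ⊓ R : Subgroup S) := by
    rw [← inf_subgroupOf_right]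
    exact Nat.card_congr (subgroupOfEquivOfLe (inf_le_right : T ⊓ R ≤ R)).toEquiv
  rw [← h2]; exact h1

theorem St.a9_key (h : St P z) {T : Subgroup S} (hT : Nat.card T = 125)
    (hn : ¬ 5 ^ 2 ∣ T.relIndex (P : Subgroup S)) :
    T = (P : Subgroup S) ∨ ∃ D, IsD P D ∧ D ≤ T := by
  have hm := a9_mul T (P : Subgroup S)
  rw [h.cardQ P] at hm
  have hd : T.relIndex (P : Subgroup S) ∣ 5 ^ 3 := ⟨_, by rw [hm]; norm_num⟩
  obtain ⟨k, hk, hk'⟩ := (Nat.dvd_prime_pow (by norm_num : Nat.Prime 5)).1 hd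
  rw [hk'] at hm hn
  interval_cases k
  · left
    have h1 : (P : Subgroup S) ≤ T := relIndex_eq_one.1 (by simpa using hk')
    exact (eq_of_le_of_card_ge h1 (by rw [hT, h.cardQ P])).symm
  · right
    exact ⟨T ⊓ (P : Subgroup S), ⟨inf_le_right, by omega⟩, inf_le_left⟩
  · exact absurd (dvd_refl _) hn
  · exact absurd (by norm_num) hn

theorem St.a9_conv (h : St P z) {T D : Subgroup S} (hD : IsD P D) (hT : D ≤ T) :
    ¬ 5 ^ 2 ∣ T.relIndex (P : Subgroup S) := by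
  have hm := a9_mul T (P : Subgroup S)
  rw [h.cardQ P] at hm
  have h1 : 25 ∣ Nat.card (T ⊓ (P : Subgroup S) : Subgroup S) := by
    rw [← hD.2]; exact card_dvd_of_le (le_inf hT hD.1)
  rintro ⟨a, ha⟩
  obtain ⟨b, hb⟩ := h1
  rw [ha, hb] at hm
  have : 625 * (a * b) = 125 := by rw [← hm]; ring
  omega

theorem St.a9_two (h : St P z) {D0 D1 : Subgroup S} (h0 : IsD P D0) (h1 : IsD P D1)
    (hne : D0 ≠ D1) (Q : Sylow 5 S) (a0 : D0 ≤ (Q : Subgroup S)) (a1 : D1 ≤ (Q : Subgroup S)) :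
    Q = P := by
  have hn : ¬ D1 ≤ D0 := fun hle => hne (eq_of_le_of_card_ge hle (by rw [h0.2, h1.2])).symm
  obtain ⟨y, hy1, hy0⟩ := SetLike.not_le_iff_exists.1 hn
  have hle : (P : Subgroup S) ≤ (Q : Subgroup S) := by
    intro u hu
    obtain ⟨i, d, hd, rfl⟩ := h.Dmax h0 (h1.1 hy1) hy0 hu
    exact mul_mem (pow_mem (a1 hy1) _) (a0 hd)
  exact Sylow.ext (eq_of_le_of_card_ge hle (by rw [h.cardQ, h.cardQ])).symm

/-- `25 ∤ [P : P ⊓ Q]` means `Q = P` or `P ⊓ Q` has order 25; use `uniq`. -/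
theorem St.cnt0 (h : St P z) (hu : ∀ D, IsD P D → nS D = 1) :
    Nat.card (Sylow 5 S) ≡ 1 [MOD 25] := by
  have h1 := cnt 5 2 P
  have h2 : Nat.card {Q : Sylow 5 S // ¬ 5 ^ 2 ∣ (Q : Subgroup S).relIndex (P : Subgroup S)} = 1 := by
    rw [Nat.card_eq_one_iff_exists]
    refine ⟨⟨P, by rw [relIndex_self]; norm_num⟩, ?_⟩
    rintro ⟨Q, hQ⟩
    apply Subtype.ext
    rcases h.a9_key (h.cardQ Q) hQ with e | ⟨D, hD, hle⟩
    · exact Sylow.ext e
    · exact h.uniq hD (hu D hD) Q hle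
  rw [h2] at h1
  exact h1

theorem St.cnt1 (h : St P z) {D0 : Subgroup S} (h0 : IsD P D0)
    (hu : ∀ D, IsD P D → D ≠ D0 → nS D = 1) : Nat.card (Sylow 5 S) ≡ nS D0 [MOD 25] := by
  have h1 := cnt 5 2 P
  have h2 : Nat.card {Q : Sylow 5 S // ¬ 5 ^ 2 ∣ (Q : Subgroup S).relIndex (P : Subgroup S)} =
      nS D0 := by
    unfold nS
    refine Nat.card_congr (Equiv.subtypeEquivRight fun Q => ⟨fun hQ => ?_, fun hQ => ?_⟩)
    · rcases h.a9_key (h.cardQ Q) hQ with e | ⟨D, hD, hle⟩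
      · rw [e]; exact h0.1
      · by_cases hD0 : D = D0
        · rw [← hD0]; exact hle
        · rw [h.uniq hD (hu D hD hD0) Q hle]; exact h0.1
    · exact h.a9_conv h0 hQ
  rw [h2] at h1
  exact h1

/-- the only Sylow subgroup above both `D0` and `D1` is `P = D0 ⊔ D1` -/
theorem St.cnt2 (h : St P z) {D0 D1 : Subgroup S} (h0 : IsD P D0) (h1 : IsD P D1)
    (hne : D0 ≠ D1) (hu : ∀ D, IsD P D → D ≠ D0 → D ≠ D1 → nS D = 1) :
    Nat.card (Sylow 5 S) + 1 ≡ nS D0 + nS D1 [MOD 25] := by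
  have hc := cnt 5 2 P
  let A : Set (Sylow 5 S) := {Q | D0 ≤ (Q : Subgroup S)}
  let B : Set (Sylow 5 S) := {Q | D1 ≤ (Q : Subgroup S)}
  have h2 : Nat.card {Q : Sylow 5 S // ¬ 5 ^ 2 ∣ (Q : Subgroup S).relIndex (P : Subgroup S)} =
      (A ∪ B).ncard := by
    rw [← Nat.card_coe_set_eq]
    refine Nat.card_congr (Equiv.subtypeEquivRight fun Q => ⟨fun hQ => ?_, fun hQ => ?_⟩)
    · rcases h.a9_key (h.cardQ Q) hQ with e | ⟨D, hD, hle⟩
      · left; change D0 ≤ _; rw [e]; exact h0.1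
      · by_cases hD0 : D = D0
        · left; change D0 ≤ _; rw [← hD0]; exact hle
        · by_cases hD1 : D = D1
          · right; change D1 ≤ _; rw [← hD1]; exact hle
          · left; change D0 ≤ _; rw [h.uniq hD (hu D hD hD0 hD1) Q hle]; exact h0.1
    · rcases hQ with hQ | hQ
      · exact h.a9_conv h0 hQ
      · exact h.a9_conv h1 hQ
  have h3 : A ∩ B = {P} := by
    ext Q
    constructor
    · rintro ⟨a0, a1⟩
      exact h.a9_two h0 h1 hne Q a0 a1
    · rintro rfl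
      exact ⟨h0.1, h1.1⟩
  have h4 := Set.ncard_union_add_ncard_inter A B
  rw [h3, Set.ncard_singleton] at h4
  have hA : nS D0 = A.ncard := by unfold nS; rw [← Nat.card_coe_set_eq]; rfl
  have hB : nS D1 = B.ncard := by unfold nS; rw [← Nat.card_coe_set_eq]; rfl
  rw [hA, hB, ← h4, ← h2]
  exact hc.add_right 1

/-- for a subgroup `M ≥ P`: if each Sylow subgroup `P^g` (`g ∈ M`) above some `D` is `P`
(`cnt_amb` with `k = 2`) -/
theorem St.cntM (h : St P z) {M : Subgroup S} (hM : (P : Subgroup S) ≤ M)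
    (hu : ∀ g ∈ M, ∀ D, IsD P D → D ≤ cj g (P : Subgroup S) → g ∈ Nm (P : Subgroup S)) :
    (Nm (P : Subgroup S)).relIndex M ≡ 1 [MOD 25] := by
  refine cnt_amb 5 2 (by norm_num) hM P.isPGroup' ?_ ?_
  · intro hd
    exact P.not_dvd_index (hd.trans (relIndex_dvd_index_of_le hM))
  · intro g hg hn
    by_contra hnd
    have hT : Nat.card (cj g (P : Subgroup S)) = 125 := by
      rw [← h.cardQ P]
      exact card_map_of_injective (MulAut.conj g).injective
    rcases h.a9_key hT hnd with e | ⟨D, hD, hle⟩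
    · exact hn (cj_eq_iff.1 e)
    · exact hn (hu g hg D hD hle)

end Cfsg.Agent.MCX
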