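import Cfsg.Agent.MCX.A4a

/-! Sylow 5-subgroups above `D`, II. -/

set_option autoImplicit false

namespace Cfsg.Agent.MCX

open Subgroup

variable {S : Type*} [Group S] [Finite S] {P : Sylow 5 S} {z : S}

omit [Finite S] in
theorem a4_mem {Q : Sylow 5 S} {g y : S} :
    y ∈ ((g • Q : Sylow 5 S) : Subgroup S) ↔ g⁻¹ * y * g ∈ (Q : Subgroup S) := by
  rw [Sylow.coe_subgroup_smul, Subgroup.mem_pointwise_smul_iff_inv_smul_mem]
  simp

omit [Finite S] in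
theorem a4_Cz {w z : S} (e : zpowers w = zpowers z) : Cz w = Cz z := by
  have k : ∀ {w z : S}, w ∈ zpowers z → Cz z ≤ Cz w := by
    rintro w z ⟨k, rfl⟩ u hu
    exact mem_Cz.2 ((show Commute u z from mem_Cz.1 hu).zpow_right k)
  exact le_antisymm (k (e ▸ mem_zpowers z)) (k (e ▸ mem_zpowers w))

omit [Finite S] in
theorem a4_Cz_conj {g u z : S} : u ∈ Cz (g * z * g⁻¹) ↔ g⁻¹ * u * g ∈ Cz z := by
  rw [mem_Cz, mem_Cz]
  constructor
  · intro h
    calc g⁻¹ * u * g * z = g⁻¹ * (u * (g * z * g⁻¹)) * g := by group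
      _ = g⁻¹ * (g * z * g⁻¹ * u) * g := by rw [h]
      _ = _ := by group
  · intro h
    calc u * (g * z * g⁻¹) = g * (g⁻¹ * u * g * z) * g⁻¹ := by group
      _ = g * (z * (g⁻¹ * u * g)) * g⁻¹ := by rw [h]
      _ = _ := by group

theorem St.a4_z (h : St P z) {g : S} (hz : g * z * g⁻¹ ∈ zpowers z) :
    Cz (g * z * g⁻¹) = Cz z := by
  refine a4_Cz (h.chg ((zpowers_le.2 h.zP) hz) (fun e => h.z1 ?_) fun u hu => ?_).2
  · simpa using e
  · obtain ⟨k, e⟩ := hz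
    rw [← e]
    exact (show Commute u z from h.zc u hu).zpow_right k

omit [Finite S] in
theorem a4_le {D : Subgroup S} {Q : Sylow 5 S} (hD : D ≤ (Q : Subgroup S)) {g : S} (hg : g ∈ Nm D) :
    D ≤ ((g • Q : Sylow 5 S) : Subgroup S) := fun d hd =>
  a4_mem.2 (hD ((mem_normalizer_iff''.1 hg d).1 hd))

theorem nS_eq {D : Subgroup S} (hT : ¬ TA z D) : nS D = mS z D := by
  refine Nat.card_congr (Equiv.subtypeEquivRight fun Q => ⟨fun h => ⟨h, ?_⟩, fun h => h.1⟩)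
  by_contra n
  exact hT ⟨Q, h, n⟩

/-- `P^g ≥ D` centralizes `g z g⁻¹`, a generator of `⟨z⟩`; use `sylY`. -/
theorem St.NmDZ (h : St P z) {D : Subgroup S} (hD : IsD P D) {g : S} (hg : g ∈ Nm D)
    (hz : g * z * g⁻¹ ∈ zpowers z) :
    ∃ y ∈ Y D, ∃ n ∈ Nm (P : Subgroup S), n ∈ Nm D ∧ g = y * n := by
  obtain ⟨y, hy, e⟩ := h.sylY hD (g • P) (a4_le hD.1 hg) fun u hu => by
    rw [← h.a4_z hz, a4_Cz_conj]
    exact mem_Cz.2 (h.zc _ (a4_mem.1 hu))
  refine ⟨y, hy, y⁻¹ * g, mem_normalizer_iff''.2 fun u => ?_, (Nm D).mul_mem ((Nm D).inv_mem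
    (centralizer_le_normalizer _ (Y_le_Ce D hy))) hg, by group⟩
  have h1 : y * u * y⁻¹ ∈ ((g • P : Sylow 5 S) : Subgroup S) ↔ y * u * y⁻¹ ∈ cj y (P : Subgroup S) := by
    rw [e]
  rw [a4_mem, mem_cj] at h1
  rw [show (y⁻¹ * g)⁻¹ * u * (y⁻¹ * g) = g⁻¹ * (y * u * y⁻¹) * g by group, h1,
    show y⁻¹ * (y * u * y⁻¹) * y = u by group]

/-- if `D` is not of type (a), `P^g ≤ C(z)` has centre `⟨g z g⁻¹⟩ ∋ z` -/
theorem St.NmZ (h : St P z) {D : Subgroup S} (hD : IsD P D) (hT : ¬ TA z D) {g : S}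
    (hg : g ∈ Nm D) : g * z * g⁻¹ ∈ zpowers z := by
  have h1 := a4_le hD.1 ((Nm D).inv_mem hg)
  have h2 : ((g⁻¹ • P : Sylow 5 S) : Subgroup S) ≤ Cz z := by
    by_contra n
    exact hT ⟨_, h1, n⟩
  refine h.cen (by simpa using a4_mem.1 (h1 (h.zD hD))) fun y hy => ?_
  refine mem_Cz.1 (a4_Cz_conj.2 (h2 (a4_mem.2 ?_)))
  simpa [mul_assoc] using hy

theorem St.uniq (h : St P z) {D : Subgroup S} (hD : IsD P D) (hn : nS D = 1) (Q : Sylow 5 S)
    (hQ : D ≤ (Q : Subgroup S)) : Q = P := by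
  have _ := h
  have := (Nat.card_eq_one_iff_unique.1 hn).1
  exact congrArg Subtype.val (Subsingleton.elim (⟨Q, hQ⟩ : {Q : Sylow 5 S // D ≤ (Q : Subgroup S)})
    ⟨P, hD.1⟩)

theorem St.conjD (h : St P z) {D : Subgroup S} (hD : IsD P D) {g : S}
    (hg : g ∈ Nm (P : Subgroup S)) :
    IsD P (cj g D) ∧ mS z (cj g D) = mS z D ∧ (TA z (cj g D) ↔ TA z D) := by
  have k1 : ∀ Q : Sylow 5 S, D ≤ (Q : Subgroup S) ↔ cj g D ≤ ((g • Q : Sylow 5 S) : Subgroup S) :=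
    fun Q => ⟨fun hQ u hu => a4_mem.2 (hQ (mem_cj.1 hu)), fun hQ u hu => by
      have := a4_mem.1 (hQ (x := g * u * g⁻¹) (mem_cj.2 (by simpa [mul_assoc] using hu)))
      simpa [mul_assoc] using this⟩
  have k2 : ∀ Q : Sylow 5 S, (Q : Subgroup S) ≤ Cz z ↔ ((g • Q : Sylow 5 S) : Subgroup S) ≤ Cz z :=
    fun Q => ⟨fun hQ u hu => by
      rw [← h.a4_z (h.NmP_z hg), a4_Cz_conj]
      exact hQ (a4_mem.1 hu), fun hQ u hu => by
      have := hQ (x := g * u * g⁻¹) (a4_mem.2 (by simpa [mul_assoc] using hu))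
      rw [← h.a4_z (h.NmP_z hg), a4_Cz_conj] at this
      simpa [mul_assoc] using this⟩
  refine ⟨⟨fun u hu => (mem_normalizer_iff''.1 hg u).2 (hD.1 (mem_cj.1 hu)), ?_⟩, ?_, ?_, ?_⟩
  · rw [← hD.2]
    exact card_map_of_injective (MulAut.conj g).injective
  · unfold mS
    exact (Nat.card_congr (Equiv.subtypeEquiv (MulAction.toPerm g : Equiv.Perm (Sylow 5 S))
      fun Q => and_congr (k1 Q) (k2 Q))).symm
  · rintro ⟨Q, a, b⟩
    refine ⟨g⁻¹ • Q, (k1 _).2 ?_, fun c => b ?_⟩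
    · rwa [smul_inv_smul]
    · have := (k2 _).1 c
      rwa [smul_inv_smul] at this
  · rintro ⟨Q, a, b⟩
    exact ⟨g • Q, (k1 Q).1 a, fun c => b ((k2 Q).2 c)⟩

theorem cj_eq_iff {D : Subgroup S} {g : S} : cj g D = D ↔ g ∈ Nm D := by
  rw [mem_normalizer_iff'', SetLike.ext_iff]
  exact forall_congr' fun u => by rw [mem_cj]; exact iff_comm

/-- `|N(D)| = n(D) |N(D) ∩ N(P)|` (Sylow subgroups above `D` normalize `D`) -/
theorem St.card_NmD (h : St P z) {D : Subgroup S} (hD : IsD P D) :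
    Nat.card (Nm D) = nS D * Nat.card (Nm D ⊓ Nm (P : Subgroup S) : Subgroup S) := by
  have h1 : MulAction.orbit (Nm D) P = {Q : Sylow 5 S | D ≤ (Q : Subgroup S)} := by
    ext Q
    constructor
    · rintro ⟨g, rfl⟩
      exact a4_le hD.1 g.2
    · intro hQ
      obtain ⟨g, -, hs⟩ := h.other Q
      have hQ' : (Q : Subgroup S) ≤ Nm D := hs.Dnorm ⟨hQ, hD.2⟩
      obtain ⟨n, e⟩ := MulAction.exists_smul_eq (Nm D) (P.subtype (h.Dnorm hD)) (Q.subtype hQ')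
      rw [Sylow.smul_subtype] at e
      exact ⟨n, Sylow.subtype_injective e⟩
  have h2 : MulAction.stabilizer (Nm D) P = (Nm D ⊓ Nm (P : Subgroup S)).subgroupOf (Nm D) := by
    ext g
    rw [MulAction.mem_stabilizer_iff, mem_subgroupOf, mem_inf, and_iff_right g.2]
    exact Sylow.smul_eq_iff_mem_normalizer
  rw [← (MulAction.stabilizer (Nm D) P).index_mul_card, MulAction.index_stabilizer, h1, h2,
    Nat.card_congr (subgroupOfEquivOfLe inf_le_left).toEquiv]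
  rfl

end Cfsg.Agent.MCX
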