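import Cfsg.Agent.MCX.A2
import Cfsg.Agent.MCX.A4

/-! Values of `m(D) = |Y D : Y P|`. -/

set_option autoImplicit false

namespace Cfsg.Agent.MCX

open Subgroup

variable {S : Type*} [Group S] [Finite S] {P : Sylow 5 S} {z : S}

theorem a5_fix (A : Subgroup S) {y : S} (hy : y ∈ Nm A) (h5 : y ^ 5 = 1) :
    Nat.card A ≡ Nat.card (A ⊓ Cz y : Subgroup S) [MOD 5] := by
  classical
  have hm : ∀ a : A, y * (a : S) * y⁻¹ ∈ A := fun a => (mem_normalizer_iff.1 hy a).1 a.2
  let f : Function.End A := fun a => ⟨y * (a : S) * y⁻¹, hm a⟩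
  have hk : ∀ (k : ℕ) (a : A), (((f ^ k) a : A) : S) = y ^ k * a * (y ^ k)⁻¹ := by
    intro k
    induction k with
    | zero => intro a; simp; rfl
    | succ k ih =>
      intro a
      rw [pow_succ']
      show y * (((f ^ k) a : A) : S) * y⁻¹ = _
      rw [ih, pow_succ']; group
  have hf : f ^ 5 ^ 1 = 1 := by
    funext a
    apply Subtype.ext
    rw [pow_one, hk, h5]
    simp; rfl
  haveI : Fintype A := Fintype.ofFinite A
  have h1 := Equiv.Perm.card_fixedPoints_modEq (p := 5) (n := 1) hf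
  rw [← Nat.card_eq_fintype_card, ← Nat.card_eq_fintype_card] at h1
  have e : Function.fixedPoints f ≃ (A ⊓ Cz y : Subgroup S) :=
    { toFun := fun a => ⟨(a.1 : S), a.1.2, mem_Cz.2 (by
        have h2 : y * (a.1 : S) * y⁻¹ = a.1 := congrArg Subtype.val a.2
        calc (a.1 : S) * y = (y * (a.1 : S) * y⁻¹) * y := by rw [h2]
          _ = y * a.1 := by group)⟩
      invFun := fun g => ⟨⟨g.1, g.2.1⟩, Subtype.ext (by
        have h2 : (g : S) * y = y * g := mem_Cz.1 g.2.2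
        show y * (g : S) * y⁻¹ = g
        rw [← h2]; group)⟩
      left_inv := fun _ => rfl
      right_inv := fun _ => rfl }
  rw [Nat.card_congr e] at h1
  exact h1

theorem a5_core {A B R : Subgroup S} {y : S} {m r s : ℕ} (hr : r.Prime) (hs : s.Prime)
    (hr5 : r ≠ 5) (hs5 : s < 5) (hy : y ∈ Nm A) (h5 : y ^ 5 = 1) (hB : B = A ⊓ Cz y)
    (hm : m * Nat.card B = Nat.card A) (hRA : R ≤ A) (hR : IsPGroup r R) (hN : Nm A ≤ Nm R)
    (hd : Nat.card A ∣ s * Nat.card R) (hs' : ∀ g ∈ A, g ∉ R → g ^ s = 1) :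
    ∃ j, m = r ^ j := by
  haveI := Fact.mk hr
  obtain ⟨k, hk⟩ := hR.exists_card_eq
  have key : m ∣ Nat.card R := by
    by_cases hBR : B ≤ R
    · have e1 := a5_fix A hy h5
      have e2 := a5_fix R (hN hy) h5
      have e3 : (R ⊓ Cz y : Subgroup S) = A ⊓ Cz y := by
        apply le_antisymm (inf_le_inf_right _ hRA)
        exact le_inf (hB ▸ hBR) inf_le_right
      rw [e3] at e2
      have e4 : Nat.card A ≡ Nat.card R [MOD 5] := e1.trans e2.symm
      obtain ⟨c, hc⟩ := card_dvd_of_le hRA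
      have hpos : 0 < Nat.card R := Nat.card_pos
      have hcs : c ∣ s := by
        rw [hc, mul_comm s] at hd
        exact Nat.dvd_of_mul_dvd_mul_left hpos hd
      have hcop : Nat.Coprime (Nat.card R) 5 := by
        rw [hk]
        exact Nat.Coprime.pow_left _ ((Nat.coprime_primes hr (by norm_num)).2 hr5)
      have e5 : c ≡ 1 [MOD 5] := by
        rw [hc] at e4
        have e6 : Nat.card R * c ≡ Nat.card R * 1 [MOD 5] := by simpa using e4
        exact Nat.ModEq.cancel_left_of_coprime hcop.symm e6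
      have hc1 : c = 1 := by
        have := Nat.le_of_dvd hs.pos hcs
        unfold Nat.ModEq at e5
        omega
      rw [hc1, mul_one] at hc
      rw [← hc, ← hm]
      exact Dvd.intro _ rfl
    · obtain ⟨g, hgB, hgR⟩ := SetLike.not_le_iff_exists.1 hBR
      have hgA : g ∈ A := by rw [hB] at hgB; exact hgB.1
      have hg1 : g ≠ 1 := fun h => hgR (h ▸ R.one_mem)
      haveI := Fact.mk hs
      have ho : orderOf g = s := orderOf_eq_prime (hs' g hgA hgR) hg1
      obtain ⟨b, hb⟩ : s ∣ Nat.card B := ho ▸ B.orderOf_dvd_natCard hgB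
      rw [← hm, hb] at hd
      have hd2 : s * (m * b) ∣ s * Nat.card R := by
        have : m * (s * b) = s * (m * b) := by ring
        rwa [this] at hd
      exact (Dvd.intro _ rfl).trans (Nat.dvd_of_mul_dvd_mul_left hs.pos hd2)
  rw [hk] at key
  obtain ⟨j, _, hj⟩ := (Nat.dvd_prime_pow hr).1 key
  exact ⟨j, hj⟩

/-- Take `y ∈ P \ D`; `Y P = C_{Y D}(y)` (`mem_YP'`), `m |Y P| = |Y D|`. Let `R ≤ Y D` be as in
`EP.amb` (an `r`-group of index dividing `s`, `{r,s} = {2,3}`), normalized by `y`. If `R ≠ Y D`,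
`⟨y⟩` acts on the set `Y D \ R` of size `(s-1)|R|` or `|R|`, prime to 5, so fixes an element outside
`R`; hence `|Y D : Y P| = |R : R ⊓ Y P|` is a power of `r`, and it is `≡ 1 (mod 5)` because
`|Y D| ≡ |C_{Y D}(y)| (mod 5)`. With `|Y D| ∣ 2^7 3^6`: `m ∈ {1, 16}` or `{1, 81}`;
finish with `EP.not_both`. -/
theorem St.mS_cases (h : St P z) {D : Subgroup S} (hD : IsD P D) :
    mS z D = 1 ∨ (mS z D = 16 ∧ ¬ 9 ∣ Nat.card (Y D)) ∨
      (mS z D = 81 ∧ ¬ 4 ∣ Nat.card (Y D)) := by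
  have hcP := h.cardQ P
  have hnle : ¬ (P : Subgroup S) ≤ D := by
    intro hle
    have := card_dvd_of_le hle
    rw [hcP, hD.2] at this
    norm_num at this
  obtain ⟨y, hyP, hyD⟩ := SetLike.not_le_iff_exists.1 hnle
  have hy : y ∈ Nm (Y D) := h.P_le_NmY hD hyP
  have h5 : y ^ 5 = 1 := h.pow5 hyP
  have hB : Y (P : Subgroup S) = Y D ⊓ Cz y := by
    ext g
    rw [h.mem_YP' hD hyP hyD, mem_inf, mem_Cz]
  have hm := h.mS_mul hD
  have hep := h.epY (Or.inl hD)
  have hdv := h.cardY (Or.inl hD)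
  have hmd : mS z D ∣ Nat.card (Y D) := hm ▸ Dvd.intro _ rfl
  have hm5 : mS z D ≡ 1 [MOD 5] := by
    have e1 := a5_fix (Y D) hy h5
    rw [← hB, ← hm] at e1
    have hcop : Nat.Coprime (Nat.card (Y (P : Subgroup S))) 5 :=
      Nat.Coprime.coprime_dvd_left (h.cardY (Or.inr rfl)) (by norm_num)
    have e6 : mS z D * Nat.card (Y (P : Subgroup S)) ≡ 1 * Nat.card (Y (P : Subgroup S))
        [MOD 5] := by simpa using e1
    exact Nat.ModEq.cancel_right_of_coprime hcop.symm e6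
  rcases hep.amb with ⟨R, hRA, hR, hN, hd, hmem⟩ | ⟨R, hRA, hR, hN, hd, hmem⟩
  · obtain ⟨j, hj⟩ := a5_core Nat.prime_two Nat.prime_three (by norm_num) (by norm_num) hy h5 hB
      hm hRA hR hN hd (fun g hg hgR => (hep g hg).resolve_left fun h2 => hgR ((hmem g hg).2 h2))
    have h1 : 2 ^ j ∣ 2 ^ 7 * 3 ^ 6 := hj ▸ hmd.trans hdv
    have h2 : 2 ^ j ∣ 2 ^ 7 :=
      Nat.Coprime.dvd_of_dvd_mul_right (Nat.Coprime.pow _ _ (by norm_num)) h1
    have h3 : j ≤ 7 := (Nat.pow_dvd_pow_iff_le_right (by norm_num)).1 h2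
    rw [hj] at hm5 hmd ⊢
    unfold Nat.ModEq at hm5
    interval_cases j <;> first
      | exact Or.inl rfl
      | exact Or.inr (Or.inl ⟨rfl, fun h9 => hep.not_both (Dvd.dvd.trans (by norm_num) hmd) h9⟩)
      | (exfalso; revert hm5; norm_num)
  · obtain ⟨j, hj⟩ := a5_core Nat.prime_three Nat.prime_two (by norm_num) (by norm_num) hy h5 hB
      hm hRA hR hN hd (fun g hg hgR => (hep g hg).resolve_right fun h2 => hgR ((hmem g hg).2 h2))
    have h1 : 3 ^ j ∣ 2 ^ 7 * 3 ^ 6 := hj ▸ hmd.trans hdv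
    have h2 : 3 ^ j ∣ 3 ^ 6 :=
      Nat.Coprime.dvd_of_dvd_mul_left (Nat.Coprime.pow _ _ (by norm_num)) h1
    have h3 : j ≤ 6 := (Nat.pow_dvd_pow_iff_le_right (by norm_num)).1 h2
    rw [hj] at hm5 hmd ⊢
    unfold Nat.ModEq at hm5
    interval_cases j <;> first
      | exact Or.inl rfl
      | exact Or.inr (Or.inr ⟨rfl, fun h4 => hep.not_both h4 (Dvd.dvd.trans (by norm_num) hmd)⟩)
      | (exfalso; revert hm5; norm_num)

end Cfsg.Agent.MCX
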