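import Cfsg.Agent.MCX.Bas

/-! Orders of commuting elements. -/

set_option autoImplicit false
set_option linter.unusedSectionVars false

namespace Cfsg.Agent.MCX

open Subgroup

variable {S : Type*} [Group S] [Finite S] {P : Sylow 5 S} {z : S}

omit [Finite S] in
theorem a0_om5 (h : St P z) {g : S} (h5 : 5 ∣ orderOf g) : orderOf g ∣ 10 ∨ orderOf g ∣ 15 := by
  rcases h.om g with e | e | e | e | e | e | e
  · exact absurd (h5.trans e) (by norm_num)
  · exact absurd (h5.trans e) (by norm_num)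
  · exact .inl e
  · exact absurd (h5.trans e) (by norm_num)
  · exact absurd (h5.trans e) (by norm_num)
  · exact .inr e
  · exact absurd (h5.trans e) (by norm_num)

omit [Finite S] in
theorem a0_om7 (h : St P z) {g : S} (h7 : 7 ∣ orderOf g) : orderOf g ∣ 7 := by
  rcases h.om g with e | e | e | e | e | e | e
  · exact e
  all_goals exact absurd (h7.trans e) (by norm_num)

omit [Finite S] in
theorem a0_om11 (h : St P z) {g : S} (h7 : 11 ∣ orderOf g) : orderOf g ∣ 11 := by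
  rcases h.om g with e | e | e | e | e | e | e
  · exact absurd (h7.trans e) (by norm_num)
  · exact absurd (h7.trans e) (by norm_num)
  · exact absurd (h7.trans e) (by norm_num)
  · exact e
  all_goals exact absurd (h7.trans e) (by norm_num)

omit [Finite S] in
theorem a0_mul {p : ℕ} (hp : p.Prime) {x g : S} (hx : orderOf x = p) (hc : g * x = x * g)
    (h5 : ¬ p ∣ orderOf g) : orderOf (g * x) = orderOf g * p := by
  rw [← hx]
  exact Commute.orderOf_mul_eq_mul_orderOf_of_coprime hc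
    (hx ▸ ((Nat.Prime.coprime_iff_not_dvd hp).2 h5).symm)

omit [Finite S] in
theorem a0_iso {p : ℕ} (hp : p.Prime) (h : ∀ g : S, p ∣ orderOf g → orderOf g ∣ p) {x g : S}
    (hx : orderOf x = p) (hc : g * x = x * g) (h5 : ¬ p ∣ orderOf g) : g = 1 := by
  have h1 := a0_mul hp hx hc h5
  have h2 := h (g * x) (h1 ▸ dvd_mul_left _ _)
  rw [h1] at h2
  nth_rw 2 [← one_mul p] at h2
  exact orderOf_eq_one_iff.1 (Nat.dvd_one.1 (Nat.dvd_of_mul_dvd_mul_right hp.pos h2))

theorem a0_no {p : ℕ} (hp : p.Prime) (h : ∀ g : S, p ∣ orderOf g → orderOf g ∣ p) (A : Subgroup S)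
    (hA : ¬ p ∣ Nat.card A) (h1 : Nat.card A % p ≠ 1) : ¬ p ∣ Nat.card (Nm A) := by
  intro hd
  have := Fact.mk hp
  obtain ⟨g, hg⟩ := exists_prime_orderOf_dvd_card' p hd
  let φ : MulAut A := A.normalizerMonoidHom g
  have h2 : φ ^ p = 1 := by rw [← map_pow, ← hg, pow_orderOf_eq_one, map_one]
  have h3 : IsPGroup p (zpowers φ) := by
    rintro ⟨_, k, rfl⟩
    refine ⟨1, Subtype.ext ?_⟩
    change (φ ^ k) ^ p ^ 1 = 1
    rw [pow_one, ← zpow_natCast, ← zpow_mul, mul_comm, zpow_mul, zpow_natCast, h2, one_zpow]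
  have h4 := h3.card_modEq_card_fixedPoints A
  have h5 : MulAction.fixedPoints (zpowers φ) A = {1} := by
    refine Set.eq_singleton_iff_unique_mem.2 ⟨fun m => map_one (m : MulAut A), fun a ha => ?_⟩
    have h6 : (g : S) * a * (g : S)⁻¹ = a := congrArg Subtype.val (ha ⟨φ, mem_zpowers φ⟩)
    refine Subtype.ext (a0_iso hp h ((orderOf_coe g).trans hg)
      (mul_inv_eq_iff_eq_mul.1 h6).symm fun h7 => hA (h7.trans ?_))
    exact A.orderOf_dvd_natCard a.2
  rw [h5, Nat.card_coe_set_eq, Set.ncard_singleton] at h4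
  exact h1 (Eq.trans h4 (Nat.mod_eq_of_lt hp.one_lt))

theorem a0_cen {p : ℕ} (hp : p.Prime) (h : ∀ g : S, p ∣ orderOf g → orderOf g ∣ p) {u : S}
    (h1 : u ≠ 1) (h7 : ¬ p ∣ orderOf u) : ¬ p ∣ Nat.card (Cz u) := by
  intro hd
  have := Fact.mk hp
  obtain ⟨g, hg⟩ := exists_prime_orderOf_dvd_card' p hd
  exact h1 (a0_iso hp h ((orderOf_coe g).trans hg) (mem_Cz.1 g.2).symm h7)

/-- If `5 ∣ o(g)` then `o(g) ∣ 10` or `15` from the list; otherwise `g x` has order `5 o(g)`. -/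
theorem St.com (h : St P z) {x g : S} (hx : orderOf x = 5) (hc : g * x = x * g) :
    orderOf g ∣ 10 ∨ orderOf g ∣ 15 := by
  by_cases h5 : 5 ∣ orderOf g
  · exact a0_om5 h h5
  have h1 := a0_mul (by norm_num) hx hc h5
  have h2 := a0_om5 h (g := g * x) (h1 ▸ dvd_mul_left _ _)
  rw [h1] at h2
  exact h2.imp (dvd_of_mul_right_dvd) (dvd_of_mul_right_dvd)

theorem St.com6 (h : St P z) {x g : S} (hx : orderOf x = 5) (hc : g * x = x * g)
    (h5 : ¬ 5 ∣ orderOf g) : g ^ 2 = 1 ∨ g ^ 3 = 1 := by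
  have h1 := a0_mul (by norm_num) hx hc h5
  have h2 := a0_om5 h (g := g * x) (h1 ▸ dvd_mul_left _ _)
  rw [h1] at h2
  exact h2.imp
    (fun e => orderOf_dvd_iff_pow_eq_one.1 (Nat.dvd_of_mul_dvd_mul_right (k := 5) (by norm_num) e))
    fun e => orderOf_dvd_iff_pow_eq_one.1 (Nat.dvd_of_mul_dvd_mul_right (k := 5) (by norm_num) e)

/-- no element of order 30: pairwise commuting elements of orders 2, 3, 5 -/
theorem St.no30 (h : St P z) {x t r : S} (hx : orderOf x = 5) (ht : orderOf t = 2)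
    (hr : orderOf r = 3) (h1 : t * x = x * t) (h2 : r * x = x * r) (h3 : t * r = r * t) :
    False := by
  have h4 := a0_mul Nat.prime_three hr h3 (by rw [ht]; norm_num)
  have h5 := h.com hx (g := t * r) (by rw [mul_assoc, h2, ← mul_assoc, h1, mul_assoc])
  rw [h4, ht] at h5
  omega

theorem St.cardQ (h : St P z) (Q : Sylow 5 S) : Nat.card (Q : Subgroup S) = 125 := by
  obtain ⟨k, hk⟩ := IsPGroup.iff_card.1 Q.2
  have h1 := (Q : Subgroup S).card_mul_index
  have h2 := Q.not_dvd_index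
  rw [h.card] at h1
  have h3 : 5 ^ 3 ∣ Nat.card (Q : Subgroup S) :=
    (Nat.Coprime.pow_left 3 ((Nat.Prime.coprime_iff_not_dvd (by norm_num)).2
      h2)).dvd_of_dvd_mul_right (by rw [h1]; norm_num)
  have h4 : k ≤ 3 := by
    by_contra h4
    have h5 : 5 ^ 4 ∣ 898128000 := by
      rw [← h1, hk]
      exact (pow_dvd_pow 5 (by omega)).mul_right _
    norm_num at h5
  rw [hk] at h3 ⊢
  have h5 := (Nat.pow_dvd_pow_iff_le_right (by norm_num)).1 h3
  rw [le_antisymm h4 h5]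
  norm_num

/-- `25` is not an element order -/
theorem St.pow5 (h : St P z) {Q : Sylow 5 S} {g : S} (hg : g ∈ (Q : Subgroup S)) :
    g ^ 5 = 1 := by
  have h1 : orderOf g ∣ 125 := h.cardQ Q ▸ (Q : Subgroup S).orderOf_dvd_natCard hg
  rw [← orderOf_dvd_iff_pow_eq_one]
  by_cases h5 : 5 ∣ orderOf g
  · rcases a0_om5 h h5 with e | e
    · exact (Nat.dvd_gcd h1 e).trans (by norm_num)
    · exact (Nat.dvd_gcd h1 e).trans (by norm_num)
  · have h2 : (orderOf g).Coprime (5 ^ 3) :=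
      Nat.Coprime.pow_right 3 ((Nat.Prime.coprime_iff_not_dvd (by norm_num)).2 h5).symm
    rw [Nat.Coprime.eq_one_of_dvd h2 h1]
    exact one_dvd _

theorem St.ord5 (h : St P z) {Q : Sylow 5 S} {g : S} (hg : g ∈ (Q : Subgroup S)) (h1 : g ≠ 1) :
    orderOf g = 5 := by
  exact orderOf_eq_prime (h.pow5 hg) h1

theorem St.oz (h : St P z) : orderOf z = 5 := by
  exact h.ord5 h.zP h.z1

/-- An element of order 7 normalizing `A` fixes `≡ |A| (mod 7)` elements of `A`; a fixed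
`a ≠ 1` of order prime to 7 gives an element of order `7 o(a)`. -/
theorem St.no7 (h : St P z) (A : Subgroup S) (hA : ¬ 7 ∣ Nat.card A) (h1 : Nat.card A % 7 ≠ 1) :
    ¬ 7 ∣ Nat.card (Nm A) := by
  exact a0_no (by norm_num) (fun _ => a0_om7 h) A hA h1

theorem St.no11 (h : St P z) (A : Subgroup S) (hA : ¬ 11 ∣ Nat.card A)
    (h1 : Nat.card A % 11 ≠ 1) : ¬ 11 ∣ Nat.card (Nm A) := by
  exact a0_no (by norm_num) (fun _ => a0_om11 h) A hA h1

/-- the order of a subgroup centralizing a nontrivial element of order prime to 77 -/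
theorem St.cen_dvd (h : St P z) {u : S} (h1 : u ≠ 1) (h7 : ¬ 7 ∣ orderOf u)
    (h11 : ¬ 11 ∣ orderOf u) : Nat.card (Cz u) ∣ 2 ^ 7 * 3 ^ 6 * 5 ^ 3 := by
  have h2 := a0_cen (by norm_num) (fun _ => a0_om7 h) h1 h7
  have h3 := a0_cen (by norm_num) (fun _ => a0_om11 h) h1 h11
  have h4 : Nat.card (Cz u) ∣ 2 ^ 7 * 3 ^ 6 * 5 ^ 3 * 7 * 11 := by
    have := (Cz u).card_subgroup_dvd_card
    rw [h.card] at this
    exact this
  exact ((Nat.Prime.coprime_iff_not_dvd (by norm_num)).2 h2).symm.dvd_of_dvd_mul_right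
    (((Nat.Prime.coprime_iff_not_dvd (by norm_num)).2 h3).symm.dvd_of_dvd_mul_right h4)

end Cfsg.Agent.MCX
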