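import Cfsg.Agent.MCX.A1a

/-! Structure of `P = 5^{1+2}`, II. -/

set_option autoImplicit false

namespace Cfsg.Agent.MCX

open Subgroup

variable {S : Type*} [Group S] [Finite S] {P : Sylow 5 S} {z : S}

theorem a1_mem (h : St P z) {y u : S} (hy : y ∈ (P : Subgroup S))
    (hu : u ∈ zpowers y ⊔ zpowers z) : ∃ i j : ℕ, u = y ^ i * z ^ j := by
  have hc : Commute y z := h.zc y hy
  let T : Subgroup S :=
    { carrier := {u | ∃ i j : ℕ, u = y ^ i * z ^ j}
      one_mem' := ⟨0, 0, by simp⟩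
      mul_mem' := by
        rintro _ _ ⟨i, j, rfl⟩ ⟨k, l, rfl⟩
        refine ⟨i + k, j + l, ?_⟩
        rw [pow_add, pow_add, mul_assoc, ← mul_assoc (z ^ j), ← (hc.pow_pow k j).eq]
        simp only [mul_assoc]
      inv_mem' := by
        rintro _ ⟨i, j, rfl⟩
        refine ⟨4 * i, 4 * j, ?_⟩
        rw [inv_eq_iff_mul_eq_one, mul_assoc, ← mul_assoc (z ^ j), ← (hc.pow_pow (4 * i) j).eq,
          mul_assoc, ← mul_assoc, ← pow_add, ← pow_add, show i + 4 * i = 5 * i by ring,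
          show j + 4 * j = 5 * j by ring, pow_mul, pow_mul, h.pow5 hy, h.pow5 h.zP]
        simp }
  have hT : zpowers y ⊔ zpowers z ≤ T :=
    sup_le (zpowers_le.2 ⟨1, 0, by simp⟩) (zpowers_le.2 ⟨0, 1, by simp⟩)
  exact hT hu

theorem a1_card (h : St P z) {A : Subgroup S} (hA : A ≤ (P : Subgroup S)) :
    Nat.card A = 1 ∨ Nat.card A = 5 ∨ Nat.card A = 25 ∨ A = (P : Subgroup S) := by
  have h1 := card_dvd_of_le hA
  have h2 := h.cardQ P
  rw [h2, show 125 = 5 ^ 3 by norm_num] at h1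
  obtain ⟨k, hk, e⟩ := (Nat.dvd_prime_pow fact5.out).1 h1
  interval_cases k
  · exact Or.inl (by simpa using e)
  · exact Or.inr (Or.inl (by simpa using e))
  · exact Or.inr (Or.inr (Or.inl (by simpa using e)))
  · exact Or.inr (Or.inr (Or.inr (eq_of_le_of_card_ge hA (by rw [e, h2]; norm_num))))

theorem St.Dmk (h : St P z) {y : S} (hy : y ∈ (P : Subgroup S)) (hz : y ∉ zpowers z) :
    IsD P (zpowers y ⊔ zpowers z) := by
  have hle : zpowers y ⊔ zpowers z ≤ (P : Subgroup S) :=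
    sup_le (zpowers_le.2 hy) (zpowers_le.2 h.zP)
  have h5 : Nat.card (zpowers z) = 5 := by rw [Nat.card_zpowers, h.oz]
  have hc : Commute y z := h.zc y hy
  refine ⟨hle, ?_⟩
  rcases a1_card h hle with e | e | e | e
  · have := card_dvd_of_le (le_sup_right : zpowers z ≤ zpowers y ⊔ zpowers z)
    rw [e, h5] at this
    norm_num at this
  · have := eq_of_le_of_card_ge (le_sup_right : zpowers z ≤ zpowers y ⊔ zpowers z)
      (by rw [e, h5])
    exact absurd (this ▸ mem_sup_left (mem_zpowers y)) hz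
  · exact e
  · refine absurd ⟨⟨fun a b => Subtype.ext ?_⟩⟩ h.nab
    obtain ⟨i, j, e1⟩ := a1_mem h hy (u := a) (e.ge a.2)
    obtain ⟨k, l, e2⟩ := a1_mem h hy (u := b) (e.ge b.2)
    show (a : S) * b = b * a
    rw [e1, e2]
    exact ((((Commute.refl y).pow_pow i k).mul_right (hc.pow_pow i l)).mul_left
      ((hc.symm.pow_pow j k).mul_right ((Commute.refl z).pow_pow j l))).eq

theorem St.Deq (h : St P z) {D : Subgroup S} (hD : IsD P D) {y : S} (hy : y ∈ D)
    (hz : y ∉ zpowers z) : D = zpowers y ⊔ zpowers z := by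
  have h1 := h.Dmk (hD.1 hy) hz
  exact (eq_of_le_of_card_ge (sup_le (zpowers_le.2 hy) (zpowers_le.2 (h.zD hD)))
    (by rw [h1.2, hD.2])).symm

theorem St.mem_D (h : St P z) {y u : S} (hy : y ∈ (P : Subgroup S))
    (hu : u ∈ zpowers y ⊔ zpowers z) : ∃ i j : ℕ, u = y ^ i * z ^ j :=
  a1_mem h hy hu

/-- `D` is maximal in `P` -/
theorem St.Dmax (h : St P z) {D : Subgroup S} (hD : IsD P D) {y u : S}
    (hy : y ∈ (P : Subgroup S)) (hyD : y ∉ D) (hu : u ∈ (P : Subgroup S)) :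
    ∃ i : ℕ, ∃ d ∈ D, u = y ^ i * d := by
  have hn : ∀ g ∈ (P : Subgroup S), ∀ d ∈ D, g * d * g⁻¹ ∈ D := fun g hg d hd =>
    (mem_normalizer_iff.1 (h.Dnorm hD hg) d).1 hd
  let T : Subgroup S :=
    { carrier := {u | ∃ i : ℕ, ∃ d ∈ D, u = y ^ i * d}
      one_mem' := ⟨0, 1, D.one_mem, by simp⟩
      mul_mem' := by
        rintro _ _ ⟨i, d, hd, rfl⟩ ⟨k, f, hf, rfl⟩
        refine ⟨i + k, (y ^ k)⁻¹ * d * (y ^ k)⁻¹⁻¹ * f,
          D.mul_mem (hn _ (inv_mem (pow_mem hy k)) d hd) hf, ?_⟩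
        rw [pow_add]
        group
      inv_mem' := by
        rintro _ ⟨i, d, hd, rfl⟩
        refine ⟨4 * i, y ^ i * d⁻¹ * (y ^ i)⁻¹, hn _ (pow_mem hy i) _ (D.inv_mem hd), ?_⟩
        rw [← mul_assoc, ← mul_assoc, ← pow_add, show 4 * i + i = 5 * i by ring, pow_mul,
          h.pow5 hy]
        simp }
  have hT : T ≤ (P : Subgroup S) := by
    rintro _ ⟨i, d, hd, rfl⟩
    exact mul_mem (pow_mem hy i) (hD.1 hd)
  have hDT : D ≤ T := fun d hd => ⟨0, d, hd, by simp⟩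
  have hyT : y ∈ T := ⟨1, 1, D.one_mem, by simp⟩
  have h1 := card_dvd_of_le hDT
  rw [hD.2] at h1
  rcases a1_card h hT with e | e | e | e
  · rw [e] at h1; norm_num at h1
  · rw [e] at h1; norm_num at h1
  · exact absurd (eq_of_le_of_card_ge hDT (by rw [e, hD.2]) ▸ hyT) hyD
  · exact (e ▸ hu : u ∈ T)

theorem St.Dinf (h : St P z) {D E : Subgroup S} (hD : IsD P D) (hE : IsD P E) (hne : D ≠ E) :
    D ⊓ E = zpowers z := by
  refine le_antisymm (fun y hy => ?_) (zpowers_le.2 ⟨h.zD hD, h.zD hE⟩)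
  by_contra hz
  exact hne ((h.Deq hD hy.1 hz).trans (h.Deq hE hy.2 hz).symm)

end Cfsg.Agent.MCX
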