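import Cfsg.Agent.MCX.A3

/-! The action of `N(P)` on `P/Z`. -/

set_option autoImplicit false

namespace Cfsg.Agent.MCX

open Subgroup

variable {S : Type*} [Group S] [Finite S] {P : Sylow 5 S} {z : S}


omit [Finite S] in
theorem a10_pw {x : S} (hx : x ^ 5 = 1) (n : ℕ) : x ^ ((n : ZMod 5).val) = x ^ n := by
  rw [ZMod.val_natCast]; exact (pow_eq_pow_mod n hx).symm

omit [Finite S] in
theorem a10_add {x : S} (hx : x ^ 5 = 1) (i k : ZMod 5) :
    x ^ (i + k).val = x ^ i.val * x ^ k.val := by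
  rw [← pow_add, ← a10_pw hx (i.val + k.val)]; simp

/-- congruence modulo `⟨z⟩` -/
def E10 (z x y : S) : Prop := x * y⁻¹ ∈ zpowers z

omit [Finite S] in
theorem E10.refl (z x : S) : E10 z x x := by simp [E10]

omit [Finite S] in
theorem E10.symm {x y : S} (h : E10 z x y) : E10 z y x := by
  have := inv_mem h
  simpa [E10] using this

omit [Finite S] in
theorem E10.trans {x y w : S} (h : E10 z x y) (k : E10 z y w) : E10 z x w := by
  have := mul_mem h k
  simpa [E10, mul_assoc] using this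

theorem St.a10_mul (h : St P z) {x y x' y' : S} (hx : x ∈ (P : Subgroup S)) (h1 : E10 z x x')
    (h2 : E10 z y y') : E10 z (x * y) (x' * y') := by
  have e : x * y * (x' * y')⁻¹ = (y * y'⁻¹) * (x * x'⁻¹) := by
    rw [← mul_assoc (y * y'⁻¹), ← h.a1a_zc h2 hx]; group
  unfold E10; rw [e]; exact mul_mem h2 h1

theorem St.a10_cj (h : St P z) {g x y : S} (hg : g ∈ Nm (P : Subgroup S)) (h1 : E10 z x y) :
    E10 z (g * x * g⁻¹) (g * y * g⁻¹) := by
  obtain ⟨k, hk⟩ := mem_zpowers_iff.1 h1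
  have e : g * x * g⁻¹ * (g * y * g⁻¹)⁻¹ = (g * z * g⁻¹) ^ k := by
    rw [conj_zpow, hk]; group
  unfold E10; rw [e]; exact zpow_mem (h.NmP_z hg) k

/-- commutator -/
def c10 (x y : S) : S := x * y * x⁻¹ * y⁻¹

theorem St.a10_cl (h : St P z) {x x' y : S} (hx : x ∈ (P : Subgroup S))
    (hx' : x' ∈ (P : Subgroup S)) (hy : y ∈ (P : Subgroup S)) :
    c10 (x * x') y = c10 x y * c10 x' y := by
  have e := h.a1a_zc (h.comm_mem hx' hy) (mul_mem (mul_mem hy (inv_mem hx)) (inv_mem hy))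
  unfold c10
  calc x * x' * y * (x * x')⁻¹ * y⁻¹ = x * ((x' * y * x'⁻¹ * y⁻¹) * (y * x⁻¹ * y⁻¹)) := by group
    _ = _ := by rw [← e]; group

theorem St.a10_cr (h : St P z) {x y y' : S} (hx : x ∈ (P : Subgroup S))
    (hy : y ∈ (P : Subgroup S)) (hy' : y' ∈ (P : Subgroup S)) :
    c10 x (y * y') = c10 x y * c10 x y' := by
  have e := h.a1a_zc (h.comm_mem hx hy') hy
  unfold c10
  calc x * (y * y') * x⁻¹ * (y * y')⁻¹
      = x * y * x⁻¹ * y⁻¹ * (y * (x * y' * x⁻¹ * y'⁻¹)) * y⁻¹ := by group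
    _ = _ := by rw [e]; group

theorem St.a10_pl (h : St P z) {x y : S} (hx : x ∈ (P : Subgroup S))
    (hy : y ∈ (P : Subgroup S)) (n : ℕ) : c10 (x ^ n) y = c10 x y ^ n := by
  induction n with
  | zero => simp [c10]
  | succ n ih => rw [pow_succ, h.a10_cl (pow_mem hx n) hx hy, ih, pow_succ]

theorem St.a10_pr (h : St P z) {x y : S} (hx : x ∈ (P : Subgroup S))
    (hy : y ∈ (P : Subgroup S)) (n : ℕ) : c10 x (y ^ n) = c10 x y ^ n := by
  induction n with
  | zero => simp [c10]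
  | succ n ih => rw [pow_succ, h.a10_cr hx (pow_mem hy n) hy, ih, pow_succ]

theorem St.a10_cE (h : St P z) {x x' y y' : S} (hx' : x' ∈ (P : Subgroup S))
    (hy' : y' ∈ (P : Subgroup S)) (h1 : E10 z x x') (h2 : E10 z y y') : c10 x y = c10 x' y' := by
  have e1 : x = x * x'⁻¹ * x' := by group
  have e2 : y = y * y'⁻¹ * y' := by group
  have hy : y ∈ (P : Subgroup S) := e2 ▸ mul_mem (h.a1a_zle h2) hy'
  have k1 : c10 (x * x'⁻¹) y = 1 := by unfold c10; rw [← h.a1a_zc h1 hy]; group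
  have k2 : c10 x' (y * y'⁻¹) = 1 := by unfold c10; rw [h.a1a_zc h2 hx']; group
  rw [e1, h.a10_cl (h.a1a_zle h1) hx' hy, k1, one_mul, e2, h.a10_cr hx' (h.a1a_zle h2) hy', k2,
    one_mul]

/-- monomials -/
abbrev m10 (a b : S) (i j : ZMod 5) : S := a ^ i.val * b ^ j.val

theorem St.a10_cm (h : St P z) {a b : S} (ha : a ∈ (P : Subgroup S)) (hb : b ∈ (P : Subgroup S))
    (i j k l : ZMod 5) : c10 (m10 a b i j) (m10 a b k l) = c10 a b ^ (i * l - j * k).val := by
  have t5 : c10 a b ^ 5 = 1 := h.pow5 (Q := P) (h.a1a_zle (h.comm_mem ha hb))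
  have e1 : c10 a a = 1 := by simp [c10]
  have e2 : c10 b b = 1 := by simp [c10]
  have e3 : c10 b a = c10 a b ^ 4 := by
    have : c10 a b ^ 4 * c10 a b = 1 := by rw [← pow_succ, t5]
    rw [eq_inv_of_mul_eq_one_left this]; unfold c10; group
  have hm : m10 a b k l ∈ (P : Subgroup S) := mul_mem (pow_mem ha _) (pow_mem hb _)
  unfold m10 at hm ⊢
  rw [h.a10_cl (pow_mem ha _) (pow_mem hb _) hm, h.a10_pl ha hm, h.a10_pl hb hm,
    h.a10_cr ha (pow_mem ha _) (pow_mem hb _), h.a10_cr hb (pow_mem ha _) (pow_mem hb _),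
    h.a10_pr ha ha, h.a10_pr ha hb, h.a10_pr hb ha, h.a10_pr hb hb, e1, e2, e3, one_pow, one_pow,
    one_mul, mul_one, ← pow_mul, ← pow_mul, ← pow_mul, ← pow_add, ← a10_pw t5]
  congr 2
  push_cast
  simp only [ZMod.natCast_val, ZMod.cast_id', id_eq]
  have : (4 : ZMod 5) = -1 := by decide
  rw [this]; ring

theorem St.a10_inj (h : St P z) {a b : S} (ha : a ∈ (P : Subgroup S)) (hb : b ∈ (P : Subgroup S))
    (hab : a * b ≠ b * a) {i j k l : ZMod 5} (e : E10 z (m10 a b i j) (m10 a b k l)) :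
    i = k ∧ j = l := by
  have t1 : c10 a b ≠ 1 := fun e => hab (by
    unfold c10 at e
    rwa [mul_inv_eq_one, mul_inv_eq_iff_eq_mul] at e)
  have t5 : orderOf (c10 a b) = 5 := h.ord5 (Q := P) (h.a1a_zle (h.comm_mem ha hb)) t1
  have key : ∀ u v : ZMod 5, c10 a b ^ u.val = c10 a b ^ v.val → u = v := fun u v e =>
    ZMod.val_injective 5 (pow_injOn_Iio_orderOf (by rw [t5]; exact ZMod.val_lt u)
      (by rw [t5]; exact ZMod.val_lt v) e)
  have hm : ∀ k l, m10 a b k l ∈ (P : Subgroup S) := fun k l => mul_mem (pow_mem ha _) (pow_mem hb _)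
  have h1 := h.a10_cE (hm k l) (hm 0 1) e (E10.refl z _)
  have h2 := h.a10_cE (hm k l) (hm 1 0) e (E10.refl z _)
  rw [h.a10_cm ha hb, h.a10_cm ha hb] at h1 h2
  exact ⟨by simpa using key _ _ h1, by simpa using key _ _ h2⟩

theorem St.a10_sur (h : St P z) {a b : S} (ha : a ∈ (P : Subgroup S)) (hb : b ∈ (P : Subgroup S))
    (hab : a * b ≠ b * a) {y : S} (hy : y ∈ (P : Subgroup S)) :
    ∃ i j : ZMod 5, E10 z y (m10 a b i j) := by
  have hD := h.Dmk hb fun hz => hab (h.a1a_zc hz ha)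
  obtain ⟨i, d, hd, rfl⟩ := h.Dmax hD ha
    (fun hz => hab (h.Dcomm hD hz (mem_sup_left (mem_zpowers b)))) hy
  obtain ⟨j, k, rfl⟩ := h.mem_D hb hd
  refine ⟨i, j, ?_⟩
  unfold E10 m10
  rw [a10_pw (h.pow5 ha), a10_pw (h.pow5 hb), ← mul_assoc (a ^ i),
    h.a1a_zc (pow_mem (mem_zpowers z) k) (mul_mem (pow_mem ha i) (pow_mem hb j)),
    mul_inv_cancel_right]
  exact pow_mem (mem_zpowers z) k

theorem St.a10_madd (h : St P z) {a b : S} (ha : a ∈ (P : Subgroup S)) (hb : b ∈ (P : Subgroup S))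
    (i j k l : ZMod 5) : E10 z (m10 a b i j * m10 a b k l) (m10 a b (i + k) (j + l)) := by
  unfold m10
  rw [a10_add (h.pow5 ha), a10_add (h.pow5 hb)]
  have e : E10 z (b ^ j.val * a ^ k.val) (a ^ k.val * b ^ j.val) := by
    have := h.comm_mem (pow_mem hb j.val) (pow_mem ha k.val)
    unfold E10; rwa [mul_inv_rev, ← mul_assoc]
  have := h.a10_mul (pow_mem ha i.val) (E10.refl z _)
    (h.a10_mul (mul_mem (pow_mem hb j.val) (pow_mem ha k.val)) e (E10.refl z (b ^ l.val)))
  simpa only [mul_assoc] using this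

theorem St.a10_pow (h : St P z) {a b : S} (ha : a ∈ (P : Subgroup S)) (hb : b ∈ (P : Subgroup S))
    {x : S} (hx : x ∈ (P : Subgroup S)) {i j : ZMod 5} (e : E10 z x (m10 a b i j)) (n : ℕ) :
    E10 z (x ^ n) (m10 a b (i * n) (j * n)) := by
  induction n with
  | zero => simpa [m10] using E10.refl z 1
  | succ n ih =>
    rw [pow_succ]
    push_cast
    rw [mul_add, mul_add, mul_one, mul_one]
    exact (h.a10_mul (pow_mem hx n) ih e).trans (h.a10_madd ha hb _ _ _ _)

/-- `P/Z ≅ (ZMod 5)²` with basis `a, b` (`[a,b] ≠ 1` generates `Z`; `inj`: if `a^i b^j ∈ Z` then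
commutators with `a`, `b` give `i = j = 0`; `sur` by counting `25 · 5 = 125`, or `Dmk`/`Dmax`).
Define `φ : P → ZMod 5 × ZMod 5` (a hom with kernel `Z`, since commutators lie in `Z`), and the
columns of `ρ g` by `φ (g a g⁻¹)`, `φ (g b g⁻¹)`. `hz`: the commutator map is bilinear and
alternating into the central `Z`, `[g a g⁻¹, g b g⁻¹] = [a,b]^det`. `fix`: `det = 1` gives `u = z`;
otherwise `ρ g v = v` with `v ≠ 0`, so `g` normalizes the coset `uZ` (5 elements `∉ Z`) and either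
use `g u g⁻¹ = u z^j`, `g z g⁻¹ = z^δ` with `δ ≠ 1`: replace `u` by `u z^e`, `e(1-δ) = j`.
`sp` from `fix` and `com6`. `ker`: if `ρ g = 1` then `g` centralizes `z`, `g a g⁻¹ = a z^j`, so
`g^n` (`n = o(g)` prime to 5) gives `j n ≡ 0`; so `g ∈ C(P)`, and `g^6 = 1` by `com6`; `mem_Y`. -/
theorem St.rho (h : St P z) {a b : S} (ha : a ∈ (P : Subgroup S)) (hb : b ∈ (P : Subgroup S))
    (hab : a * b ≠ b * a) : ∃ ρ, Rho P z a b ρ := by
  have hN : ∀ (g : Nm (P : Subgroup S)), ∀ x ∈ (P : Subgroup S), (g : S) * x * (g : S)⁻¹ ∈ (P : Subgroup S) :=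
    fun g x hx => (mem_normalizer_iff.1 g.2 x).1 hx
  have hm : ∀ k l, m10 a b k l ∈ (P : Subgroup S) := fun k l => mul_mem (pow_mem ha _) (pow_mem hb _)
  choose α γ hA using fun g : Nm (P : Subgroup S) => h.a10_sur ha hb hab (hN g a ha)
  choose β δ hB using fun g : Nm (P : Subgroup S) => h.a10_sur ha hb hab (hN g b hb)
  have m1 : m10 a b 1 0 = a := by simp [m10, show (1 : ZMod 5).val = 1 from rfl]
  have m2 : m10 a b 0 1 = b := by simp [m10, show (1 : ZMod 5).val = 1 from rfl]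
  have act : ∀ (g : Nm (P : Subgroup S)) (i j : ZMod 5), E10 z ((g : S) * m10 a b i j * (g : S)⁻¹)
      (m10 a b (α g * i + β g * j) (γ g * i + δ g * j)) := by
    intro g i j
    have e : (g : S) * m10 a b i j * (g : S)⁻¹ =
        ((g : S) * a * (g : S)⁻¹) ^ i.val * ((g : S) * b * (g : S)⁻¹) ^ j.val := by
      rw [conj_pow, conj_pow]; unfold m10; group
    have h1 := h.a10_pow ha hb (hN g a ha) (hA g) i.val
    have h2 := h.a10_pow ha hb (hN g b hb) (hB g) j.val
    rw [ZMod.natCast_zmod_val] at h1 h2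
    rw [e]
    exact (h.a10_mul (pow_mem (hN g a ha) _) h1 h2).trans (h.a10_madd ha hb _ _ _ _)
  have one : ∀ g : Nm (P : Subgroup S), E10 z ((g : S) * a * (g : S)⁻¹) a →
      E10 z ((g : S) * b * (g : S)⁻¹) b → !![α g, β g; γ g, δ g] = 1 := by
    intro g h1 h2
    obtain ⟨e1, e2⟩ := h.a10_inj ha hb hab ((hA g).symm.trans (m1.symm ▸ h1 : E10 z _ (m10 a b 1 0)))
    obtain ⟨e3, e4⟩ := h.a10_inj ha hb hab ((hB g).symm.trans (m2.symm ▸ h2 : E10 z _ (m10 a b 0 1)))
    rw [e1, e2, e3, e4, Matrix.one_fin_two]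
  let ρ : Nm (P : Subgroup S) →* Matrix (Fin 2) (Fin 2) (ZMod 5) :=
    { toFun := fun g => !![α g, β g; γ g, δ g]
      map_one' := one 1 (by simpa using E10.refl z a) (by simpa using E10.refl z b)
      map_mul' := fun g k => by
        have e : ∀ x : S, ((g * k : Nm (P : Subgroup S)) : S) * x * ((g * k : Nm (P : Subgroup S)) : S)⁻¹
            = (g : S) * ((k : S) * x * (k : S)⁻¹) * (g : S)⁻¹ := fun x => by
          rw [Subgroup.coe_mul]; group
        have h1 := hA (g * k)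
        have h2 := hB (g * k)
        rw [e] at h1 h2
        obtain ⟨e1, e2⟩ := h.a10_inj ha hb hab
          (h1.symm.trans ((h.a10_cj g.2 (hA k)).trans (act g _ _)))
        obtain ⟨e3, e4⟩ := h.a10_inj ha hb hab
          (h2.symm.trans ((h.a10_cj g.2 (hB k)).trans (act g _ _)))
        rw [e1, e2, e3, e4, Matrix.mul_fin_two] }
  have hρ : ∀ g, ρ g = !![α g, β g; γ g, δ g] := fun g => rfl
  have hz : ∀ g : Nm (P : Subgroup S), (g : S) * z * (g : S)⁻¹ = z ^ (ρ g).det.val := by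
    intro g
    have t1 : c10 a b ≠ 1 := fun e => hab (by
      unfold c10 at e
      rwa [mul_inv_eq_one, mul_inv_eq_iff_eq_mul] at e)
    have tZ : c10 a b ∈ zpowers z := h.comm_mem ha hb
    obtain ⟨k, hk⟩ := mem_zpowers_iff.1 ((h.chg (h.a1a_zle tZ) t1
      fun x hx => h.a1a_zc tZ hx).2.symm ▸ mem_zpowers z : z ∈ zpowers (c10 a b))
    have e : (g : S) * c10 a b * (g : S)⁻¹ = c10 a b ^ (ρ g).det.val := by
      have h1 := h.a10_cE (hm _ _) (hm _ _) (hA g) (hB g)
      rw [h.a10_cm ha hb] at h1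
      rw [hρ, Matrix.det_fin_two_of, mul_comm (β g), ← h1]
      unfold c10; group
    generalize (ρ g).det.val = n at e
    rw [← hk, ← conj_zpow, e, ← zpow_natCast, ← zpow_natCast, ← zpow_mul, ← zpow_mul, mul_comm]
  have hz1 : ∀ g : Nm (P : Subgroup S), (ρ g).det = 1 → (g : S) * z = z * g := by
    intro g e
    have := hz g
    rw [e, show (1 : ZMod 5).val = 1 from rfl, pow_one, mul_inv_eq_iff_eq_mul] at this
    exact this
  have fix : ∀ g : Nm (P : Subgroup S), ((ρ g).det = 1 ∨ (ρ g - 1).det = 0) →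
      ∃ u ∈ (P : Subgroup S), u ≠ 1 ∧ (g : S) * u = u * g := by
    intro g hd
    by_cases e : (ρ g).det = 1
    · exact ⟨z, h.zP, h.z1, hz1 g e⟩
    obtain ⟨v, v0, hv⟩ := Matrix.exists_mulVec_eq_zero_iff.2 (hd.resolve_left e)
    have e0 : α g * v 0 + β g * v 1 = v 0 := by
      have := congrFun hv 0
      simp [hρ, Matrix.mulVec, dotProduct, Fin.sum_univ_two] at this
      linear_combination this
    have e1 : γ g * v 0 + δ g * v 1 = v 1 := by
      have := congrFun hv 1
      simp [hρ, Matrix.mulVec, dotProduct, Fin.sum_univ_two] at this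
      linear_combination this
    have h1 := act g (v 0) (v 1)
    rw [e0, e1] at h1
    obtain ⟨j, hj⟩ := (mem_powers_iff_mem_zpowers.2 h1 : _ ∈ Submonoid.powers z)
    have z5 : z ^ 5 = 1 := h.pow5 h.zP
    set u := m10 a b (v 0) (v 1) with hu
    set d := (ρ g).det with hdd
    let ε : ZMod 5 := j * (1 - d)⁻¹
    have hε : (j : ZMod 5) + d * ε = ε := by
      have : (1 - d) ≠ 0 := fun e' => e (by linear_combination -e')
      have h2 : ε * (1 - d) = j := by simp only [ε]; rw [mul_assoc, inv_mul_cancel₀ this, mul_one]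
      linear_combination -h2
    refine ⟨z ^ ε.val * u, mul_mem (pow_mem h.zP _) (hm _ _), fun e' => v0 ?_, ?_⟩
    · have h3 : E10 z u (m10 a b 0 0) := by
        have : u = (z ^ ε.val)⁻¹ := eq_inv_of_mul_eq_one_right e'
        unfold E10
        rw [this]
        simpa [m10] using pow_mem (mem_zpowers z) ε.val
      obtain ⟨e2, e3⟩ := h.a10_inj ha hb hab h3
      ext i
      fin_cases i
      · exact e2
      · exact e3
    · have h4 : (g : S) * u * (g : S)⁻¹ = z ^ j * u := by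
        have : z ^ j = _ := hj
        rw [this]; group
      have h5 : z ^ (d.val * ε.val) * z ^ j = z ^ ε.val := by
        rw [← pow_add, ← a10_pw z5]
        congr 2
        push_cast
        simp only [ZMod.natCast_val, ZMod.cast_id', id_eq]
        linear_combination hε
      rw [← mul_inv_eq_iff_eq_mul]
      calc (g : S) * (z ^ ε.val * u) * (g : S)⁻¹
          = ((g : S) * z * (g : S)⁻¹) ^ ε.val * ((g : S) * u * (g : S)⁻¹) := by rw [conj_pow]; group
        _ = _ := by rw [hz g, h4, ← pow_mul, ← mul_assoc, h5]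
  refine ⟨ρ, hA, hB, hz, fun i j k l e => h.a10_inj ha hb hab e,
    fun y hy => h.a10_sur ha hb hab hy, act, fun g _ hd => fix g hd, fun g h5 hd => ?_,
    fun g h5 => ⟨fun e => ?_, fun e => ?_⟩, fun g hg => ?_⟩
  · obtain ⟨u, hu, u1, e⟩ := fix g hd
    exact (h.com6 (h.ord5 hu u1) e h5).imp Subtype.ext Subtype.ext
  · have gz := hz1 g (by rw [e, Matrix.det_one])
    refine (h.mem_Y (Or.inr rfl)).2 ⟨mem_Ce.2 fun y hy => ?_, ?_⟩
    · obtain ⟨i, j, hij⟩ := h.a10_sur ha hb hab hy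
      have h1 := act g i j
      have e1 : α g = 1 := congrFun (congrFun e 0) 0
      have e2 : β g = 0 := congrFun (congrFun e 0) 1
      have e3 : γ g = 0 := congrFun (congrFun e 1) 0
      have e4 : δ g = 1 := congrFun (congrFun e 1) 1
      rw [e1, e2, e3, e4, one_mul, zero_mul, zero_mul, one_mul, add_zero, zero_add] at h1
      have h2 := ((h.a10_cj g.2 hij).trans h1).trans hij.symm
      obtain ⟨k, hk⟩ := (mem_powers_iff_mem_zpowers.2 h2 : _ ∈ Submonoid.powers z)
      have h3 : (g : S) * y = z ^ k * y * g := by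
        have : z ^ k = _ := hk
        rw [this]; group
      have gw : Commute (g : S) (z ^ k) := Commute.pow_right gz k
      have h4 : ∀ n : ℕ, (g : S) ^ n * y = (z ^ k) ^ n * y * (g : S) ^ n := by
        intro n
        induction n with
        | zero => simp
        | succ n ih =>
          calc (g : S) ^ (n + 1) * y = g * ((g : S) ^ n * y) := by rw [pow_succ', mul_assoc]
            _ = (g * (z ^ k) ^ n) * y * (g : S) ^ n := by rw [ih]; simp only [mul_assoc]
            _ = (z ^ k) ^ n * (g * y) * (g : S) ^ n := by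
              rw [(gw.pow_right n).eq]; simp only [mul_assoc]
            _ = _ := by rw [h3, pow_succ, pow_succ']; simp only [mul_assoc]
      have h6 := h4 (orderOf (g : S))
      rw [pow_orderOf_eq_one, one_mul, mul_one, right_eq_mul] at h6
      have h7 : z ^ k = 1 := a3_one ((Nat.Prime.coprime_iff_not_dvd (by norm_num)).2 h5)
        (h.pow5 (pow_mem h.zP k)) h6
      rw [h3, h7, one_mul]
    · rcases h.com6 h.oz gz h5 with e' | e'
      · rw [show 6 = 2 * 3 from rfl, pow_mul, e', one_pow]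
      · rw [show 6 = 3 * 2 from rfl, pow_mul, e', one_pow]
  · have hc := mem_Ce.1 (Y_le_Ce _ e)
    refine one g ?_ ?_
    · rw [← hc a ha, mul_inv_cancel_right]; exact E10.refl z a
    · rw [← hc b hb, mul_inv_cancel_right]; exact E10.refl z b
  · exact one g (h.comm_mem hg ha) (h.comm_mem hg hb)

theorem St.exab (h : St P z) :
    ∃ a ∈ (P : Subgroup S), ∃ b ∈ (P : Subgroup S), a * b ≠ b * a := by
  by_contra hc
  push Not at hc
  exact h.a1a_nab hc

end Cfsg.Agent.MCX
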