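import Cfsg.Agent.MCX.A0

/-! Structure of `P = 5^{1+2}`, I. -/

set_option autoImplicit false

namespace Cfsg.Agent.MCX

open Subgroup

variable {S : Type*} [Group S] [Finite S] {P : Sylow 5 S} {z : S}

theorem a1a_lt {A B : Subgroup S} (hAB : A ≤ B) {w : S} (hw : w ∈ B) (hA : w ∉ A) :
    Nat.card A < Nat.card B := by
  by_contra hn
  exact hA (by rw [Subgroup.eq_of_le_of_card_ge hAB (by omega)]; exact hw)

theorem St.a1a_card (h : St P z) {B : Subgroup S} (hB : B ≤ (P : Subgroup S)) :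
    Nat.card B = 1 ∨ Nat.card B = 5 ∨ Nat.card B = 25 ∨ Nat.card B = 125 := by
  have h1 := Subgroup.card_dvd_of_le hB
  rw [h.cardQ P, show 125 = 5 ^ 3 by norm_num, Nat.dvd_prime_pow (by norm_num)] at h1
  obtain ⟨k, hk, e⟩ := h1
  interval_cases k <;> simp [e]

theorem St.a1a_top (h : St P z) {B : Subgroup S} (hB : B ≤ (P : Subgroup S))
    (hc : 25 < Nat.card B) : B = (P : Subgroup S) := by
  refine Subgroup.eq_of_le_of_card_ge hB ?_
  have := h.a1a_card hB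
  rw [h.cardQ P]
  omega

theorem St.a1a_nab (h : St P z)
    (hc : ∀ a ∈ (P : Subgroup S), ∀ b ∈ (P : Subgroup S), a * b = b * a) : False :=
  h.nab ⟨⟨fun a b => Subtype.ext (hc a a.2 b b.2)⟩⟩

theorem St.a1a_cz (h : St P z) : Nat.card (zpowers z) = 5 := by
  rw [Nat.card_zpowers, h.oz]

theorem St.a1a_zle (h : St P z) : zpowers z ≤ (P : Subgroup S) := (zpowers_le).2 h.zP

theorem St.a1a_zc (h : St P z) {w g : S} (hw : w ∈ zpowers z) (hg : g ∈ (P : Subgroup S)) :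
    g * w = w * g := by
  obtain ⟨k, rfl⟩ := mem_zpowers_iff.1 hw
  exact (Commute.zpow_right (h.zc g hg) k).eq

/-- `Z(P)` has order 5 (`P/Z(P)` cyclic would make `P` abelian). -/
theorem St.cen (h : St P z) {g : S} (hg : g ∈ (P : Subgroup S))
    (hc : ∀ y ∈ (P : Subgroup S), y * g = g * y) : g ∈ zpowers z := by
  by_contra hn
  set C : Subgroup S := (P : Subgroup S) ⊓ Ce (P : Subgroup S) with hC
  have h1 : zpowers z ≤ C := fun w hw =>
    ⟨h.a1a_zle hw, mem_Ce.2 fun y hy => h.a1a_zc hw hy⟩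
  have h2 := a1a_lt h1 (show g ∈ C from ⟨hg, mem_Ce.2 hc⟩) hn
  rw [h.a1a_cz] at h2
  have h3 := h.a1a_card (show C ≤ (P : Subgroup S) from inf_le_left)
  apply h.a1a_nab
  intro a ha
  by_cases haC : a ∈ C
  · exact fun b hb => (mem_Ce.1 haC.2 b hb).symm
  have h4 : C ≤ (P : Subgroup S) ⊓ Cz a := fun w hw =>
    ⟨hw.1, mem_Cz.2 (mem_Ce.1 hw.2 a ha).symm⟩
  have h5 := a1a_lt h4 (show a ∈ (P : Subgroup S) ⊓ Cz a from ⟨ha, mem_Cz.2 rfl⟩) haC
  have h6 := h.a1a_top (show (P : Subgroup S) ⊓ Cz a ≤ (P : Subgroup S) from inf_le_left)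
    (by omega)
  intro b hb
  rw [← h6] at hb
  exact (mem_Cz.1 hb.2).symm

/-- `P/Z` has order 25, so is abelian. -/
theorem St.comm_mem (h : St P z) {a b : S} (ha : a ∈ (P : Subgroup S))
    (hb : b ∈ (P : Subgroup S)) : a * b * a⁻¹ * b⁻¹ ∈ zpowers z := by
  haveI hn : ((zpowers z).subgroupOf (P : Subgroup S)).Normal := ⟨fun n hn g => by
    rw [mem_subgroupOf] at hn ⊢
    have e : ((g * n * g⁻¹ : (P : Subgroup S)) : S) = n := by
      simp only [Subgroup.coe_mul, Subgroup.coe_inv]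
      rw [h.a1a_zc hn g.2]
      simp
    rw [e]
    exact hn⟩
  have h1 := Subgroup.card_eq_card_quotient_mul_card_subgroup
    ((zpowers z).subgroupOf (P : Subgroup S))
  rw [Nat.card_congr (Subgroup.subgroupOfEquivOfLe h.a1a_zle).toEquiv, h.a1a_cz, h.cardQ P] at h1
  have h2 : Nat.card ((P : Subgroup S) ⧸ (zpowers z).subgroupOf (P : Subgroup S)) = 5 ^ 2 := by
    omega
  have h3 := (IsPGroup.isMulCommutative_of_card_eq_prime_sq h2).is_comm.comm
  have h4 : ((⟨a, ha⟩ * ⟨b, hb⟩ * (⟨a, ha⟩ : (P : Subgroup S))⁻¹ *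
      (⟨b, hb⟩ : (P : Subgroup S))⁻¹ : (P : Subgroup S)) :
      (P : Subgroup S) ⧸ (zpowers z).subgroupOf (P : Subgroup S)) = 1 := by
    simp only [QuotientGroup.mk_mul, QuotientGroup.mk_inv]
    rw [h3 (QuotientGroup.mk ⟨a, ha⟩) (QuotientGroup.mk ⟨b, hb⟩)]
    simp
  rw [QuotientGroup.eq_one_iff, mem_subgroupOf] at h4
  exact h4

theorem St.Dcomm (h : St P z) {D : Subgroup S} (hD : IsD P D) {a b : S} (ha : a ∈ D)
    (hb : b ∈ D) : a * b = b * a := by
  have _ := h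
  have h2 : Nat.card D = 5 ^ 2 := hD.2
  have h3 := (IsPGroup.isMulCommutative_of_card_eq_prime_sq h2).is_comm.comm ⟨a, ha⟩ ⟨b, hb⟩
  exact congrArg Subtype.val h3

/-- otherwise `P = D⟨z⟩` is abelian -/
theorem St.zD (h : St P z) {D : Subgroup S} (hD : IsD P D) : z ∈ D := by
  by_contra hn
  have key : ∀ d ∈ D, d ∈ zpowers z := by
    intro d hd
    have h4 : D ≤ (P : Subgroup S) ⊓ Cz d := fun w hw =>
      ⟨hD.1 hw, mem_Cz.2 (h.Dcomm hD hw hd)⟩
    have h5 := a1a_lt h4 (show z ∈ (P : Subgroup S) ⊓ Cz d from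
      ⟨h.zP, mem_Cz.2 (h.zc d (hD.1 hd)).symm⟩) hn
    rw [hD.2] at h5
    have h6 := h.a1a_top (show (P : Subgroup S) ⊓ Cz d ≤ (P : Subgroup S) from inf_le_left) h5
    refine h.cen (hD.1 hd) fun y hy => ?_
    rw [← h6] at hy
    exact mem_Cz.1 hy.2
  have h7 := Subgroup.card_le_of_le (show D ≤ zpowers z from key)
  rw [hD.2, h.a1a_cz] at h7
  omega

theorem St.Dnorm (h : St P z) {D : Subgroup S} (hD : IsD P D) : (P : Subgroup S) ≤ Nm D := by
  have hz : zpowers z ≤ D := (zpowers_le).2 (h.zD hD)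
  have key : ∀ g ∈ (P : Subgroup S), ∀ d ∈ D, g * d * g⁻¹ ∈ D := by
    intro g hg d hd
    have := D.mul_mem (hz (h.comm_mem hg (hD.1 hd))) hd
    simpa using this
  intro g hg
  rw [Subgroup.mem_normalizer_iff]
  intro d
  refine ⟨fun hd => key g hg d hd, fun hd => ?_⟩
  have := key g⁻¹ (Subgroup.inv_mem _ hg) _ hd
  simpa [mul_assoc] using this

/-- `C_P(d)` contains `D` and is proper for `d ∉ Z`. -/
theorem St.Dcen (h : St P z) {D : Subgroup S} (hD : IsD P D) {d y : S} (hd : d ∈ D)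
    (hz : d ∉ zpowers z) (hy : y ∈ (P : Subgroup S)) (hc : y * d = d * y) : y ∈ D := by
  by_contra hn
  have h4 : D ≤ (P : Subgroup S) ⊓ Cz d := fun w hw =>
    ⟨hD.1 hw, mem_Cz.2 (h.Dcomm hD hw hd)⟩
  have h5 := a1a_lt h4 (show y ∈ (P : Subgroup S) ⊓ Cz d from ⟨hy, mem_Cz.2 hc⟩) hn
  rw [hD.2] at h5
  have h6 := h.a1a_top (show (P : Subgroup S) ⊓ Cz d ≤ (P : Subgroup S) from inf_le_left) h5
  refine hz (h.cen (hD.1 hd) fun w hw => ?_)
  rw [← h6] at hw
  exact mem_Cz.1 hw.2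

/-- every Sylow 5-subgroup is a conjugate of `P` -/
theorem St.other (h : St P z) (Q : Sylow 5 S) :
    ∃ g : S, (Q : Subgroup S) = cj g (P : Subgroup S) ∧ St Q (g * z * g⁻¹) := by
  obtain ⟨g, hg⟩ := MulAction.exists_smul_eq S P Q
  have e : (Q : Subgroup S) = cj g (P : Subgroup S) := by
    rw [← hg]
    rfl
  have hm : ∀ y, y ∈ (Q : Subgroup S) ↔ g⁻¹ * y * g ∈ (P : Subgroup S) := fun y => by
    rw [e, mem_cj]
  refine ⟨g, e, h.simple, h.card, h.om, fun hc => ?_, ?_, fun h1 => h.z1 ?_, fun y hy => ?_⟩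
  · apply h.a1a_nab
    intro a ha b hb
    have ha' : g * a * g⁻¹ ∈ (Q : Subgroup S) := (hm _).2 (by simpa [mul_assoc] using ha)
    have hb' : g * b * g⁻¹ ∈ (Q : Subgroup S) := (hm _).2 (by simpa [mul_assoc] using hb)
    have h3 : g * a * g⁻¹ * (g * b * g⁻¹) = g * b * g⁻¹ * (g * a * g⁻¹) :=
      congrArg Subtype.val (hc.is_comm.comm ⟨_, ha'⟩ ⟨_, hb'⟩)
    calc a * b = g⁻¹ * (g * a * g⁻¹ * (g * b * g⁻¹)) * g := by group
      _ = g⁻¹ * (g * b * g⁻¹ * (g * a * g⁻¹)) * g := by rw [h3]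
      _ = b * a := by group
  · exact (hm _).2 (by simpa [mul_assoc] using h.zP)
  · simpa using h1
  · have h3 := h.zc _ ((hm y).1 hy)
    calc y * (g * z * g⁻¹) = g * (g⁻¹ * y * g * z) * g⁻¹ := by group
      _ = g * (z * (g⁻¹ * y * g)) * g⁻¹ := by rw [h3]
      _ = g * z * g⁻¹ * y := by group

/-- another generator of the centre -/
theorem St.chg (h : St P z) {w : S} (hw : w ∈ (P : Subgroup S)) (h1 : w ≠ 1)
    (hc : ∀ g ∈ (P : Subgroup S), g * w = w * g) : St P w ∧ zpowers w = zpowers z := by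
  have hs : St P w := ⟨h.simple, h.card, h.om, h.nab, hw, h1, hc⟩
  exact ⟨hs, le_antisymm ((zpowers_le).2 (h.cen hw hc)) ((zpowers_le).2 (hs.cen h.zP h.zc))⟩

theorem St.NmP_z (h : St P z) {g : S} (hg : g ∈ Nm (P : Subgroup S)) :
    g * z * g⁻¹ ∈ zpowers z := by
  rw [Subgroup.mem_normalizer_iff] at hg
  refine h.cen ((hg z).1 h.zP) fun y hy => ?_
  have h2 : g⁻¹ * y * g ∈ (P : Subgroup S) := (hg _).2 (by simpa [mul_assoc] using hy)
  have h3 := h.zc _ h2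
  calc y * (g * z * g⁻¹) = g * (g⁻¹ * y * g * z) * g⁻¹ := by group
    _ = g * (z * (g⁻¹ * y * g)) * g⁻¹ := by rw [h3]
    _ = g * z * g⁻¹ * y := by group

theorem exists_St [IsSimpleGroup S] (hc : Nat.card S = 898128000) (ho : Om S) (P : Sylow 5 S)
    (hP : ¬ IsMulCommutative (P : Subgroup S)) : ∃ z, St P z := by
  haveI : Nontrivial (P : Subgroup S) := by
    by_contra hn
    haveI := not_nontrivial_iff_subsingleton.1 hn
    exact hP ⟨⟨fun a b => Subsingleton.elim _ _⟩⟩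
  haveI := P.isPGroup'.center_nontrivial
  obtain ⟨w, hw⟩ := exists_ne (1 : Subgroup.center (P : Subgroup S))
  refine ⟨((w : (P : Subgroup S)) : S), inferInstance, hc, ho, hP, (w : (P : Subgroup S)).2,
    fun h1 => hw (Subtype.ext (Subtype.ext h1)), fun g hg => ?_⟩
  exact congrArg Subtype.val (Subgroup.mem_center_iff.1 w.2 ⟨g, hg⟩)

end Cfsg.Agent.MCX
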