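import Cfsg.Agent.MCX.Bas

/-! Groups all of whose elements have order 1, 2 or 3. -/

set_option autoImplicit false

namespace Cfsg.Agent.MCX

open Subgroup

variable {S : Type*} [Group S] [Finite S] {P : Sylow 5 S} {z : S}


theorem a2_idx {G : Type*} [Group G] {R : Subgroup G} [R.Normal] {u : G} {n : ℕ} (hu : u ^ n = 1)
    (h : ∀ g, ∃ i : ℤ, (u ^ i)⁻¹ * g ∈ R) : R.index ∣ n := by
  have e : zpowers (u : G ⧸ R) = ⊤ := eq_top_iff.2 fun x _ => by
    obtain ⟨g, rfl⟩ := QuotientGroup.mk_surjective x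
    obtain ⟨i, hi⟩ := h g
    exact ⟨i, (QuotientGroup.mk_zpow R u i).symm.trans (QuotientGroup.eq.2 hi)⟩
  rw [index, ← card_top, ← e, Nat.card_zpowers, orderOf_dvd_iff_pow_eq_one, ← QuotientGroup.mk_pow, hu]
  rfl

theorem a2_core {G : Type*} [Group G] [Finite G] (h : ∀ g : G, g ^ 2 = 1 ∨ g ^ 3 = 1) :
    (∃ R : Subgroup G, R.Normal ∧ (∀ g, g ∈ R ↔ g ^ 2 = 1) ∧ R.index ∣ 3) ∨
      (∃ R : Subgroup G, R.Normal ∧ (∀ g, g ∈ R ↔ g ^ 3 = 1) ∧ R.index ∣ 2) := by
  classical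
  by_cases h3 : ∀ g : G, g ^ 3 = 1
  · exact Or.inr ⟨⊤, inferInstance, fun g => by simp [h3], by simp⟩
  push Not at h3
  obtain ⟨s, s3⟩ := h3
  have s2 := (h s).resolve_right s3
  have : Nontrivial G := ⟨s, 1, fun e => s3 (by rw [e, one_pow])⟩
  have k6 : ∀ a b : G, Commute a b → a ^ 2 = 1 → b ^ 3 = 1 → a = 1 ∨ b = 1 := fun a b c ha hb =>
    (h (a * b)).symm.imp (fun e => by rwa [c.mul_pow, hb, mul_one, pow_succ, ha, one_mul] at e) fun e => by
      rw [c.mul_pow, ha, one_mul] at e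
      rwa [pow_succ, e, one_mul] at hb
  obtain ⟨m, hm⟩ := (Char.isSolvable_of_card_dvd_pow_mul_pow (a := Nat.card G) (b := Nat.card G) Nat.prime_two
    Nat.prime_three G (by
      rw [← mul_pow]
      refine (Nat.dvd_prod_primeFactors_pow_self Nat.card_pos.ne').trans (pow_dvd_pow_of_dvd ?_ _)
      refine (Finset.prod_dvd_prod_of_subset _ {2, 3} _ fun p hp => ?_).trans (by simp)
      have := Fact.mk (Nat.prime_of_mem_primeFactors hp)
      obtain ⟨g, rfl⟩ := exists_prime_orderOf_dvd_card' p (Nat.dvd_of_mem_primeFactors hp)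
      simp only [Finset.mem_insert, Finset.mem_singleton, ← Nat.prime_dvd_prime_iff_eq this.out Nat.prime_two,
        ← Nat.prime_dvd_prime_iff_eq this.out Nat.prime_three, orderOf_dvd_iff_pow_eq_one]
      exact h g)).solvable
  obtain ⟨N, nN, N1, cN⟩ : ∃ N : Subgroup G, N.Normal ∧ N ≠ ⊥ ∧ N ≤ centralizer N := by
    induction m with
    | zero => exact absurd hm top_ne_bot
    | succ m ih =>
      by_cases e : derivedSeries G m = ⊥
      · exact ih e
      · exact ⟨_, derivedSeries_normal G m, e, commutator_eq_bot_iff_le_centralizer.1 hm⟩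
  obtain ⟨⟨n, hn⟩, n1⟩ := ne_bot_iff_exists_ne_one.1 N1
  replace n1 : n ≠ 1 := fun e => n1 (Subtype.ext e)
  have q3 : ∀ t x : G, x ∈ N → t ^ 2 = 1 → (t * x) ^ 3 = 1 → t ∈ N := fun t x hx ht e => by
    have := congrArg (QuotientGroup.mk' N) e
    rwa [map_pow, map_mul, show QuotientGroup.mk' N x = 1 from (QuotientGroup.eq_one_iff x).2 hx, mul_one,
      ← map_pow, pow_succ, ht, one_mul, map_one, QuotientGroup.mk'_apply, QuotientGroup.eq_one_iff] at this
  rcases h n with e | e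
  · have c2 : ∀ g ∈ centralizer (N : Set G), g ^ 2 = 1 := fun g hg => (h g).elim id fun k => by
      rw [(k6 n g (hg n hn) e k).resolve_left n1, one_pow]
    have i2 : ∀ g : G, g ^ 2 = 1 → g⁻¹ = g := fun g k => inv_eq_of_mul_eq_one_left (by rwa [← pow_two])
    have R2 : ∀ g, g ∈ centralizer (N : Set G) ↔ g ^ 2 = 1 := fun g => ⟨c2 g, fun k x hx =>
      (h (g * x)).elim (fun k' => by rw [← i2 _ k', mul_inv_rev, i2 g k, i2 x (c2 x (cN hx))])
        fun k' => cN (q3 g x hx k k') x hx⟩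
    refine Or.inl ⟨_, inferInstance, R2, ?_⟩
    by_cases c : ∀ u, u ∈ centralizer (N : Set G)
    · rw [(eq_top_iff' _).2 c]; simp
    push Not at c
    obtain ⟨u, hu⟩ := c
    have o3 : ∀ w ∉ centralizer (N : Set G), w ^ 3 = 1 := fun w hw => (h w).resolve_left (mt (R2 w).2 hw)
    have key : ∀ w ∉ centralizer (N : Set G), ∀ x ∈ N, w * x * w⁻¹ * (w⁻¹ * x * w) = x := fun w hw x hx => by
      have k1 := o3 w hw
      have k2 := o3 (w * x) (by rwa [mul_mem_cancel_right (cN hx)])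
      have k3 : w⁻¹ * w⁻¹ = w := by
        rw [← mul_inv_rev, inv_eq_iff_mul_eq_one, ← k1, pow_succ, pow_two]
      rw [← i2 x (c2 x (cN hx)), eq_inv_iff_mul_eq_one, i2 x (c2 x (cN hx)), ← k2]
      calc _ = w * x * (w⁻¹ * w⁻¹) * x * w * x := by group
        _ = _ := by rw [k3, pow_succ, pow_two]; group
    refine a2_idx (o3 u hu) fun v => by_contra fun c => ?_
    push Not at c
    have k1 := key (u * v) (by simpa using c (-1)) n hn
    have k2 := key (u * v⁻¹) (fun k => c 1 (by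
      simpa [mul_assoc] using (inferInstance : (centralizer (N : Set G)).Normal).conj_mem _ (inv_mem k) u⁻¹)) n hn
    have k3 := key v (by simpa using c 0)
    have m1 : u⁻¹ * n * u ∈ N := nN.conj_mem' n hn u
    have cm : ∀ a b c d : G, a * n * a⁻¹ * (b * n * b⁻¹) * (c * n * c⁻¹ * (d * n * d⁻¹)) =
        a * n * a⁻¹ * (c * n * c⁻¹) * (d * n * d⁻¹ * (b * n * b⁻¹)) := fun a b c d => by
      rw [mul_assoc (a * n * a⁻¹), cN (mul_mem (nN.conj_mem n hn c) (nN.conj_mem n hn d)) _ (nN.conj_mem n hn b)]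
      group
    have k4 := cm (u * v) (u * v)⁻¹ (u * v⁻¹) (u * v⁻¹)⁻¹
    rw [inv_inv, inv_inv, k1, k2, ← pow_two, e] at k4
    refine n1 (((key u hu n hn).symm.trans ?_).trans k4.symm)
    conv_lhs => rw [← k3 _ m1]; enter [1, 1, 2]; rw [← k3 n hn]
    group
  · have c3 : ∀ g ∈ centralizer (N : Set G), g ^ 3 = 1 := fun g hg => (h g).elim (fun k => by
      rw [(k6 g n (hg n hn).symm k e).resolve_right n1, one_pow]) id
    have iv : ∀ t : G, ¬ t ^ 3 = 1 → ∀ x ∈ N, x * t = t * x⁻¹ := fun t ht x hx => by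
      have t2 := (h t).resolve_right ht
      have := (h (t * x)).resolve_right fun k => ht (c3 t (cN (q3 t x hx t2 k)))
      rw [pow_two] at this t2
      refine mul_left_cancel (a := t) ?_
      rw [← mul_assoc t t, t2, one_mul, eq_inv_iff_mul_eq_one, ← this]
      group
    have st : ∀ t : G, ¬ t ^ 3 = 1 → s * t ∈ centralizer (N : Set G) := fun t ht x hx => by
      rw [← mul_assoc, iv s s3 x hx, mul_assoc, iv t ht _ (inv_mem hx), inv_inv, mul_assoc]
    have R3 : ∀ g, g ∈ centralizer (N : Set G) ↔ g ^ 3 = 1 := fun g => ⟨c3 g, fun k => by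
      by_cases k' : (s * g) ^ 3 = 1
      · have k1 : g * (g⁻¹ * s * g) * g⁻¹ ∈ centralizer (N : Set G) := by
          have a1 := st (g * s * g⁻¹) (by rwa [conj_pow, conj_eq_one_iff])
          have nC : (centralizer (N : Set G)).Normal := inferInstance
          have a3 : s * (g * s * g⁻¹) * (g⁻¹ * s * g) = 1 := by
            have k3 : g⁻¹ * g⁻¹ = g := by
              rw [← mul_inv_rev, inv_eq_iff_mul_eq_one, ← k, pow_succ, pow_two]
            calc _ = s * g * s * (g⁻¹ * g⁻¹) * s * g := by group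
              _ = _ := by rw [k3, ← k', pow_succ, pow_two]; group
          refine nC.conj_mem _ ?_ g
          rw [← mul_mem_cancel_left a1, a3]
          exact one_mem _
        exact absurd (c3 _ k1) (by simpa [mul_assoc] using s3)
      · simpa [← mul_assoc, ← pow_two, s2] using st _ k'⟩
    refine Or.inr ⟨_, inferInstance, R3, a2_idx s2 fun g => ?_⟩
    by_cases k : g ^ 3 = 1
    · exact ⟨0, by simpa using (R3 g).2 k⟩
    · exact ⟨-1, by simpa using st g k⟩

/-- `G` is solvable (`isSolvable_of_card_dvd_pow_mul_pow` in Char/Burnside; only the primes 2, 3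
divide `|G|`). Commuting elements of orders 2 and 3 do not exist; Sylow 2-subgroups have
exponent 2, hence are abelian. Take a minimal normal (elementary abelian) `N ≠ 1`, or the last
nontrivial derived term and a nontrivial Sylow subgroup `N` of it. If `N` is a 2-group:
`C(N)` is a normal 2-group containing a Sylow 2-subgroup, take `R = C(N)`; a subgroup of order 9
(exponent 3, so non-cyclic abelian) acts on `N` with every non-identity element fixed point
free, impossible (e.g. count: for `n ≠ 1` in `N`, the product of `n^u` over a subgroup `⟨u⟩` of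
order 3 is fixed by `u`, so trivial; multiply these over the four subgroups: `n^3 * (norm) = 1`,
and the norm is trivial). If `N` is a 3-group: every involution inverts `N`, so a four-group is
impossible and `4 ∤ |G|`; a Sylow 3-subgroup has index `≤ 2`. -/
theorem ep_struct {G : Type*} [Group G] [Finite G] (h : ∀ g : G, g ^ 2 = 1 ∨ g ^ 3 = 1) :
    (∃ R : Subgroup G, R.Normal ∧ IsPGroup 2 R ∧ R.index ∣ 3) ∨
      (∃ R : Subgroup G, R.Normal ∧ IsPGroup 3 R ∧ R.index ∣ 2) :=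
  (a2_core h).imp (fun ⟨R, a, b, c⟩ => ⟨R, a, fun g => ⟨1, Subtype.ext ((b g).1 g.2)⟩, c⟩)
    fun ⟨R, a, b, c⟩ => ⟨R, a, fun g => ⟨1, Subtype.ext ((b g).1 g.2)⟩, c⟩

omit [Finite S] in
theorem a2_amb {A : Subgroup S} {R : Subgroup A} {r k : ℕ} (b : ∀ g, g ∈ R ↔ g ^ r = 1) (c : R.index ∣ k) :
    ∃ R : Subgroup S, R ≤ A ∧ IsPGroup r R ∧ Nm A ≤ Nm R ∧ Nat.card A ∣ k * Nat.card R ∧
      ∀ g ∈ A, (g ∈ R ↔ g ^ r = 1) := by
  have m : ∀ g, g ∈ R.map A.subtype ↔ g ∈ A ∧ g ^ r = 1 := fun g =>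
    ⟨by rintro ⟨x, hx, rfl⟩; exact ⟨x.2, congrArg Subtype.val ((b x).1 hx)⟩,
      fun k => ⟨⟨g, k.1⟩, (b _).2 (Subtype.ext k.2), rfl⟩⟩
  refine ⟨R.map A.subtype, map_subtype_le R, fun g => ⟨1, Subtype.ext ?_⟩, fun g hg => mem_normalizer_iff.2 fun x => ?_,
    ?_, fun g hg => by simp [m, hg]⟩
  · simpa using ((m g).1 g.2).2
  · rw [m, m, ← mem_normalizer_iff.1 hg, conj_pow, conj_eq_one_iff]
  · rw [card_map_of_injective A.subtype_injective, ← R.index_mul_card]
    exact Nat.mul_dvd_mul_right c _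

/-- ambient form; `R` is the set of elements with `g ^ r = 1`, so it is normalized by `N(A)` -/
theorem EP.amb {A : Subgroup S} (h : EP A) :
    (∃ R : Subgroup S, R ≤ A ∧ IsPGroup 2 R ∧ Nm A ≤ Nm R ∧ Nat.card A ∣ 3 * Nat.card R ∧
      ∀ g ∈ A, (g ∈ R ↔ g ^ 2 = 1)) ∨
    (∃ R : Subgroup S, R ≤ A ∧ IsPGroup 3 R ∧ Nm A ≤ Nm R ∧ Nat.card A ∣ 2 * Nat.card R ∧
      ∀ g ∈ A, (g ∈ R ↔ g ^ 3 = 1)) :=
  (a2_core (G := A) fun g => (h g g.2).imp Subtype.ext Subtype.ext).imp (fun ⟨_, _, b, c⟩ => a2_amb b c)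
    fun ⟨_, _, b, c⟩ => a2_amb b c

theorem a2_nd {R : Type*} [Group R] [Finite R] {p q : ℕ} (hp : p.Prime) (hq : q.Prime) (hR : IsPGroup p R)
    (h : q * q ∣ q * Nat.card R) : q = p := by
  have := Fact.mk hp
  obtain ⟨n, e⟩ := hR.exists_card_eq
  exact (Nat.prime_dvd_prime_iff_eq hq hp).1 (hq.dvd_of_dvd_pow (e ▸ Nat.dvd_of_mul_dvd_mul_left hq.pos h))

theorem ep_not_both {G : Type*} [Group G] [Finite G] (h : ∀ g : G, g ^ 2 = 1 ∨ g ^ 3 = 1)
    (h4 : 4 ∣ Nat.card G) (h9 : 9 ∣ Nat.card G) : False := by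
  rcases ep_struct h with ⟨R, -, b, c⟩ | ⟨R, -, b, c⟩
  · exact absurd (a2_nd Nat.prime_two Nat.prime_three b
      (h9.trans (R.index_mul_card ▸ Nat.mul_dvd_mul_right c _))) (by norm_num)
  · exact absurd (a2_nd Nat.prime_three Nat.prime_two b
      (h4.trans (R.index_mul_card ▸ Nat.mul_dvd_mul_right c _))) (by norm_num)

theorem EP.not_both {A : Subgroup S} (h : EP A) (h4 : 4 ∣ Nat.card A) (h9 : 9 ∣ Nat.card A) :
    False := ep_not_both (G := A) (fun g => (h g g.2).imp Subtype.ext Subtype.ext) h4 h9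

/-- if `9 ∣ |A|` the second alternative holds -/
theorem EP.three {A : Subgroup S} (h : EP A) (h9 : 9 ∣ Nat.card A) :
    ∃ R : Subgroup S, R ≤ A ∧ IsPGroup 3 R ∧ Nm A ≤ Nm R ∧ Nat.card A ∣ 2 * Nat.card R ∧
      ∀ g ∈ A, (g ∈ R ↔ g ^ 3 = 1) :=
  h.amb.resolve_left fun ⟨_, _, b, _, c, _⟩ =>
    absurd (a2_nd Nat.prime_two Nat.prime_three b (h9.trans c)) (by norm_num)

/-- if `4 ∣ |A|` the first alternative holds -/
theorem EP.two {A : Subgroup S} (h : EP A) (h4 : 4 ∣ Nat.card A) :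
    ∃ R : Subgroup S, R ≤ A ∧ IsPGroup 2 R ∧ Nm A ≤ Nm R ∧ Nat.card A ∣ 3 * Nat.card R ∧
      ∀ g ∈ A, (g ∈ R ↔ g ^ 2 = 1) :=
  h.amb.resolve_right fun ⟨_, _, b, _, c, _⟩ =>
    absurd (a2_nd Nat.prime_three Nat.prime_two b (h4.trans c)) (by norm_num)

end Cfsg.Agent.MCX
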