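import Cfsg.Agent.MCX.A1

/-! `C(D) = D × Y(D)`, `C(P) = Z × Y(P)`. -/

set_option autoImplicit false

namespace Cfsg.Agent.MCX

open Subgroup

variable {S : Type*} [Group S] [Finite S] {P : Sylow 5 S} {z : S}


theorem Nm_le_Y (A : Subgroup S) : Nm A ≤ Nm (Y A) := by
  intro g hg
  refine mem_normalizer_fintype fun n hn => ?_
  refine (closure_le ((Y A).comap (MulAut.conj g).toMonoidHom)).2 (fun x hx => subset_closure ⟨?_, ?_⟩) hn
  · refine mem_Ce.2 fun y hy => ?_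
    have e := mem_Ce.1 hx.1 _ ((mem_normalizer_iff''.1 hg y).1 hy)
    change y * (g * x * g⁻¹) = g * x * g⁻¹ * y
    rw [show y * (g * x * g⁻¹) = g * (g⁻¹ * y * g * x) * g⁻¹ by group, e]
    group
  · change (g * x * g⁻¹) ^ 6 = 1
    rw [conj_pow, hx.2, mul_one, mul_inv_cancel]

theorem a3_one {C : Type*} [Group C] {u : C} {m n : ℕ} (h : m.Coprime n) (h1 : u ^ m = 1) (h2 : u ^ n = 1) :
    u = 1 := orderOf_eq_one_iff.1
  (Nat.eq_one_of_dvd_coprimes h (orderOf_dvd_of_pow_eq_one h1) (orderOf_dvd_of_pow_eq_one h2))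

theorem a3_mul {C : Type*} [Group C] [Finite C] (h30 : ∀ c : C, c ^ 30 = 1)
    (h5 : ∀ c : C, c ^ 5 = 1 → c ∈ center C) {a b : C} (ha : a ^ 6 = 1) (hb : b ^ 6 = 1) :
    (a * b) ^ 6 = 1 := by
  obtain ⟨R⟩ : Nonempty (Sylow 5 C) := inferInstance
  have hR : (R : Subgroup C) ≤ center C := fun r hr => h5 r (by
    obtain ⟨k, hk⟩ := R.2 ⟨r, hr⟩
    refine a3_one (Nat.Coprime.pow_right k (by norm_num : Nat.Coprime 6 5)) (by rw [← pow_mul, h30]) ?_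
    rw [pow_right_comm, show r ^ 5 ^ k = 1 from congrArg Subtype.val hk, one_pow])
  have hn : ¬ 5 ∣ (center C).index := fun e => R.not_dvd_index (e.trans (index_dvd_of_le hR))
  refine a3_one ((Nat.Prime.coprime_iff_not_dvd (by norm_num)).2 hn) (by rw [← pow_mul, h30]) ?_
  have e : MonoidHom.transferCenterPow C (a * b) ^ 6 = 1 := by
    rw [map_mul, Commute.mul_pow (Subtype.ext (mem_center_iff.1 (Subtype.prop _) _)), ← map_pow, ← map_pow, ha, hb,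
      map_one, mul_one]
  rw [pow_right_comm, ← MonoidHom.transferCenterPow_apply, ← coe_pow, e, coe_one]

theorem St.a3_z (h : St P z) {A : Subgroup S} (hA : IsD P A ∨ A = (P : Subgroup S)) : z ∈ A :=
  hA.elim h.zD fun e => e ▸ h.zP

theorem St.a3_30 (h : St P z) {A : Subgroup S} (hA : IsD P A ∨ A = (P : Subgroup S)) {c : S}
    (hc : c ∈ Ce A) : c ^ 30 = 1 := orderOf_dvd_iff_pow_eq_one.1
  ((h.com h.oz (mem_Ce.1 hc z (h.a3_z hA)).symm).elim (·.trans (by norm_num)) (·.trans (by norm_num)))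

theorem a3_pg {A : Subgroup S} (hA : IsPGroup 5 A) {c : S} (hc : c ∈ Ce A) (h5 : c ^ 5 = 1) :
    IsPGroup 5 ↥(zpowers c ⊔ A) :=
  IsPGroup.to_sup_of_normal_right' (fun ⟨_, k, rfl⟩ => ⟨1, Subtype.ext (by
    change (c ^ k) ^ 5 ^ 1 = 1
    rw [pow_one, ← zpow_natCast, zpow_comm, zpow_natCast, h5, one_zpow])⟩) hA
    (zpowers_le.2 (centralizer_le_normalizer _ hc))

theorem St.a3_D (h : St P z) {D : Subgroup S} (hD : IsD P D) {c : S} (hc : c ∈ Ce D)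
    (h5 : c ^ 5 = 1) : c ∈ D := by
  obtain ⟨Q, hQ⟩ := (a3_pg (P.2.to_le hD.1) hc h5).exists_le_sylow
  obtain ⟨g, -, hq⟩ := h.other Q
  obtain ⟨d, hd, hz⟩ : ∃ d ∈ D, d ∉ zpowers (g * z * g⁻¹) := by
    by_contra! k
    have := card_le_of_le (show D ≤ _ from k)
    rw [Nat.card_zpowers, hq.oz, hD.2] at this
    omega
  exact hq.Dcen ⟨le_sup_right.trans hQ, hD.2⟩ hd hz (hQ (mem_sup_left (mem_zpowers c)))
    (mem_Ce.1 hc d hd).symm

theorem a3_P {c : S} (hc : c ∈ Ce (P : Subgroup S)) (h5 : c ^ 5 = 1) : c ∈ (P : Subgroup S) :=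
  (P.3 (a3_pg P.2 hc h5) le_sup_right).le (mem_sup_left (mem_zpowers c))

/-- `A ∩ C(A)` (that is `D`, resp. `Z`) is a central Sylow 5-subgroup of `C(A)` (a Sylow
5-subgroup of `C(D)` above `D` lies in a Sylow `Q` of `S`, for which `St.other`, `St.Dcen` apply;
a 5-element `g` of `C(P)` lies in the 5-group `P⟨g⟩ = P`). So `c ↦ c ^ 6` kills exactly ...:
simplest: every `c ∈ C(A)` has order dividing 10 or 15 (`St.com` with `z`), its 5-part `c^6`
(`c^6` has order dividing 5) lies in the central Sylow subgroup, so by Burnside/Schur-Zassenhaus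
(`MonoidHom.ker_transferSylow_isComplement'` or a complement `M` to the central Sylow subgroup:
`C(A) = Z0 × M`) the elements with `g ^ 6 = 1` form the subgroup `M`. -/
theorem St.mem_Y (h : St P z) {A : Subgroup S} (hA : IsD P A ∨ A = (P : Subgroup S)) {g : S} :
    g ∈ Y A ↔ g ∈ Ce A ∧ g ^ 6 = 1 := by
  refine ⟨fun hg => ?_, fun hg => subset_closure hg⟩
  induction hg using closure_induction with
  | mem x hx => exact hx
  | one => exact ⟨one_mem _, one_pow _⟩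
  | inv x _ hx => exact ⟨inv_mem hx.1, by rw [inv_pow, hx.2, inv_one]⟩
  | mul x y _ _ hx hy =>
    refine ⟨mul_mem hx.1 hy.1, congrArg Subtype.val (a3_mul (C := Ce A) (a := ⟨x, hx.1⟩) (b := ⟨y, hy.1⟩)
      (fun c => Subtype.ext (h.a3_30 hA c.2)) (fun c h5 => mem_center_iff.2 fun d => Subtype.ext ?_)
      (Subtype.ext hx.2) (Subtype.ext hy.2))⟩
    have h5' : (c : S) ^ 5 = 1 := congrArg Subtype.val h5
    refine (mem_Ce.1 d.2 c ?_).symm
    rcases hA with hA | rfl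
    exacts [h.a3_D hA c.2 h5', a3_P c.2 h5']

theorem St.Y_le_Cz (h : St P z) {A : Subgroup S} (hA : IsD P A ∨ A = (P : Subgroup S)) :
    Y A ≤ Cz z := by
  exact fun g hg => mem_Cz.2 (mem_Ce.1 (Y_le_Ce A hg) z (h.a3_z hA)).symm

theorem St.epY (h : St P z) {A : Subgroup S} (hA : IsD P A ∨ A = (P : Subgroup S)) :
    EP (Y A) := by
  refine fun g hg => h.com6 h.oz (mem_Cz.1 (h.Y_le_Cz hA hg)) fun e => ?_
  exact absurd (e.trans (orderOf_dvd_of_pow_eq_one ((h.mem_Y hA).1 hg).2)) (by norm_num)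

theorem St.cardY (h : St P z) {A : Subgroup S} (hA : IsD P A ∨ A = (P : Subgroup S)) :
    Nat.card (Y A) ∣ 2 ^ 7 * 3 ^ 6 := by
  have h1 := (card_dvd_of_le (h.Y_le_Cz hA)).trans
    (h.cen_dvd h.z1 (by rw [h.oz]; norm_num) (by rw [h.oz]; norm_num))
  refine Nat.Coprime.dvd_of_dvd_mul_right (Nat.Coprime.pow_right 3
    ((Nat.Prime.coprime_iff_not_dvd (by norm_num)).2 fun e => ?_).symm) h1
  obtain ⟨g, hg⟩ := exists_prime_orderOf_dvd_card' 5 e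
  have := orderOf_dvd_of_pow_eq_one ((h.mem_Y hA).1 g.2).2
  rw [orderOf_coe, hg] at this
  norm_num at this

/-- a 5-element of `C(D)` lies in `D` -/
theorem St.five_mem (h : St P z) {D : Subgroup S} (hD : IsD P D) {c : S} (hc : c ∈ Ce D)
    (h5 : c ^ 5 = 1) : c ∈ D := by
  exact h.a3_D hD hc h5

theorem St.a3_dec (h : St P z) {A : Subgroup S} (hA : IsD P A ∨ A = (P : Subgroup S)) {c : S}
    (hc : c ∈ Ce A) : (c ^ 6) ^ 5 = 1 ∧ c ^ 25 ∈ Y A ∧ c = c ^ 6 * c ^ 25 := by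
  have e := h.a3_30 hA hc
  refine ⟨by rw [← pow_mul, e], (h.mem_Y hA).2 ⟨pow_mem hc _, ?_⟩, by rw [← pow_add, pow_succ, e, one_mul]⟩
  rw [← pow_mul, show 25 * 6 = 30 * 5 from rfl, pow_mul, e, one_pow]

theorem St.cenD (h : St P z) {D : Subgroup S} (hD : IsD P D) {c : S} (hc : c ∈ Ce D) :
    ∃ d ∈ D, ∃ y ∈ Y D, c = d * y := by
  obtain ⟨h1, h2, h3⟩ := h.a3_dec (.inl hD) hc
  exact ⟨_, h.a3_D hD (pow_mem hc 6) h1, _, h2, h3⟩

theorem St.cenP (h : St P z) {c : S} (hc : c ∈ Ce (P : Subgroup S)) :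
    ∃ d ∈ zpowers z, ∃ y ∈ Y (P : Subgroup S), c = d * y := by
  obtain ⟨h1, h2, h3⟩ := h.a3_dec (.inr rfl) hc
  exact ⟨_, h.cen (a3_P (pow_mem hc 6) h1) (mem_Ce.1 (pow_mem hc 6)), _, h2, h3⟩

theorem St.card_CeD (h : St P z) {D : Subgroup S} (hD : IsD P D) :
    Nat.card (Ce D) = 25 * Nat.card (Y D) := by
  rw [← hD.2, ← Nat.card_prod]
  refine (Nat.card_congr (Equiv.ofBijective (fun x : D × Y D => (⟨x.1 * x.2,
    mul_mem (mem_Ce.2 fun y hy => h.Dcomm hD hy x.1.2) (Y_le_Ce D x.2.2)⟩ : Ce D)) ⟨?_, fun c => ?_⟩)).symm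
  · rintro ⟨d, y⟩ ⟨d', y'⟩ e
    have e1 : (d : S) * y = d' * y' := congrArg Subtype.val e
    have e2 : (d' : S)⁻¹ * d = y' * (y : S)⁻¹ := by rw [inv_mul_eq_iff_eq_mul, ← mul_assoc, ← e1]; group
    have e3 : (d' : S)⁻¹ * d = 1 := a3_one (by norm_num : Nat.Coprime 5 6)
      (h.pow5 (hD.1 (mul_mem (inv_mem d'.2) d.2)))
      (e2 ▸ ((h.mem_Y (.inl hD)).1 (mul_mem y'.2 (inv_mem y.2))).2)
    exact Prod.ext (Subtype.ext (inv_mul_eq_one.1 e3).symm) (Subtype.ext (mul_inv_eq_one.1 (e2 ▸ e3)).symm)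
  · obtain ⟨d, hd, y, hy, e⟩ := h.cenD hD c.2
    exact ⟨(⟨d, hd⟩, ⟨y, hy⟩), Subtype.ext e.symm⟩

theorem St.mem_YP (h : St P z) {D : Subgroup S} (hD : IsD P D) {g : S} :
    g ∈ Y (P : Subgroup S) ↔ g ∈ Y D ∧ g ∈ Ce (P : Subgroup S) := by
  rw [h.mem_Y (.inr rfl), h.mem_Y (.inl hD)]
  exact ⟨fun k => ⟨⟨centralizer_le hD.1 k.1, k.2⟩, k.1⟩, fun k => ⟨k.2, k.1.2⟩⟩

theorem St.YP_le (h : St P z) {D : Subgroup S} (hD : IsD P D) : Y (P : Subgroup S) ≤ Y D :=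
  fun _ hg => ((h.mem_YP hD).1 hg).1

/-- for `y ∈ P \ D`: `C_{Y D}(y) = Y P` (`St.Dmax`) -/
theorem St.mem_YP' (h : St P z) {D : Subgroup S} (hD : IsD P D) {y g : S}
    (hy : y ∈ (P : Subgroup S)) (hyD : y ∉ D) :
    g ∈ Y (P : Subgroup S) ↔ g ∈ Y D ∧ g * y = y * g := by
  rw [h.mem_YP hD]
  refine and_congr_right fun hg => ⟨fun k => (mem_Ce.1 k y hy).symm, fun k => mem_Ce.2 fun u hu => ?_⟩
  obtain ⟨i, d, hd, rfl⟩ := h.Dmax hD hy hyD hu
  exact (((show Commute y g from k.symm).pow_left i).mul_left (mem_Ce.1 (Y_le_Ce D hg) d hd)).eq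

theorem St.P_le_NmY (h : St P z) {D : Subgroup S} (hD : IsD P D) : (P : Subgroup S) ≤ Nm (Y D) :=
  (h.Dnorm hD).trans (Nm_le_Y D)

end Cfsg.Agent.MCX
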