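import Cfsg.Agent.MCX.A3

/-! Sylow 5-subgroups above `D` with centre `Z`, I. -/

set_option autoImplicit false

namespace Cfsg.Agent.MCX

open Subgroup

variable {S : Type*} [Group S] [Finite S] {P : Sylow 5 S} {z : S}

omit [Finite S] in
theorem a4a_conj {g d w : S} (hw : g * w = w * g) (e : g * d * g⁻¹ = d * w) (n : ℕ) :
    g ^ n * d * (g ^ n)⁻¹ = d * w ^ n := by
  induction n with
  | zero => simp
  | succ n ih =>
    have c : g * w ^ n = w ^ n * g := (show Commute g w from hw).pow_right n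
    calc g ^ (n + 1) * d * (g ^ (n + 1))⁻¹ = g * (g ^ n * d * (g ^ n)⁻¹) * g⁻¹ := by
          rw [pow_succ']; group
      _ = g * d * g⁻¹ * (g * w ^ n * g⁻¹) := by rw [ih]; group
      _ = d * w ^ (n + 1) := by rw [e, c, pow_succ']; group

omit [Finite S] in
theorem a4a_smul (g : S) (Q : Sylow 5 S) : ((g • Q : Sylow 5 S) : Subgroup S) = cj g (Q : Subgroup S) :=
  rfl

/-- Write `D = ⟨d⟩ ⊔ ⟨z⟩`. `g d g⁻¹ = d^i z^j` with `i^5 ≡ 1`, so `i ≡ 1 (mod 5)`. For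
`y0 ∈ P \ D`, `y0 d y0⁻¹ = d z^k` with `k ≢ 0`; a power `y` of `y0` has `y d y⁻¹ = d z^j`, and
`y⁻¹ g` centralizes `d` and `z`. -/
theorem St.tv (h : St P z) {D : Subgroup S} (hD : IsD P D) {g : S} (hg : g ∈ Nm D)
    (hz : g * z = z * g) (h5 : g ^ 5 = 1) :
    ∃ y ∈ (P : Subgroup S), ∃ c ∈ Ce D, g = y * c := by
  have hZ : ∀ {u w : S}, u * z = z * u → w ∈ zpowers z → u * w = w * u := by
    rintro u _ hu ⟨k, rfl⟩
    exact (show Commute u z from hu).zpow_right k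
  obtain ⟨d, hd, dz⟩ : ∃ d ∈ D, d ∉ zpowers z := by
    by_contra hn
    push Not at hn
    have := card_le_of_le (show D ≤ zpowers z from hn)
    rw [Nat.card_zpowers, h.oz, hD.2] at this
    omega
  obtain ⟨y0, hy0, yD⟩ : ∃ y ∈ (P : Subgroup S), y ∉ D := by
    by_contra hn
    push Not at hn
    have := card_le_of_le (show (P : Subgroup S) ≤ D from hn)
    rw [h.cardQ, hD.2] at this
    omega
  have dP := hD.1 hd
  have dc : Commute d z := h.zc d dP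
  have eD := h.Deq hD hd dz
  obtain ⟨i, j, e⟩ := h.mem_D dP (eD ▸ (mem_normalizer_iff.1 hg d).1 hd)
  have it : ∀ n : ℕ, ∃ w ∈ zpowers z, g ^ n * d * (g ^ n)⁻¹ = d ^ i ^ n * w := by
    intro n
    induction n with
    | zero => exact ⟨1, one_mem _, by simp⟩
    | succ n ih =>
      obtain ⟨w, hw, ih⟩ := ih
      refine ⟨(z ^ j) ^ i ^ n * w, mul_mem (pow_mem (pow_mem (mem_zpowers z) _) _) hw, ?_⟩
      calc g ^ (n + 1) * d * (g ^ (n + 1))⁻¹ = g * (g ^ n * d * (g ^ n)⁻¹) * g⁻¹ := by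
            rw [pow_succ']; group
        _ = (g * d * g⁻¹) ^ i ^ n * (g * w * g⁻¹) := by rw [ih, conj_pow]; group
        _ = _ := by
            rw [e, hZ hz hw, (dc.pow_pow i j).mul_pow, ← pow_mul d, pow_succ' i]; group
  obtain ⟨w, hw, e5⟩ := it 5
  have m5 : d ^ i ^ 5 = d ^ i := by
    rw [pow_eq_pow_iff_modEq, h.ord5 dP (fun k => dz (k ▸ one_mem _))]
    exact (ZMod.natCast_eq_natCast_iff _ _ 5).1 (by push_cast; exact ZMod.pow_card _)
  rw [h5, m5, one_mul, inv_one, mul_one] at e5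
  have e1 : g * d * g⁻¹ = d * (w⁻¹ * z ^ j) := by
    rw [e, ← mul_assoc]; congr 1; rw [eq_mul_inv_iff_mul_eq, ← e5]
  have hw1 : w⁻¹ * z ^ j ∈ zpowers z := mul_mem (inv_mem hw) (pow_mem (mem_zpowers z) _)
  have hw0 := h.comm_mem hy0 dP
  have zP : zpowers z ≤ (P : Subgroup S) := zpowers_le.2 h.zP
  have w1 : y0 * d * y0⁻¹ * d⁻¹ ≠ 1 := fun k => yD (h.Dcen hD hd dz hy0 (by
    rw [mul_inv_eq_one, mul_inv_eq_iff_eq_mul] at k; exact k))
  have ez := (h.chg (zP hw0) w1 fun u hu => hZ (h.zc u hu) hw0).2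
  obtain ⟨n, hn⟩ := (mem_powers_iff_mem_zpowers.2 (ez ▸ hw1) :
    w⁻¹ * z ^ j ∈ Submonoid.powers (y0 * d * y0⁻¹ * d⁻¹))
  have e2 := a4a_conj (hZ (h.zc y0 hy0) hw0) (d := d) (by rw [hZ dc hw0]; group) n
  simp only at hn
  rw [hn, ← e1] at e2
  have yP : y0 ^ n ∈ (P : Subgroup S) := pow_mem hy0 n
  refine ⟨y0 ^ n, yP, (y0 ^ n)⁻¹ * g, mem_Ce.2 fun u hu => ?_, by group⟩
  obtain ⟨a, b, rfl⟩ := h.mem_D dP (eD ▸ hu)
  have c1 : Commute d ((y0 ^ n)⁻¹ * g) := by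
    show d * _ = _ * d
    calc d * ((y0 ^ n)⁻¹ * g) = (y0 ^ n)⁻¹ * (y0 ^ n * d * (y0 ^ n)⁻¹) * g := by group
      _ = _ := by rw [e2]; group
  have c2 : Commute z ((y0 ^ n)⁻¹ * g) :=
    (show Commute z _ from (h.zc _ (inv_mem yP)).symm).mul_right hz.symm
  exact (c1.pow_left a).mul_left (c2.pow_left b)

/-- `Q ≤ C(z)` above `D` satisfies `St Q z`, normalizes `D`, so `Q ≤ P C(D) = P ⊔ Y D` by `tv`;
Sylow's theorem in `P ⊔ Y D = (Y D) P`. -/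
theorem St.sylY (h : St P z) {D : Subgroup S} (hD : IsD P D) (Q : Sylow 5 S)
    (hQ : D ≤ (Q : Subgroup S)) (hz : (Q : Subgroup S) ≤ Cz z) :
    ∃ y ∈ Y D, (Q : Subgroup S) = cj y (P : Subgroup S) := by
  obtain ⟨g0, -, h0⟩ := h.other Q
  have hs : St Q z := (h0.chg (hQ (h.zD hD)) h.z1 fun g hg => mem_Cz.1 (hz hg)).1
  have hDQ : IsD Q D := ⟨hQ, hD.2⟩
  have hle : (Q : Subgroup S) ≤ Y D ⊔ (P : Subgroup S) := by
    intro q hq
    obtain ⟨y, hy, c, hc, rfl⟩ := h.tv hD (hs.Dnorm hDQ hq) (mem_Cz.1 (hz hq)) (h.pow5 hq)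
    obtain ⟨d, hd, u, hu, rfl⟩ := h.cenD hD hc
    exact mul_mem (mem_sup_right hy) (mul_mem (mem_sup_right (hD.1 hd)) (mem_sup_left hu))
  obtain ⟨k, hk⟩ := MulAction.exists_smul_eq ↥(Y D ⊔ (P : Subgroup S)) (P.subtype le_sup_right)
    (Q.subtype hle)
  rw [Sylow.smul_subtype] at hk
  have e := Sylow.subtype_injective hk
  have hm : (k : S) ∈ ((Y D ⊔ (P : Subgroup S) : Subgroup S) : Set S) := k.2
  rw [coe_mul_of_right_le_normalizer_left _ _ (h.P_le_NmY hD)] at hm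
  obtain ⟨y, hy, u, hu, eu⟩ := hm
  refine ⟨y, hy, ?_⟩
  have e' : (k : S) • P = Q := e
  simp only at eu
  rw [← e', ← eu, mul_smul, Sylow.smul_eq_iff_mem_normalizer.2 (le_normalizer hu)]
  rfl

theorem St.YD_NmP (h : St P z) {D : Subgroup S} (hD : IsD P D) {y : S} (hy : y ∈ Y D)
    (hn : y ∈ Nm (P : Subgroup S)) : y ∈ Y (P : Subgroup S) := by
  refine (h.mem_YP hD).2 ⟨hy, mem_Ce.2 fun u hu => ?_⟩
  have a1 : y * u * y⁻¹ * u⁻¹ ∈ (P : Subgroup S) :=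
    mul_mem ((mem_normalizer_iff.1 hn u).1 hu) (inv_mem hu)
  have a2 : y * (u * y⁻¹ * u⁻¹) ∈ Y D :=
    mul_mem hy ((mem_normalizer_iff.1 (h.P_le_NmY hD hu) _).1 (inv_mem hy))
  have a3 := ((h.mem_Y (Or.inl hD)).1 a2).2
  rw [show y * (u * y⁻¹ * u⁻¹) = y * u * y⁻¹ * u⁻¹ by group, pow_succ, h.pow5 a1, one_mul,
    mul_inv_eq_one, mul_inv_eq_iff_eq_mul] at a3
  exact a3.symm

/-- `Y D` acts transitively on these Sylow subgroups; the stabilizer of `P` is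
`Y D ⊓ N(P) = Y P` (`[y, P] ≤ Y D ⊓ P = 1`). -/
theorem St.mS_mul (h : St P z) {D : Subgroup S} (hD : IsD P D) :
    mS z D * Nat.card (Y (P : Subgroup S)) = Nat.card (Y D) := by
  rw [← Nat.card_congr (MulAction.orbitProdStabilizerEquivGroup (Y D) P), Nat.card_prod]
  congr 1
  · refine Nat.card_congr (Equiv.subtypeEquivRight fun Q => ⟨fun hQ => ?_, ?_⟩)
    · obtain ⟨y, hy, e⟩ := h.sylY hD Q hQ.1 hQ.2
      exact ⟨⟨y, hy⟩, Sylow.ext e.symm⟩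
    · rintro ⟨⟨y, hy⟩, rfl⟩
      refine ⟨fun d hd => (mem_cj (g := y)).2 ?_, fun u hu => ?_⟩
      · rw [mul_assoc, mem_Ce.1 (Y_le_Ce D hy) d hd, inv_mul_cancel_left]
        exact hD.1 hd
      · have a : y⁻¹ * u * y ∈ Cz z := mem_Cz.2 (h.zc _ ((mem_cj (g := y)).1 hu))
        have b := h.Y_le_Cz (Or.inl hD) hy
        have := mul_mem (mul_mem b a) (inv_mem b)
        simpa [mul_assoc] using this
  · rw [← Nat.card_congr (subgroupOfEquivOfLe (h.YP_le hD)).toEquiv]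
    congr 2
    ext y
    rw [mem_subgroupOf, MulAction.mem_stabilizer_iff]
    refine ⟨fun hy => ?_, fun hy => h.YD_NmP hD y.2 (Sylow.smul_eq_iff_mem_normalizer.1 hy)⟩
    exact Sylow.smul_eq_iff_mem_normalizer.2 (centralizer_le_normalizer _ (Y_le_Ce _ hy))

end Cfsg.Agent.MCX
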