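import Cfsg.Agent.MCX.A4

/-! The complement `K`. -/

set_option autoImplicit false
set_option linter.unusedSectionVars false

namespace Cfsg.Agent.MCX

open Subgroup

variable {S : Type*} [Group S] [Finite S] {P : Sylow 5 S} {z : S}

theorem a5b_dvd {A K N : Subgroup S} (h1 : A ≤ N) (h2 : K ≤ N) (h3 : N ≤ Nm A) :
    A.relIndex K * Nat.card A ∣ Nat.card N := by
  have : (A.subgroupOf N).Normal := (normal_subgroupOf_iff_le_normalizer h1).2 h3
  rw [← relIndex_subgroupOf h2, ← (A.subgroupOf N).index_mul_card,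
    Nat.card_congr (subgroupOfEquivOfLe h1).toEquiv]
  exact Nat.mul_dvd_mul_right (relIndex_dvd_index_of_normal _ _) _

theorem a5b_card (A K : Subgroup S) : A.relIndex K * Nat.card ↥(A ⊓ K) = Nat.card K := by
  rw [← (A.subgroupOf K).index_mul_card, relIndex, ← inf_subgroupOf_right,
    Nat.card_congr (subgroupOfEquivOfLe inf_le_right).toEquiv]

theorem a5b_cop {a b : ℕ} (ha : a ∣ 2 ^ 7 * 3 ^ 6) (hb : b ∣ 2 ^ 7 * 3 ^ 6) {c : ℕ}
    (hc : (2 ^ 7 * 3 ^ 6).Coprime c) : (a * b).Coprime c :=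
  Nat.Coprime.mul_left (hc.coprime_dvd_left ha) (hc.coprime_dvd_left hb)

/-- `K` normalizes `Y D`, `K ⊓ Y D = Y P` (`YD_NmP`, `Cp.yle`), so `|K ⊔ Y D| = |K| m`; this is
prime to 5, 7, 11 and divides `|S|`. -/
theorem St.K_mul (h : St P z) {D K : Subgroup S} (hD : IsD P D) (hK : Cp P K) (hKD : K ≤ Nm D) :
    Nat.card K * mS z D ∣ 2 ^ 7 * 3 ^ 6 := by
  have h1 : Y D ⊓ K = Y (P : Subgroup S) :=
    le_antisymm (fun y hy => h.YD_NmP hD hy.1 (hK.le hy.2)) (le_inf (h.YP_le hD) hK.yle)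
  have h2 := a5b_card (Y D) K
  have h3 := (a5b_dvd le_normalizer (hKD.trans (Nm_le_Y D)) le_rfl).trans (card_subgroup_dvd_card _)
  have h4 : Nat.card K * mS z D = (Y D).relIndex K * Nat.card (Y D) := by
    rw [← h2, h1, ← h.mS_mul hD]; ring
  rw [h4]
  refine (a5b_cop ((Dvd.intro _ h2).trans hK.dvd) (h.cardY (.inl hD)) (c := 9625)
    (by norm_num)).dvd_of_dvd_mul_right ?_
  rwa [h.card] at h3

/-- Schur-Zassenhaus in `N(P)` (`Subgroup.exists_right_complement'_of_coprime`); `no7`, `no11`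
with `A = P`; `Y P` is a normal `5'`-subgroup of `N(P)`, so `K ⊔ Y P` is a `5'`-group and
`Y P ≤ K` (or: `y = p k` with `y ∈ Y P` gives `k` centralizing ... ); `card_sylow_eq_index_normalizer`. -/
theorem St.compl (h : St P z) : ∃ K, Cp P K := by
  have cP := h.cardQ P
  have c1 : Nat.card ((P : Subgroup S).subgroupOf (Nm (P : Subgroup S))) = 125 := by
    rw [Nat.card_congr (subgroupOfEquivOfLe le_normalizer).toEquiv, cP]
  have c2 := ((P : Subgroup S).subgroupOf (Nm (P : Subgroup S))).index_mul_card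
  have c3 := card_subgroup_dvd_card (Nm (P : Subgroup S))
  rw [c1] at c2
  have c4 : ((P : Subgroup S).subgroupOf (Nm (P : Subgroup S))).index ∣ 2 ^ 7 * 3 ^ 6 := by
    have q1 : ((P : Subgroup S).subgroupOf (Nm (P : Subgroup S))).index ∣ 2 ^ 7 * 3 ^ 6 * 7 * 11 :=
      Nat.dvd_of_mul_dvd_mul_right (by norm_num : 0 < 125) (by rw [c2]; rwa [h.card] at c3)
    refine Nat.Coprime.dvd_of_dvd_mul_right ((Nat.Prime.coprime_iff_not_dvd (p := 7)
      (by norm_num)).2 fun r => ?_).symm (Nat.Coprime.dvd_of_dvd_mul_right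
      ((Nat.Prime.coprime_iff_not_dvd (p := 11) (by norm_num)).2 fun r => ?_).symm q1)
    · exact h.no7 P (by rw [cP]; norm_num) (by rw [cP]; norm_num) (r.trans (Dvd.intro _ c2))
    · exact h.no11 P (by rw [cP]; norm_num) (by rw [cP]; norm_num) (r.trans (Dvd.intro _ c2))
  obtain ⟨H, hH⟩ := exists_right_complement'_of_coprime
    (N := (P : Subgroup S).subgroupOf (Nm (P : Subgroup S)))
    (c1 ▸ Nat.Coprime.coprime_dvd_right c4 (by norm_num))
  set K := H.map (Nm (P : Subgroup S)).subtype with hK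
  have k1 : Nat.card K = ((P : Subgroup S).subgroupOf (Nm (P : Subgroup S))).index := by
    rw [hK, card_map_of_injective (subtype_injective _), hH.symm.index_eq_card]
  have k2 : Nat.card (Nm (P : Subgroup S)) = 125 * Nat.card K := by rw [k1, ← c2, mul_comm]
  have k3 : K ≤ Nm (P : Subgroup S) := map_subtype_le _
  refine ⟨K, k3, ?_, k2, k1 ▸ c4, fun g hg => ?_, ?_⟩
  · have q1 := a5b_card (Y (P : Subgroup S)) K
    have q2 := a5b_dvd ((Y_le_Ce _).trans (centralizer_le_normalizer _)) k3 (Nm_le_Y (P : Subgroup S))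
    rw [k2] at q2
    have q3 := (a5b_cop ((Dvd.intro _ q1).trans (k1 ▸ c4)) (h.cardY (.inr rfl)) (c := 125)
      (by norm_num)).dvd_of_dvd_mul_left q2
    rw [← q1] at q3
    have q4 := Nat.le_of_dvd Nat.card_pos (Nat.dvd_of_mul_dvd_mul_left
      (Nat.pos_of_ne_zero index_ne_zero_of_finite) q3)
    exact inf_eq_left.1 (eq_of_le_of_card_ge inf_le_left q4)
  · obtain ⟨⟨y, k⟩, e, -⟩ := hH.existsUnique ⟨g, hg⟩
    exact ⟨_, y.2, _, mem_map_of_mem _ k.2, (congrArg Subtype.val e).symm⟩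
  · have q1 := (Nm (P : Subgroup S)).index_mul_card
    rw [show (Nm (P : Subgroup S)).index = _ from P.card_eq_index_normalizer.symm, k2, h.card] at q1
    have : 125 * (Nat.card (Sylow 5 S) * Nat.card K) = 125 * 7185024 := by rw [mul_left_comm, q1]
    omega

end Cfsg.Agent.MCX
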