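import Cfsg.Agent.MCX.A4
import Cfsg.Agent.Solv.FrobeniusAction

/-! `N(D) ∩ C(z)` is solvable. -/

set_option autoImplicit false

namespace Cfsg.Agent.MCX

open Subgroup

variable {S : Type*} [Group S] [Finite S] {P : Sylow 5 S} {z : S}

theorem St.a7a_solv (h : St P z) {K : Subgroup S} (h1 : (P : Subgroup S) ≤ K)
    (h2 : K ≤ Nm (P : Subgroup S)) (h3 : K ≤ Cz z) : Group.IsSolvable K := by
  have hn : ((P : Subgroup S).subgroupOf K).Normal := (normal_subgroupOf_iff_le_normalizer h1).2 h2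
  have hc : Nat.card ((P : Subgroup S).subgroupOf K) = 5 ^ 3 :=
    (Nat.card_congr (subgroupOfEquivOfLe h1).toEquiv).trans (h.cardQ P)
  have hd := (card_dvd_of_le h3).trans (h.cen_dvd h.z1 (by rw [h.oz]; norm_num) (by rw [h.oz]; norm_num))
  rw [card_eq_card_quotient_mul_card_subgroup ((P : Subgroup S).subgroupOf K), hc] at hd
  refine (Group.isSolvable_iff_subgroup_quotient ((P : Subgroup S).subgroupOf K)).2 ⟨?_, ?_⟩
  · exact Char.isSolvable_of_card_dvd_pow_mul_pow (p := 5) (q := 2) (a := 3) (b := 0) (by norm_num)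
      (by norm_num) _ (by rw [hc]; norm_num)
  · exact Char.isSolvable_of_card_dvd_pow_mul_pow (by norm_num) (by norm_num) _
      (Nat.dvd_of_mul_dvd_mul_right (by norm_num) hd)

/-- `N(D) ∩ C(z)` is solvable: by `tv` (and `cenD`) all its 5-elements lie in `L = P ⊔ Y D`, which
is normalized by it (`NmDZ`: `g = y n`), contains the Sylow subgroup `P`; the quotient has order
dividing `2^7 3^6` (`cen_dvd`, Burnside `p^a q^b`), `Y D` is a normal `{2,3}`-subgroup of `L` with
quotient an image of `P`. -/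
theorem St.solvND (h : St P z) {D : Subgroup S} (hD : IsD P D) :
    Group.IsSolvable (Nm D ⊓ Cz z : Subgroup S) := by
  have s1 : Group.IsSolvable (Nm (P : Subgroup S) ⊓ (Nm D ⊓ Cz z) : Subgroup S) :=
    h.a7a_solv (le_inf le_normalizer (le_inf (h.Dnorm hD) fun g hg => mem_Cz.2 (h.zc g hg))) inf_le_left
      (inf_le_right.trans inf_le_right)
  have s2 : Group.IsSolvable (Y D) :=
    Char.isSolvable_of_card_dvd_pow_mul_pow (by norm_num) (by norm_num) _ (h.cardY (Or.inl hD))
  have s3 := Solv.Frob.isSolvable_sup_of_le_normalizer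
    ((inf_le_right.trans inf_le_left).trans (Nm_le_Y D)) s1 s2
  refine Group.isSolvable_of_isSolvable_injective (inclusion_injective (show Nm D ⊓ Cz z ≤
    Nm (P : Subgroup S) ⊓ (Nm D ⊓ Cz z) ⊔ Y D from fun g hg => ?_))
  obtain ⟨y, hy, n, n1, n2, rfl⟩ := h.NmDZ hD hg.1 (by
    rw [mem_Cz.1 hg.2, mul_inv_cancel_right]; exact mem_zpowers z)
  exact mul_mem (mem_sup_right hy) (mem_sup_left
    ⟨n1, n2, (mul_mem_cancel_left (h.Y_le_Cz (Or.inl hD) hy)).1 hg.2⟩)

end Cfsg.Agent.MCX
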