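import Cfsg.Agent.MCX.A2
import Cfsg.Agent.MCX.A5
import Cfsg.Agent.MCX.A5b
import Cfsg.Agent.MCX.A9a

/-! No type (a), `m(D) = 81`, `|K| = 4`. -/

set_option autoImplicit false

namespace Cfsg.Agent.MCX

open Subgroup

variable {S : Type*} [Group S] [Finite S] {P : Sylow 5 S} {z : S}

omit [Finite S] in
theorem b2_nc (V : Subgroup S) : Nm V ≤ Nm (Ce V) := by
  have key : ∀ g ∈ Nm V, ∀ c ∈ Ce V, g * c * g⁻¹ ∈ Ce V := by
    intro g hg c hc
    rw [mem_Ce] at hc ⊢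
    intro v hv
    have h1 : g⁻¹ * v * g ∈ V := by
      simpa using (mem_normalizer_iff.1 ((Nm V).inv_mem hg) v).1 hv
    have h2 := hc _ h1
    calc v * (g * c * g⁻¹) = g * ((g⁻¹ * v * g) * c) * g⁻¹ := by group
      _ = g * (c * (g⁻¹ * v * g)) * g⁻¹ := by rw [h2]
      _ = g * c * g⁻¹ * v := by group
  intro g hg
  rw [mem_normalizer_iff]
  intro c
  refine ⟨key g hg c, fun hc => ?_⟩
  simpa [mul_assoc] using key g⁻¹ ((Nm V).inv_mem hg) _ hc

omit [Finite S] in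
theorem b2_cjc (g : S) (D : Subgroup S) : Nat.card (cj g D) = Nat.card D :=
  card_map_of_injective (MulAut.conj g).injective

omit [Finite S] in
theorem b2_cjle {g : S} {D C : Subgroup S} (hg : g ∈ Nm C) (hD : D ≤ C) : cj g D ≤ C := by
  rintro _ ⟨u, hu, rfl⟩
  simpa using (mem_normalizer_iff.1 hg u).1 (hD hu)

theorem b2_uniq {D E W : Subgroup S} (hD : Nat.card D = 25) (hE : Nat.card E = 25) (h1 : D ≤ W)
    (h2 : E ≤ W) (h3 : W ≤ Nm D) (h4 : ¬ 125 ∣ Nat.card W) : E = D := by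
  have a := a5b_dvd h1 h2 h3
  have b : D.relIndex E ∣ 5 ^ 2 := by
    have := a5b_card D E
    rw [hE] at this
    exact Dvd.intro _ this
  obtain ⟨i, hi, e⟩ := (Nat.dvd_prime_pow (by norm_num)).1 b
  have i0 : i = 0 := by
    by_contra hne
    apply h4
    refine Dvd.dvd.trans ?_ a
    rw [hD, e]
    exact Nat.mul_dvd_mul_right (dvd_pow_self 5 hne) 25
  rw [i0, pow_zero, relIndex_eq_one] at e
  exact eq_of_le_of_card_ge e (by rw [hD, hE])

theorem b2_sub {D V W : Subgroup S} (hD : Nat.card D = 25) (hV : Nat.card V = 81) (h1 : D ≤ W)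
    (h2 : V ≤ W) (h3 : V ≤ Nm D) :
    ∃ c, Nat.card W = (Nm D).relIndex W * (2025 * c) ∧ Nat.card ↥(Nm D ⊓ W) = 2025 * c := by
  have a : 25 ∣ Nat.card ↥(Nm D ⊓ W) := hD ▸ card_dvd_of_le (le_inf le_normalizer h1)
  have b : 81 ∣ Nat.card ↥(Nm D ⊓ W) := hV ▸ card_dvd_of_le (le_inf h3 h2)
  obtain ⟨c, hc⟩ := Nat.Coprime.mul_dvd_of_dvd_of_dvd (by norm_num) a b
  exact ⟨c, by rw [← a5b_card (Nm D) W, hc], hc⟩

theorem b2_one {D W : Subgroup S} (hD : Nat.card D = 25) (h1 : D ≤ W)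
    (h4 : ¬ 125 ∣ Nat.card W) : ¬ 5 ∣ D.relIndex W := by
  intro h5
  apply h4
  rw [← a5b_card D W, inf_eq_left.2 h1, hD]
  exact Nat.mul_dvd_mul_right h5 25

theorem b2_pg {D : Subgroup S} (hD : Nat.card D = 25) : IsPGroup 5 D :=
  IsPGroup.of_card (n := 2) hD

theorem b2_W {D V W : Subgroup S} (hD : Nat.card D = 25) (hV : Nat.card V = 81) (h1 : D ≤ W)
    (h2 : V ≤ W) (h3 : V ≤ Nm D) (hW : Nat.card W ∣ 3 ^ 6 * 25) : W ≤ Nm D := by
  have h4 : ¬ 125 ∣ Nat.card W := fun h => absurd (h.trans hW) (by norm_num)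
  have m := cnt_amb 5 1 one_ne_zero h1 (b2_pg hD) (b2_one hD h1 h4) (fun g _ hg => by
    by_contra hn
    apply hg
    have b : (cj g D).relIndex D ∣ 5 ^ 2 := by
      have := a5b_card (cj g D) D
      rw [hD] at this
      exact Dvd.intro _ this
    obtain ⟨i, hi, e⟩ := (Nat.dvd_prime_pow (by norm_num)).1 b
    have i0 : i = 0 := by
      by_contra hne
      exact hn (by rw [pow_one]; exact e ▸ dvd_pow_self 5 hne)
    rw [i0, pow_zero, relIndex_eq_one] at e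
    exact cj_eq_iff.1 (eq_of_le_of_card_ge e (by rw [b2_cjc])).symm)
  obtain ⟨c, hc, -⟩ := b2_sub hD hV h1 h2 h3
  have d : (Nm D).relIndex W ∣ 9 := by
    have : (Nm D).relIndex W * 2025 ∣ 9 * 2025 := by
      refine Dvd.dvd.trans ?_ (hW.trans (by norm_num))
      rw [hc, ← mul_assoc]
      exact Dvd.intro _ rfl
    exact Nat.dvd_of_mul_dvd_mul_right (by norm_num) this
  rw [← relIndex_eq_one]
  have e : (Nm D).relIndex W ≤ 9 := Nat.le_of_dvd (by norm_num) d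
  change (Nm D).relIndex W ≡ 1 [MOD 5 ^ 1] at m
  generalize (Nm D).relIndex W = n at m d e
  interval_cases n <;> first | rfl | (exfalso; revert m d; decide)

theorem b2_div {n : ℕ} (d : n ∣ 2 ^ 7 * 3 ^ 2) (m : n ≡ 1 [MOD 5 ^ 2]) : n = 1 ∨ n = 576 := by
  obtain ⟨a, b, ha, hb, rfl⟩ := Nat.dvd_mul.1 d |>.imp fun a h => h
  obtain ⟨i, hi, rfl⟩ := (Nat.dvd_prime_pow Nat.prime_two).1 ha
  obtain ⟨j, hj, rfl⟩ := (Nat.dvd_prime_pow Nat.prime_three).1 hb
  interval_cases i <;> interval_cases j <;> first | (left; rfl) | (right; rfl) | (exfalso; revert m; decide)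

theorem St.b2_V (h : St P z) {D K : Subgroup S} (hD : IsD P D) (hm : mS z D = 81)
    (hK : Cp P K) (h4 : Nat.card K = 4) :
    ∃ V : Subgroup S, V ≤ Y D ∧ Nat.card V = 81 ∧ Nm (Y D) ≤ Nm V ∧ V ≤ Ce V ∧
      (∀ g ∈ V, g ^ 3 = 1) ∧ ¬ 125 ∣ Nat.card (Ce V) := by
  have c1 := h.mS_mul hD
  rw [hm] at c1
  have c2 : Nat.card (Y (P : Subgroup S)) ∣ 4 := h4 ▸ card_dvd_of_le hK.yle
  obtain ⟨V, v1, v2, v3, v4, v5⟩ := (h.epY (.inl hD)).three
    (by rw [← c1]; exact Dvd.dvd.mul_right (by norm_num) _)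
  haveI : Fact (Nat.Prime 3) := ⟨Nat.prime_three⟩
  obtain ⟨k, hk⟩ := IsPGroup.iff_card.1 v2
  have cV : Nat.card V = 81 := by
    apply Nat.dvd_antisymm
    · have a : Nat.card V ∣ 81 * 4 :=
        (card_dvd_of_le v1).trans (c1 ▸ Nat.mul_dvd_mul_left 81 c2)
      rw [hk] at a ⊢
      exact (Nat.Coprime.pow_left k (by norm_num : Nat.Coprime 3 4)).dvd_of_dvd_mul_right a
    · have a : 81 ∣ 2 * Nat.card V := (Dvd.intro _ c1).trans v4
      exact (by norm_num : Nat.Coprime 81 2).dvd_of_dvd_mul_left a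
  obtain ⟨y, hy, hyD⟩ : ∃ y ∈ (P : Subgroup S), y ∉ D := by
    by_contra hn
    push Not at hn
    have := card_dvd_of_le (show (P : Subgroup S) ≤ D from hn)
    rw [h.cardQ P, hD.2] at this
    norm_num at this
  have yN : y ∈ Nm V := v3 (h.P_le_NmY hD hy)
  have y5 : y ^ 5 = 1 := h.pow5 hy
  have triv : ∀ g ∈ V, g * y = y * g → g = 1 := by
    intro g hg hc
    have a : g ∈ Y (P : Subgroup S) := (h.mem_YP' hD hy hyD).2 ⟨v1 hg, hc⟩
    have b : g ^ 4 = 1 := orderOf_dvd_iff_pow_eq_one.1 ((orderOf_dvd_natCard _ a).trans c2)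
    exact a3_one (by norm_num : Nat.Coprime 3 4) ((v5 g (v1 hg)).1 hg) b
  have ab : V ≤ Ce V := by
    have zN : y ∈ Nm (V ⊓ Ce V) := inf_normalizer_le_normalizer_inf ⟨yN, b2_nc V yN⟩
    have m := a5_fix (V ⊓ Ce V) zN y5
    have e : (V ⊓ Ce V) ⊓ Cz y = ⊥ := by
      rw [eq_bot_iff]
      intro g hg
      exact mem_bot.2 (triv g hg.1.1 (mem_Cz.1 hg.2))
    rw [e, card_bot] at m
    have d : Nat.card ↥(V ⊓ Ce V) ∣ 3 ^ 4 := by
      have := card_dvd_of_le (inf_le_left : V ⊓ Ce V ≤ V)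
      rwa [cV] at this
    have nt : Nat.card ↥(V ⊓ Ce V) ≠ 1 := by
      haveI : Nontrivial V := Finite.one_lt_card_iff_nontrivial.1 (by rw [cV]; norm_num)
      haveI := v2.center_nontrivial
      obtain ⟨⟨c, hc⟩, hc1⟩ := exists_ne (1 : center V)
      intro h1
      rw [card_eq_one] at h1
      have : (c : S) ∈ V ⊓ Ce V := ⟨c.2, mem_Ce.2 fun v hv =>
        congrArg Subtype.val (mem_center_iff.1 hc ⟨v, hv⟩)⟩
      rw [h1, mem_bot] at this
      exact hc1 (Subtype.ext (Subtype.ext this))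
    obtain ⟨i, hi, ei⟩ := (Nat.dvd_prime_pow Nat.prime_three).1 d
    rw [ei] at m nt
    have i4 : i = 4 := by
      interval_cases i <;> first | rfl | (exfalso; revert m nt; decide)
    rw [i4] at ei
    have : V ⊓ Ce V = V := eq_of_le_of_card_ge inf_le_left (by rw [cV, ei]; norm_num)
    exact inf_eq_left.1 this
  refine ⟨V, v1, cV, v3, ab, fun g hg => (v5 g (v1 hg)).1 hg, fun h5 => ?_⟩
  have a := (a5b_dvd (centralizer_le_normalizer _) ((zpowers_le).2 yN) (b2_nc V)).trans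
    (card_subgroup_dvd_card _)
  have y1 : y ≠ 1 := fun e => hyD (e ▸ D.one_mem)
  have b : (Ce V).relIndex (zpowers y) ∣ 5 := by
    have := a5b_card (Ce V) (zpowers y)
    rw [Nat.card_zpowers, h.ord5 hy y1] at this
    exact Dvd.intro _ this
  rcases (Nat.dvd_prime (by norm_num)).1 b with e | e
  · rw [relIndex_eq_one, zpowers_le, mem_Ce] at e
    have : V = ⊥ := by
      rw [eq_bot_iff]
      intro g hg
      exact mem_bot.2 (triv g hg (e g hg))
    rw [this, card_bot] at cV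
    norm_num at cV
  · rw [e, h.card] at a
    exact absurd ((Nat.mul_dvd_mul_left 5 h5).trans a) (by norm_num)

/-- `|Y D| = 81 |Y P|` with `|Y P| ∣ |K| = 4` (`Cp.yle`); `V` = the subgroup `R` of `EP.three` for
`Y D`; `|V| = 81`. `y ∈ P \ D` normalizes `V` and `C_V(y) ≤ Y P` (`mem_YP'`) is trivial; the centre
of `V` is `y`-invariant, nontrivial, of order `≡ 1 (mod 5)`, so `V` is abelian. `C = C(V) ≥ D, V`;
`D` is Sylow in `C`: `y ∈ N(V) \ C`, so `125 ∣ |C|` would give `625 ∣ |N(V)|`. TI: if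
`g ∈ C`, `1 ≠ d ∈ D ⊓ D^g`, then `W = C ⊓ C(d)` has no involution (`no30`), order `25 · 3^j`
(`cen_dvd`), `j ≤ 6`, and `D ⊔ V ≤ N_W(D)`, so `n_5(W) ∣ 9` and `≡ 1 (mod 5)`: `D^g = D`.
`cnt_amb` (`k = 2`): `n = [C : N_C(D)] ≡ 1 (mod 25)`, `n ∣ 2^7 · 9` (`|C| ∣ 2^7 3^6 5^3`,
`81 · 25 ∣ |N_C(D)|`), so `n = 1` or `576`. If `576`: `K ≤ N(D) ≤ N(V)`,
`|K ⊔ C| = |K| |C| / |K ⊓ C|` and `|K ⊓ C|` divides `|N_C(D)|`, so `4 · 64 ∣ |S|`, false.
So `C ≤ N(D)`, `D` is the unique Sylow 5-subgroup of `C`, `N(V) ≤ N(D)`;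
`|N(D)| = 81 |N(D) ⊓ N(P)|` (`card_NmD`, `nS_eq`) divides `81 · 500`, but `V` is properly contained
in a Sylow 3-subgroup (order `3^6`), so `243 ∣ |N(V)|` (normalizer condition). -/
theorem St.b81 (h : St P z) {D K : Subgroup S} (hD : IsD P D) (hT : ¬ TA z D) (hm : mS z D = 81)
    (hK : Cp P K) (h4 : Nat.card K = 4) (hKD : K ≤ Nm D) : False := by
  obtain ⟨V, v1, cV, v3, ab, v5, n125⟩ := h.b2_V hD hm hK h4
  have cD := hD.2
  have vD : ∀ v ∈ V, ∀ d ∈ D, d * v = v * d := fun v hv => mem_Ce.1 (Y_le_Ce D (v1 hv))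
  have DC : D ≤ Ce V := fun d hd => mem_Ce.2 fun v hv => (vD v hv d hd).symm
  have VN : V ≤ Nm D := (v1.trans (Y_le_Ce D)).trans (centralizer_le_normalizer _)
  obtain ⟨u, hu, u1⟩ : ∃ u ∈ V, u ≠ 1 := by
    by_contra hn
    push Not at hn
    have : V = ⊥ := (eq_bot_iff_forall V).2 hn
    rw [this, card_bot] at cV
    norm_num at cV
  haveI : Fact (Nat.Prime 3) := ⟨Nat.prime_three⟩
  have ou : orderOf u = 3 := orderOf_eq_prime (v5 u hu) u1
  have cC : Nat.card (Ce V) ∣ 2 ^ 7 * 3 ^ 6 * 25 := by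
    have a : Nat.card (Ce V) ∣ 2 ^ 7 * 3 ^ 6 * 5 ^ 3 :=
      (card_dvd_of_le fun c hc => mem_Cz.2 (mem_Ce.1 hc u hu).symm).trans
        (h.cen_dvd u1 (by rw [ou]; norm_num) (by rw [ou]; norm_num))
    have b := a5b_card D (Ce V)
    rw [inf_eq_left.2 DC, cD] at b
    have c := b2_one cD DC n125
    rw [← b] at a ⊢
    have d : D.relIndex (Ce V) ∣ 2 ^ 7 * 3 ^ 6 * 5 :=
      Nat.dvd_of_mul_dvd_mul_right (by norm_num : 0 < 25) (a.trans (by norm_num))
    exact Nat.mul_dvd_mul_right (((Nat.Prime.coprime_iff_not_dvd (by norm_num)).2 c).symm.dvd_of_dvd_mul_right d) 25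
  have m := cnt_amb 5 2 two_ne_zero DC (b2_pg cD) (b2_one cD DC n125) (fun g hg hn => by
    by_cases hb : cj g D ⊓ D = ⊥
    · have := a5b_card (cj g D) D
      rw [hb, card_bot, mul_one, cD] at this
      exact this ▸ dvd_rfl
    exfalso
    apply hn
    obtain ⟨d, hd, d1⟩ : ∃ d ∈ cj g D ⊓ D, d ≠ 1 := by
      by_contra hn
      push Not at hn
      exact hb ((eq_bot_iff_forall _).2 hn)
    have od : orderOf d = 5 := h.ord5 (hD.1 hd.2) d1
    have w1 : D ≤ Ce V ⊓ Cz d := le_inf DC fun e he => mem_Cz.2 (h.Dcomm hD he hd.2)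
    have w2 : V ≤ Ce V ⊓ Cz d := le_inf ab fun v hv => mem_Cz.2 (vD v hv d hd.2).symm
    have w3 : cj g D ≤ Ce V ⊓ Cz d := le_inf (b2_cjle (le_normalizer hg) DC) fun e he => by
      have := h.Dcomm hD (mem_cj.1 he) (mem_cj.1 hd.1)
      rw [mem_Cz]
      calc e * d = g * ((g⁻¹ * e * g) * (g⁻¹ * d * g)) * g⁻¹ := by group
        _ = g * ((g⁻¹ * d * g) * (g⁻¹ * e * g)) * g⁻¹ := by rw [this]
        _ = d * e := by group
    have odd : ¬ 2 ∣ Nat.card ↥(Ce V ⊓ Cz d) := by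
      intro h2
      haveI : Fact (Nat.Prime 2) := ⟨Nat.prime_two⟩
      obtain ⟨t, ht⟩ := exists_prime_orderOf_dvd_card' 2 h2
      exact h.no30 od (t := (t : S)) (by rw [orderOf_coe, ht]) ou (mem_Cz.1 t.2.2)
        (vD u hu d hd.2).symm (mem_Ce.1 t.2.1 u hu).symm
    have cW : Nat.card ↥(Ce V ⊓ Cz d) ∣ 3 ^ 6 * 25 := by
      have a := (card_dvd_of_le (inf_le_left : Ce V ⊓ Cz d ≤ Ce V)).trans cC
      rw [mul_assoc] at a
      exact (((Nat.Prime.coprime_iff_not_dvd Nat.prime_two).2 odd).symm.pow_right 7).dvd_of_dvd_mul_left a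
    exact cj_eq_iff.1 (b2_uniq cD (by rw [b2_cjc, cD]) w1 w3 (b2_W cD cV w1 w2 VN cW)
      fun h5 => absurd (h5.trans cW) (by norm_num)))
  obtain ⟨c, hc, hc'⟩ := b2_sub cD cV DC ab VN
  have d : (Nm D).relIndex (Ce V) ∣ 2 ^ 7 * 3 ^ 2 := by
    have : (Nm D).relIndex (Ce V) * 2025 ∣ 2 ^ 7 * 3 ^ 2 * 2025 := by
      refine Dvd.dvd.trans ?_ (cC.trans (by norm_num))
      rw [hc, ← mul_assoc]
      exact Dvd.intro _ rfl
    exact Nat.dvd_of_mul_dvd_mul_right (by norm_num) this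
  have DV : Nm D ≤ Nm V := (Nm_le_Y D).trans v3
  rcases b2_div d m with e | e
  · rw [relIndex_eq_one] at e
    have NV : Nm V ≤ Nm D := fun g hg =>
      cj_eq_iff.1 (b2_uniq cD (by rw [b2_cjc, cD]) DC (b2_cjle (b2_nc V hg) DC) e n125)
    have a := Sylow.prime_pow_dvd_card_normalizer (p := 3) (n := 4) (G := S)
      (by rw [h.card]; norm_num) (H := V) cV
    have b := h.card_NmD hD
    rw [nS_eq hT, hm] at b
    have c := card_dvd_of_le (inf_le_right : Nm D ⊓ Nm (P : Subgroup S) ≤ Nm (P : Subgroup S))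
    rw [hK.cN, h4] at c
    have f := (a.trans (card_dvd_of_le NV)).trans (b ▸ Nat.mul_dvd_mul_left 81 c)
    norm_num at f
  · have a := (a5b_dvd (centralizer_le_normalizer _) (hKD.trans DV) (b2_nc V)).trans
      (card_subgroup_dvd_card _)
    have b := a5b_card (Ce V) K
    have f : Nat.card ↥(Ce V ⊓ K) ∣ 2025 * c :=
      hc' ▸ card_dvd_of_le (le_inf (inf_le_right.trans hKD) inf_le_left)
    rw [h4] at b
    rw [hc, e, h.card] at a
    have g : 576 * 4 ∣ 898128000 := by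
      refine Dvd.dvd.trans ?_ a
      rw [← b, mul_left_comm]
      exact Nat.mul_dvd_mul_left _ (Nat.mul_dvd_mul_left _ f)
    norm_num at g

end Cfsg.Agent.MCX
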