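import Cfsg.Agent.MCX.A2
import Cfsg.Agent.MCX.A5b
import Cfsg.Agent.MCX.A9
import Cfsg.Agent.MCX.A10
import Cfsg.Agent.Solv.Frobenius

/-! No two Sylow 5-subgroups meet in order 25, `|K| = 324`. -/

set_option autoImplicit false

namespace Cfsg.Agent.MCX

open Subgroup

variable {S : Type*} [Group S] [Finite S] {P : Sylow 5 S} {z : S}

theorem b3_inv : ∀ a b c d : ZMod 5, a * a + b * c = 1 → a * b + b * d = 0 → c * a + d * c = 0 →
    c * b + d * d = 1 → a * d - b * c = 1 ∨ (a - 1) * (d - 1) - b * c = 0 := by decide +kernel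

theorem b3_det {A : Matrix (Fin 2) (Fin 2) (ZMod 5)} (h : A * A = 1) : A.det = 1 ∨ (A - 1).det = 0 := by
  have e := fun i j => congrFun (congrFun h i) j
  have := b3_inv (A 0 0) (A 0 1) (A 1 0) (A 1 1) (by simpa [Matrix.mul_apply, Fin.sum_univ_two] using e 0 0)
    (by simpa [Matrix.mul_apply, Fin.sum_univ_two] using e 0 1)
    (by simpa [Matrix.mul_apply, Fin.sum_univ_two] using e 1 0)
    (by simpa [Matrix.mul_apply, Fin.sum_univ_two] using e 1 1)
  simpa [Matrix.det_fin_two] using this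

omit [Finite S] in
theorem b3_Y {K : Subgroup S} (hK : Cp P K) (hc : Nat.card K = 324) {a b : S}
    {ρ : Nm (P : Subgroup S) →* Matrix (Fin 2) (Fin 2) (ZMod 5)} (R : Rho P z a b ρ) :
    27 ∣ Nat.card (Y (P : Subgroup S)) := by
  let f := (ρ.comp (inclusion hK.le)).toHomUnits
  have e : f.ker = (Y (P : Subgroup S)).subgroupOf K := by
    ext k
    rw [MonoidHom.mem_ker, mem_subgroupOf, ← Units.val_eq_one]
    refine R.ker (inclusion hK.le k) fun d => ?_
    have := d.trans (K.orderOf_dvd_natCard k.2)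
    rw [hc] at this
    norm_num at this
  have h1 : f.ker.index ∣ 480 := by
    have : Nat.card (Matrix (Fin 2) (Fin 2) (ZMod 5))ˣ = 480 := by
      rw [show Nat.card (Matrix (Fin 2) (Fin 2) (ZMod 5))ˣ = Nat.card (GL (Fin 2) (ZMod 5)) from rfl,
        Matrix.card_GL_field]
      simp [Fin.prod_univ_two]
    rw [index_ker, ← this]
    exact card_subgroup_dvd_card _
  have h2 := f.ker.card_mul_index
  rw [hc] at h2
  obtain ⟨t, ht⟩ : f.ker.index ∣ 12 := Nat.dvd_gcd (Dvd.intro_left _ h2) h1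
  rw [e, Nat.card_congr (subgroupOfEquivOfLe hK.yle).toEquiv, ← e] at h2
  refine ⟨t, Nat.eq_of_mul_eq_mul_right (Nat.pos_of_ne_zero fun z => ?_) (h2.trans ?_)⟩
  · rw [z] at h2
    omega
  · rw [mul_assoc, mul_comm t, ← ht, show 27 * 12 = 324 from rfl]

/-- `ρ` from `exab`, `rho`. `K/Y P` embeds in the units of `2 × 2` matrices over `ZMod 5`
(order 480, or: an element `A` with `A^9 = 1` has `A^3 = 1`, and a subgroup of order 9 is
impossible since `9 ∤ 480`), so `27 ∣ |Y P|`. `V` = the `R` of `EP.three` for `Y P`, `|V| = 27` or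
`81`, `N(P) ≤ N(V)` (`Nm_le_Y`). Every involution `k ∈ K` has `(ρ k)^2 = 1`, so `det = 1` or
`det (ρ k - 1) = 0` (decide), so it centralizes some `1 ≠ u ∈ P` (`Rho.fix`), and has no fixed
point on `V \ 1` (`no30`; `V` centralizes `P`). So a subgroup of order 4 of `K` acts freely on
`V \ 1`: `4 ∣ |V| - 1`, `|V| = 81`. `M = N(V) ≥ N(P)`: `cntM` (by `uniq`: the Sylow subgroup `g • P`
above `D` is `P`) gives `n = [M : N(P)] ≡ 1 (mod 25)`, `|M| = n · 125 · 324`; `no7`, `no11`
(`81 % 7 = 4`, `81 % 11 = 4`) give `n ∣ 2^5 · 9`, so `n = 1`, `243 ∤ |M|`; but `V` is proper in a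
Sylow 3-subgroup of `S`. -/
theorem St.b324 (h : St P z) (hu : ∀ D, IsD P D → nS D = 1) {K : Subgroup S} (hK : Cp P K)
    (hc : Nat.card K = 324) : False := by
  have := Fact.mk Nat.prime_three
  have := Fact.mk Nat.prime_two
  obtain ⟨a, ha, b, hb, hab⟩ := h.exab
  obtain ⟨ρ, R⟩ := h.rho ha hb hab
  have h27 := b3_Y hK hc R
  obtain ⟨V, V1, V2, V3, V4, V5⟩ := (h.epY (.inr rfl)).three (Dvd.dvd.trans (by norm_num) h27)
  have hN : Nm (P : Subgroup S) ≤ Nm V := (Nm_le_Y _).trans V3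
  obtain ⟨T, hT⟩ := Sylow.exists_subgroup_card_pow_prime (G := K) 2 (n := 2) (by rw [hc]; norm_num)
  have hT' : Nat.card (T.map K.subtype) = 4 := by
    rw [card_map_of_injective K.subtype_injective, hT]
    rfl
  have inv : ∀ k ∈ K, orderOf k = 2 → ∀ v ∈ V, k * v = v * k → v = 1 := fun k hk ok v hv c => by
    by_contra v1
    obtain ⟨u, hu, u1, e⟩ := R.fix ⟨k, hK.le hk⟩ (by rw [ok]; norm_num) (b3_det (by
      rw [← map_mul, ← map_one ρ]
      congr 1
      refine Subtype.ext ?_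
      change k * k = 1
      rw [← sq, ← ok, pow_orderOf_eq_one]))
    exact h.no30 (h.ord5 hu u1) ok (orderOf_eq_prime ((V5 v (V1 hv)).1 hv) v1) e
      (mem_Ce.1 (Y_le_Ce _ (V1 hv)) u hu).symm c
  have h4 : Nat.card (T.map K.subtype) ∣ Nat.card V - 1 := by
    refine Cfsg.Agent.Solv.Frob.card_dvd_card_sub_one ((map_subtype_le T).trans (hK.le.trans hN))
      fun t ht t1 => eq_bot_iff.2 ?_
    rintro v ⟨hv, c⟩
    have c' : Commute t v := (mem_centralizer_singleton_iff.1 c).symm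
    have tK := map_subtype_le T ht
    have t4 : (t ^ 2) ^ 2 = 1 := by
      rw [← pow_mul, ← orderOf_dvd_iff_pow_eq_one]
      exact (Subgroup.orderOf_dvd_natCard _ ht).trans hT'.dvd
    by_cases t2 : t ^ 2 = 1
    · exact inv t tK (orderOf_eq_prime t2 t1) v hv c'
    · exact inv _ (K.pow_mem tK 2) (orderOf_eq_prime t4 t2) v hv (c'.pow_left 2)
  have hV : Nat.card V = 3 ^ 4 := by
    obtain ⟨j, hj⟩ := V2.exists_card_eq
    have d1 : Nat.card V ∣ 324 := hc ▸ card_dvd_of_le (V1.trans hK.yle)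
    have d2 : 3 ^ 3 ∣ Nat.card V :=
      (by norm_num : Nat.Coprime (3 ^ 3) 2).dvd_of_dvd_mul_left (h27.trans V4)
    rw [hT'] at h4
    rw [hj] at d1 d2 h4 ⊢
    have j1 := (Nat.pow_dvd_pow_iff_le_right (by norm_num)).1 d2
    have j2 : j < 5 := by
      by_contra c
      exact absurd ((pow_dvd_pow 3 (not_lt.1 c)).trans d1) (by norm_num)
    interval_cases j
    · norm_num at h4
    · rfl
  have h1 := h.cntM (M := Nm V) (le_normalizer.trans hN) fun g _ D hD e => by
    rw [← a4a_smul] at e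
    rw [← cj_eq_iff, ← a4a_smul, h.uniq hD (hu D hD) _ e]
  have h2 := a9_mul (Nm (P : Subgroup S)) (Nm V)
  rw [inf_eq_left.2 hN, hK.cN, hc] at h2
  have h7 := h.no7 V (by rw [hV]; norm_num) (by rw [hV]; norm_num)
  have h11 := h.no11 V (by rw [hV]; norm_num) (by rw [hV]; norm_num)
  have h3 := Sylow.prime_pow_dvd_card_normalizer (by rw [h.card]; norm_num) hV
  have h5 := card_subgroup_dvd_card (Nm V)
  rw [h.card] at h5
  rw [← h2] at h7 h11 h3 h5
  generalize (Nm (P : Subgroup S)).relIndex (Nm V) = n at *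
  have d1 : n ∣ 288 * (7 * 11) := Nat.dvd_of_mul_dvd_mul_right (by norm_num : 0 < 125 * 324) h5
  have d2 : n ∣ 288 := (Nat.Coprime.mul_right
    ((Nat.Prime.coprime_iff_not_dvd (by norm_num)).2 fun d => h7 (d.mul_right _)).symm
    ((Nat.Prime.coprime_iff_not_dvd (by norm_num)).2 fun d => h11 (d.mul_right _)).symm).dvd_of_dvd_mul_right d1
  have d3 : ∀ n ∈ Nat.divisors 288, n % 25 = 1 % 25 → n = 1 := by decide +kernel
  rw [d3 n (Nat.mem_divisors.2 ⟨d2, by norm_num⟩) h1] at h3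
  norm_num at h3

end Cfsg.Agent.MCX
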