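import Cfsg.Agent.MCX.A2

/-! Two abstract lemmas on groups acting on `(ZMod 5)²`. -/

set_option autoImplicit false

namespace Cfsg.Agent.MCX

open Subgroup

variable {S : Type*} [Group S] [Finite S] {P : Sylow 5 S} {z : S}

theorem b4_six' : ∀ a b c d : ZMod 5, (!![a, b; c, d] : Matrix (Fin 2) (Fin 2) (ZMod 5)) ^ 6 = 1 →
    a * d - b * c = 1 ∨ (a - 1) * (d - 1) - b * c = 0 := by decide +kernel

theorem b4_six (A : Matrix (Fin 2) (Fin 2) (ZMod 5)) (h : A ^ 6 = 1) : A.det = 1 ∨ (A - 1).det = 0 := by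
  have := b4_six' (A 0 0) (A 0 1) (A 1 0) (A 1 1) (by rwa [← Matrix.eta_fin_two])
  simpa [Matrix.det_fin_two] using this

theorem b4_two' : ∀ a b c d : ZMod 5, (!![a, b; c, d] : Matrix (Fin 2) (Fin 2) (ZMod 5)) ^ 2 = 1 →
    a * d - b * c = 1 → (!![a, b; c, d] : Matrix (Fin 2) (Fin 2) (ZMod 5)) = 1 ∨
      (!![a, b; c, d] : Matrix (Fin 2) (Fin 2) (ZMod 5)) = -1 := by decide +kernel

theorem b4_two (A : Matrix (Fin 2) (Fin 2) (ZMod 5)) (h : A ^ 2 = 1) (h1 : A.det = 1) : A = 1 ∨ A = -1 := by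
  have := b4_two' (A 0 0) (A 0 1) (A 1 0) (A 1 1) (by rwa [← Matrix.eta_fin_two])
    (by rwa [Matrix.det_fin_two] at h1)
  rwa [← Matrix.eta_fin_two] at this

theorem b4_fix {K : Type*} [Group K] [Finite K] (R : Subgroup K) [R.Normal] {s : K} (s3 : s ^ 3 = 1)
    (h : ∀ u ∈ R, s * u = u * s → u = 1) : Nat.card R % 3 = 1 := by
  have := Fact.mk Nat.prime_three
  let _ : MulAction (zpowers s) R := MulAction.compHom R ((MulAut.conjNormal : K →* MulAut R).comp (zpowers s).subtype)
  have hp : IsPGroup 3 (zpowers s) := fun g => ⟨1, by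
    obtain ⟨_, k, rfl⟩ := g
    refine Subtype.ext ?_
    show (s ^ k) ^ (3 ^ 1) = 1
    rw [pow_one, ← zpow_natCast, ← zpow_mul, mul_comm, zpow_mul, zpow_natCast, s3, one_zpow]⟩
  have h1 := hp.card_modEq_card_fixedPoints R
  have h2 : MulAction.fixedPoints (zpowers s) R = {1} := by
    ext u
    refine ⟨fun hu => Subtype.ext (h u u.2 (mul_inv_eq_iff_eq_mul.1
      (congrArg Subtype.val (hu ⟨s, mem_zpowers s⟩)))), ?_⟩
    rintro rfl g
    exact map_one (MulAut.conjNormal (g : K) : MulAut R)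
  rw [h2] at h1
  simpa [Nat.ModEq] using h1

theorem b4_class {G : Type*} [Group G] (y : G) :
    {x | ∃ g : G, g * y * g⁻¹ = x}.ncard * Nat.card (centralizer ({y} : Set G)) = Nat.card G := by
  have h1 := MulAction.index_stabilizer (ConjAct G) y
  have h2 := (MulAction.stabilizer (ConjAct G) y).index_mul_card
  rw [h1, ← nat_card_centralizer_nat_card_stabilizer] at h2
  exact h2

/-- No element of order 6: `A^6 = 1 → det A = 1 ∨ det (A - 1) = 0` for `2 × 2` matrices over
`ZMod 5` (decide on the four entries). Also `A^2 = 1 → det A = 1 ∨ det (A-1) = 0`.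
`K0 = {g | det (ρ g) = 1}` is normal with `K/K0` cyclic of order dividing 4, so `|K0| ∈ {24,12,6}`,
all elements of order `≤ 3`. If a subgroup `⟨s⟩` of order 3 is normal in `K`, `C(s)` has index
`≤ 2`, so even order: order 6. This kills `|K0| = 6` (`⟨s⟩` is the set of cubes roots of 1 in
`K0`). If a Sylow 2-subgroup `T` (order 8) is normal, `s` fixes one of its 7 non-identity elements;
a power of it is an involution commuting with `s`: order 6. `|K0| = 24`: `ep_struct`.
`|K0| = 12`: `ep_struct` gives a normal four-group `U` (`= {g ∈ K0 | g² = 1}`, normal in `K`),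
`s` permutes `U \ 1` transitively; `ρ u = ±1` for `u ∈ U` (det 1, square 1), and
`u1 u2 = u3` forces `ρ u = 1`. For `k` in a Sylow 2-subgroup `T ≥ U`, `k² ∈ U`, `(ρ k)² = 1`, so
`k² = 1`; `T` is abelian, `T ≤ C(U)`, `C(U)` is a normal 2-group, `T = C(U)` is normal. -/
theorem kk24 {K : Type*} [Group K] [Finite K] (hc : Nat.card K = 24)
    (ρ : K →* Matrix (Fin 2) (Fin 2) (ZMod 5))
    (hs : ∀ g, ((ρ g).det = 1 ∨ (ρ g - 1).det = 0) → g ^ 2 = 1 ∨ g ^ 3 = 1) : False := by
  have f3 := Fact.mk Nat.prime_three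
  have f2 := Fact.mk Nat.prime_two
  have h6 : ∀ g, ρ g ^ 6 = 1 → g ^ 2 = 1 ∨ g ^ 3 = 1 := fun g e => hs g (b4_six _ e)
  obtain ⟨s, os⟩ := exists_prime_orderOf_dvd_card' (G := K) 3 (by rw [hc]; norm_num)
  have s3 : s ^ 3 = 1 := os ▸ pow_orderOf_eq_one s
  have s1 : s ≠ 1 := fun e => by simp [e] at os
  have k6 : ∀ a : K, a ^ 2 = 1 → s * a = a * s → a = 1 := fun a ha c => by
    have c : Commute a s := c.symm
    rcases h6 (a * s) (by
      rw [← map_pow, c.mul_pow, show 6 = 2 * 3 from rfl, pow_mul, ha, mul_comm 2, pow_mul, s3]; simp) with e | e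
    · rw [c.mul_pow, ha, one_mul] at e
      exact absurd (by rwa [pow_succ, e, one_mul] at s3) s1
    · rwa [c.mul_pow, s3, mul_one, pow_succ, ha, one_mul] at e
  let δ : K →* (ZMod 5)ˣ := (Matrix.detMonoidHom.comp ρ).toHomUnits
  have hδ : ∀ g, g ∈ δ.ker ↔ (ρ g).det = 1 := fun g => Units.ext_iff
  have c0 := δ.ker.card_mul_index
  have i4 : δ.ker.index ∣ 4 := by
    rw [index_ker]
    have := card_subgroup_dvd_card δ.range
    rwa [show Nat.card (ZMod 5)ˣ = 4 by rw [Nat.card_eq_fintype_card]; decide] at this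
  have sK : s ∈ δ.ker := by
    have e : (ρ s).det ^ 3 = 1 := by rw [← Matrix.det_pow, ← map_pow, s3, map_one, Matrix.det_one]
    rw [hδ]
    revert e
    generalize (ρ s).det = d
    revert d
    decide
  have nm : ∀ R : Subgroup K, Nm δ.ker ≤ Nm R → R.Normal := fun R h =>
    normalizer_eq_top_iff.1 (eq_top_iff.2 ((normalizer_eq_top δ.ker).ge.trans h))
  rcases EP.amb (A := δ.ker) (fun g hg => hs g (.inl ((hδ g).1 hg))) with
    ⟨R, R0, pR, nR, dR, mR⟩ | ⟨R, R0, pR, nR, dR, mR⟩
  · have := nm R nR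
    have sq : ∀ u ∈ R, u ^ 2 = 1 := fun u hu => (mR u (R0 hu)).1 hu
    have m3 := b4_fix R s3 fun u hu => k6 u (sq u hu)
    have cm : ∀ u ∈ R, ∀ v ∈ R, u * v = v * u := fun u hu v hv => by
      have i : ∀ w ∈ R, w⁻¹ = w := fun w hw => inv_eq_of_mul_eq_one_left (by rw [← pow_two, sq w hw])
      rw [← i _ (mul_mem hu hv), mul_inv_rev, i u hu, i v hv]
    have r1 : ∀ u ∈ R, ρ u = 1 := fun u hu => by
      refine (b4_two _ (by rw [← map_pow, sq u hu, map_one]) ((hδ u).1 (R0 hu))).resolve_right fun e => ?_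
      have m1 := this.conj_mem u hu s
      have m2 := this.conj_mem u hu s⁻¹
      have e1 : ∀ g, ρ (g * u * g⁻¹) = -1 := fun g => by
        rw [map_mul, map_mul, e, mul_neg, mul_one, neg_mul, ← map_mul, mul_inv_cancel, map_one]
      have ss : s * s = s⁻¹ := by rw [eq_inv_iff_mul_eq_one, ← s3, pow_succ, pow_two]
      have := k6 _ (sq _ (mul_mem (mul_mem hu m1) m2)) (by
        calc s * (u * (s * u * s⁻¹) * (s⁻¹ * u * s⁻¹⁻¹)) =
            s * u * s⁻¹ * (s * s * u * (s * s)⁻¹) * u * s := by group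
          _ = _ := by rw [ss, cm _ (mul_mem m1 m2) _ hu, ← mul_assoc u])
      have := congrArg ρ this
      rw [map_mul, map_mul, e1, e1, e, map_one] at this
      revert this
      decide +kernel
    have cR := R.card_mul_index
    obtain ⟨n, hn⟩ := pR.exists_card_eq
    have i6 : R.index = 6 := by
      have d : Nat.card R ∣ 24 := hc ▸ card_subgroup_dvd_card R
      have l := Nat.le_of_dvd (by norm_num) d
      have l1 := Nat.le_of_dvd (Nat.mul_pos three_pos Nat.card_pos) dR
      have l2 := Nat.le_of_dvd (by norm_num) i4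
      rw [hc] at cR c0
      generalize Nat.card R = r at *
      have : r = 4 := by
        interval_cases r <;> first | rfl | omega | nlinarith
      rw [this] at cR
      omega
    rcases a2_core (G := K) (fun g => h6 g (by rw [← map_pow, ← i6]; exact r1 _ (R.pow_index_mem g))) with
      ⟨T, nT, mT, dT⟩ | ⟨T, nT, mT, dT⟩
    · have m := b4_fix T s3 fun u hu => k6 u ((mT u).1 hu)
      have cT := T.card_mul_index
      rw [hc] at cT
      rcases (Nat.dvd_prime Nat.prime_three).1 dT with e | e <;> rw [e] at cT <;> omega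
    · refine absurd (a2_nd Nat.prime_three Nat.prime_two (R := T) (fun g => ⟨1, Subtype.ext ((mT g).1 g.2)⟩)
        (Dvd.dvd.trans ?_ (T.index_mul_card ▸ Nat.mul_dvd_mul_right dT _ : Nat.card K ∣ _))) (by norm_num)
      rw [hc]; norm_num
  · have := nm R nR
    have sR : s ∈ R := (mR s sK).2 s3
    have c3 : Nat.card R ≤ 3 := by
      obtain ⟨n, hn⟩ := pR.exists_card_eq
      have d : Nat.card R ∣ 24 := hc ▸ card_subgroup_dvd_card R
      rw [hn] at d ⊢
      rcases n with _ | _ | n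
      · norm_num
      · norm_num
      · exact absurd (Dvd.dvd.trans (⟨3 ^ n, by ring⟩ : 9 ∣ 3 ^ (n + 1 + 1)) d) (by norm_num)
    have cl := b4_class s
    have l2 : {x | ∃ g : K, g * s * g⁻¹ = x}.ncard < (R : Set K).ncard :=
      Set.ncard_lt_ncard ⟨by rintro _ ⟨g, rfl⟩; exact this.conj_mem s sR g, fun h => by
        obtain ⟨g, e⟩ := h (one_mem R)
        exact s1 (conj_eq_one_iff.1 e)⟩
    have l3 : (R : Set K).ncard = Nat.card R := rfl
    obtain ⟨t, ot⟩ := exists_prime_orderOf_dvd_card' (G := centralizer ({s} : Set K)) 2 (by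
      rw [hc] at cl
      generalize {x | ∃ g : K, g * s * g⁻¹ = x}.ncard = a at *
      have : a ≤ 2 := by omega
      interval_cases a <;> omega)
    have := k6 t (congrArg Subtype.val (ot ▸ pow_orderOf_eq_one t : t ^ 2 = 1))
      (mem_centralizer_singleton_iff.1 t.2).symm
    rw [show t = 1 from Subtype.ext this] at ot
    simp at ot

end Cfsg.Agent.MCX
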