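import Cfsg.Agent.MCX.Bas

/-! A group acting on `(ZMod 5)²` containing `diag(3, 4)`. -/

set_option autoImplicit false

namespace Cfsg.Agent.MCX

open Subgroup

variable {S : Type*} [Group S] [Finite S] {P : Sylow 5 S} {z : S}

/-- good matrices -/
def b5G (a b c d : ZMod 5) : Prop :=
  (a * d - b * c = 1 ∨ (a - 1) * (d - 1) - b * c = 0) →
    (a * a + b * c = 1 ∧ a * b + b * d = 0 ∧ c * a + d * c = 0 ∧ c * b + d * d = 1) ∨
    ((a * a + b * c) * a + (a * b + b * d) * c = 1 ∧ (a * a + b * c) * b + (a * b + b * d) * d = 0 ∧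
      (c * a + d * c) * a + (c * b + d * d) * c = 0 ∧ (c * a + d * c) * b + (c * b + d * d) * d = 1)

instance (a b c d : ZMod 5) : Decidable (b5G a b c d) := by unfold b5G; infer_instance

theorem b5_good {K : Type*} [Group K] (ρ : K →* Matrix (Fin 2) (Fin 2) (ZMod 5))
    (hs : ∀ g, ((ρ g).det = 1 ∨ (ρ g - 1).det = 0) → g ^ 2 = 1 ∨ g ^ 3 = 1) (g : K) {a b c d : ZMod 5}
    (e : ρ g = !![a, b; c, d]) : b5G a b c d := fun h => by
  rcases hs g (by simpa [e, Matrix.det_fin_two] using h) with k | k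
  · have := congrArg ρ k
    rw [map_pow, map_one, e, pow_two, Matrix.mul_fin_two, Matrix.one_fin_two] at this
    exact .inl (by simpa [and_assoc] using this)
  · have := congrArg ρ k
    rw [map_pow, map_one, e, pow_three', Matrix.mul_fin_two, Matrix.mul_fin_two, Matrix.one_fin_two] at this
    exact .inr (by simpa [and_assoc] using this)

theorem b5_key : ∀ a b c d : ZMod 5, a * d - b * c = 1 → b5G (a * 3) (b * 4) (c * 3) (d * 4) →
    b5G ((a * 3 * a + b * 4 * c) * 2) ((a * 3 * b + b * 4 * d) * 4) ((c * 3 * a + d * 4 * c) * 2)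
      ((c * 3 * b + d * 4 * d) * 4) →
    b5G (((a * a + b * c) * 4 * a + (a * b + b * d) * c) * 4) ((a * a + b * c) * 4 * b + (a * b + b * d) * d)
      (((c * a + d * c) * 4 * a + (c * b + d * d) * c) * 4) ((c * a + d * c) * 4 * b + (c * b + d * d) * d) →
    a = 1 ∧ b = 0 ∧ c = 0 ∧ d = 1 := by
  decide +kernel

/-- Call `A` good if `(det A = 1 ∨ det (A - 1) = 0) → A^2 = 1 ∨ A^3 = 1`; all `ρ g` are good.
First: `det (ρ g) = 1 → ρ g = 1`. With `H = diag(3,4)`, `H⁻¹ = H^3`, check by `decide` over the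
four entries of `A` (det 1, `A ≠ 1`) that one of a few words (`A`, `A H`, `A H^2`, `A H^3`,
`A H A H^3`, `A H^2 A H^2`, `A H A² H^3`, ...; checked by script: `A A H H A H H`, `A H A H H H`, `A H` suffice) is not good. Then
`det H = 2` generates `(ZMod 5)ˣ`: `det (ρ g) = 2^k` (it is a unit), and `g h^(4-k)`
(or `g h⁻ᵏ`) has determinant 1. -/
theorem kka {K : Type*} [Group K] (ρ : K →* Matrix (Fin 2) (Fin 2) (ZMod 5))
    (hs : ∀ g, ((ρ g).det = 1 ∨ (ρ g - 1).det = 0) → g ^ 2 = 1 ∨ g ^ 3 = 1)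
    (h : K) (hh : ρ h = !![3, 0; 0, 4]) (g : K) : ∃ k : ℕ, ρ g = !![3, 0; 0, 4] ^ k := by
  have h2 : ρ (h * h) = !![4, 0; 0, 1] := by rw [map_mul, hh]; decide +kernel
  have h3 : ρ (h * h * h) = !![2, 0; 0, 4] := by rw [map_mul, h2, hh]; decide +kernel
  have one : ∀ g, (ρ g).det = 1 → ρ g = 1 := fun g hd => by
    obtain ⟨a, b, c, d, e⟩ : ∃ a b c d, ρ g = !![a, b; c, d] := ⟨_, _, _, _, Matrix.eta_fin_two _⟩
    obtain ⟨rfl, rfl, rfl, rfl⟩ := b5_key a b c d (by simpa [e, Matrix.det_fin_two] using hd)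
      (b5_good ρ hs (g * h) (by simp [map_mul, e, hh]))
      (b5_good ρ hs (g * h * g * (h * h * h)) (by rw [map_mul, h3]; simp [map_mul, e, hh]))
      (b5_good ρ hs (g * g * (h * h) * g * (h * h)) (by
        rw [map_mul, map_mul, map_mul, h2]; simp [map_mul, e]))
    rw [e, Matrix.one_fin_two]
  have d0 : (ρ g).det ≠ 0 := fun e => by
    have := congrArg (fun x => (ρ x).det) (mul_inv_cancel g)
    simp only [map_mul, Matrix.det_mul, e, zero_mul, map_one, Matrix.det_one] at this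
    exact absurd this (by decide)
  obtain ⟨k, hk⟩ := (by decide : ∀ x : ZMod 5, x ≠ 0 → ∃ k : Fin 4, x * 2 ^ (k : ℕ) = 1) _ d0
  have h4 := one (g * h ^ (k : ℕ)) (by
    rw [map_mul, map_pow, Matrix.det_mul, Matrix.det_pow, hh, ← hk, Matrix.det_fin_two_of]; rfl)
  have h5 : ρ h ^ 4 = 1 := by rw [hh]; decide +kernel
  refine ⟨3 * k, ?_⟩
  rw [← hh, ← one_mul (_ ^ _), ← h4, map_mul, map_pow, mul_assoc, ← pow_add,
    show (k : ℕ) + 3 * k = 4 * k by ring, pow_mul, h5, one_pow, mul_one]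

end Cfsg.Agent.MCX
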