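import Mathlib
import Cfsg.Agent.Char.Burnside

/-! `|S| = |McL|`, spectrum inside that of `U6(2)`, non-abelian Sylow 5-subgroup: definitions. -/

set_option autoImplicit false

namespace Cfsg.Agent.MCX

open Subgroup

instance fact5 : Fact (Nat.Prime 5) := ⟨by norm_num⟩

variable {S : Type*} [Group S]

/-- element orders allowed -/
def Om (S : Type*) [Group S] : Prop :=
  ∀ g : S, orderOf g ∣ 7 ∨ orderOf g ∣ 8 ∨ orderOf g ∣ 10 ∨ orderOf g ∣ 11 ∨ orderOf g ∣ 12 ∨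
    orderOf g ∣ 15 ∨ orderOf g ∣ 18

/-- the setting: `P` a non-abelian Sylow 5-subgroup, `z` a generator of its centre -/
structure St (P : Sylow 5 S) (z : S) : Prop where
  simple : IsSimpleGroup S
  card : Nat.card S = 898128000
  om : Om S
  nab : ¬ IsMulCommutative (P : Subgroup S)
  zP : z ∈ (P : Subgroup S)
  z1 : z ≠ 1
  zc : ∀ g ∈ (P : Subgroup S), g * z = z * g

/-- centralizer of an element -/
abbrev Cz (z : S) : Subgroup S := centralizer ({z} : Set S)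

/-- centralizer of a subgroup -/
abbrev Ce (A : Subgroup S) : Subgroup S := centralizer (A : Set S)

/-- normalizer of a subgroup -/
abbrev Nm (A : Subgroup S) : Subgroup S := normalizer (A : Set S)

/-- conjugate `g A g⁻¹` -/
abbrev cj (g : S) (A : Subgroup S) : Subgroup S := A.map (MulAut.conj g).toMonoidHom

/-- subgroups of order 25 of `P` -/
def IsD (P : Sylow 5 S) (D : Subgroup S) : Prop := D ≤ (P : Subgroup S) ∧ Nat.card D = 25

/-- the `5'`-part of `C(A)` (for `A = P` or `A` of order 25) -/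
def Y (A : Subgroup S) : Subgroup S := closure {g | g ∈ Ce A ∧ g ^ 6 = 1}

/-- all elements have order 1, 2 or 3 -/
def EP (A : Subgroup S) : Prop := ∀ g ∈ A, g ^ 2 = 1 ∨ g ^ 3 = 1

/-- number of Sylow 5-subgroups above `D` -/
noncomputable def nS (D : Subgroup S) : ℕ := Nat.card {Q : Sylow 5 S // D ≤ (Q : Subgroup S)}

/-- number of Sylow 5-subgroups above `D` with centre `⟨z⟩` -/
noncomputable def mS (z : S) (D : Subgroup S) : ℕ :=
  Nat.card {Q : Sylow 5 S // D ≤ (Q : Subgroup S) ∧ (Q : Subgroup S) ≤ Cz z}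

/-- type (a): some Sylow subgroup above `D` has another centre -/
def TA (z : S) (D : Subgroup S) : Prop :=
  ∃ Q : Sylow 5 S, D ≤ (Q : Subgroup S) ∧ ¬ (Q : Subgroup S) ≤ Cz z

/-- a complement to `P` in its normalizer -/
structure Cp (P : Sylow 5 S) (K : Subgroup S) : Prop where
  le : K ≤ Nm (P : Subgroup S)
  yle : Y (P : Subgroup S) ≤ K
  cN : Nat.card (Nm (P : Subgroup S)) = 125 * Nat.card K
  dvd : Nat.card K ∣ 2 ^ 7 * 3 ^ 6
  dec : ∀ g ∈ Nm (P : Subgroup S), ∃ y ∈ (P : Subgroup S), ∃ k ∈ K, g = y * k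
  n5 : Nat.card (Sylow 5 S) * Nat.card K = 7185024

/-- the action of `N(P)` on `P/Z` in the basis `a, b` -/
structure Rho (P : Sylow 5 S) (z a b : S)
    (ρ : Nm (P : Subgroup S) →* Matrix (Fin 2) (Fin 2) (ZMod 5)) : Prop where
  ha : ∀ g : Nm (P : Subgroup S),
    (g : S) * a * (g : S)⁻¹ * (a ^ (ρ g 0 0).val * b ^ (ρ g 1 0).val)⁻¹ ∈ zpowers z
  hb : ∀ g : Nm (P : Subgroup S),
    (g : S) * b * (g : S)⁻¹ * (a ^ (ρ g 0 1).val * b ^ (ρ g 1 1).val)⁻¹ ∈ zpowers z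
  hz : ∀ g : Nm (P : Subgroup S), (g : S) * z * (g : S)⁻¹ = z ^ (ρ g).det.val
  inj : ∀ i j k l : ZMod 5, a ^ i.val * b ^ j.val * (a ^ k.val * b ^ l.val)⁻¹ ∈ zpowers z →
    i = k ∧ j = l
  sur : ∀ y ∈ (P : Subgroup S), ∃ i j : ZMod 5, y * (a ^ i.val * b ^ j.val)⁻¹ ∈ zpowers z
  act : ∀ (g : Nm (P : Subgroup S)) (i j : ZMod 5),
    (g : S) * (a ^ i.val * b ^ j.val) * (g : S)⁻¹ *
      (a ^ (ρ g 0 0 * i + ρ g 0 1 * j).val * b ^ (ρ g 1 0 * i + ρ g 1 1 * j).val)⁻¹ ∈ zpowers z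
  fix : ∀ g : Nm (P : Subgroup S), ¬ 5 ∣ orderOf (g : S) →
    ((ρ g).det = 1 ∨ (ρ g - 1).det = 0) →
    ∃ u ∈ (P : Subgroup S), u ≠ 1 ∧ (g : S) * u = u * g
  sp : ∀ g : Nm (P : Subgroup S), ¬ 5 ∣ orderOf (g : S) →
    ((ρ g).det = 1 ∨ (ρ g - 1).det = 0) → g ^ 2 = 1 ∨ g ^ 3 = 1
  ker : ∀ g : Nm (P : Subgroup S), ¬ 5 ∣ orderOf (g : S) →
    (ρ g = 1 ↔ (g : S) ∈ Y (P : Subgroup S))
  kerP : ∀ g : Nm (P : Subgroup S), (g : S) ∈ (P : Subgroup S) → ρ g = 1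

/-- case (a), first frame: `h` acts as `2` on `Z`, `3` on `D/Z`, `-1` on `P/D` -/
structure Fa (P : Sylow 5 S) (z : S) (D : Subgroup S) (h a x : S) : Prop where
  st : St P z
  hD : IsD P D
  ta : TA z D
  hN : h ∈ Nm (P : Subgroup S)
  h5 : ¬ 5 ∣ orderOf h
  aD : a ∈ D
  aZ : a ∉ zpowers z
  xP : x ∈ (P : Subgroup S)
  xD : x ∉ D
  hz : h * z * h⁻¹ = z ^ 2
  ha : h * a * h⁻¹ = a ^ 3
  hx : h * x * h⁻¹ = x⁻¹

/-- case (a), final frame: `C(z) = P`, `N(P) = P⟨h⟩` of order 500 -/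
structure Fb (P : Sylow 5 S) (z : S) (D : Subgroup S) (h a x : S) : Prop extends
    Fa P z D h a x where
  cz : Cz z = (P : Subgroup S)
  cD : ∀ E, IsD P E → Ce E = E
  oh : orderOf h = 4
  nP : ∀ g ∈ Nm (P : Subgroup S), ∃ y ∈ (P : Subgroup S), ∃ k : ℕ, g = y * h ^ k
  cN : Nat.card (Nm (P : Subgroup S)) = 500
  uq : ∀ E, IsD P E → E ≠ D → ∀ Q : Sylow 5 S, E ≤ (Q : Subgroup S) → Q = P

theorem mem_Cz {z g : S} : g ∈ Cz z ↔ g * z = z * g := by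
  rw [mem_centralizer_iff]
  constructor
  · intro h; exact (h z rfl).symm
  · rintro h _ rfl; exact h.symm

theorem mem_Ce {A : Subgroup S} {g : S} : g ∈ Ce A ↔ ∀ y ∈ A, y * g = g * y :=
  mem_centralizer_iff

theorem mem_cj {g y : S} {A : Subgroup S} : y ∈ cj g A ↔ g⁻¹ * y * g ∈ A := by
  constructor
  · rintro ⟨u, hu, rfl⟩
    simpa [mul_assoc] using hu
  · intro h
    exact ⟨_, h, by simp [mul_assoc]⟩

theorem Y_le_Ce (A : Subgroup S) : Y A ≤ Ce A := (closure_le _).2 fun _ h => h.1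

end Cfsg.Agent.MCX
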