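import Cfsg.Agent.MCX.A4

/-! Type (a): `SL(2,5)` acts on `D`. -/

set_option autoImplicit false

namespace Cfsg.Agent.MCX

open Subgroup

variable {S : Type*} [Group S] [Finite S] {P : Sylow 5 S} {z : S}

omit [Finite S] in
theorem c1_U {z w y : S} (hc : Commute z w) (h1 : y * z = z * y) (h2 : y * w * y⁻¹ = w * z)
    (n i j : ℕ) : y ^ n * (z ^ i * w ^ j) * (y ^ n)⁻¹ = z ^ (i + n * j) * w ^ j := by
  have e1 := a4a_conj h1 h2 n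
  have e2 : y ^ n * z * (y ^ n)⁻¹ = z := by
    rw [((show Commute y z from h1).pow_left n).eq]; group
  calc y ^ n * (z ^ i * w ^ j) * (y ^ n)⁻¹
      = (y ^ n * z * (y ^ n)⁻¹) ^ i * (y ^ n * w * (y ^ n)⁻¹) ^ j := by
        rw [conj_pow, conj_pow]; group
    _ = _ := by
        rw [e1, e2, (hc.symm.pow_right n).mul_pow, ← pow_mul, pow_add, mul_assoc,
          (hc.symm.pow_pow j (n * j)).eq]

omit [Finite S] in
theorem c1_L {z w y : S} (hc : Commute z w) (h1 : y * w = w * y) (h2 : y * z * y⁻¹ = z * w)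
    (n i j : ℕ) : y ^ n * (z ^ i * w ^ j) * (y ^ n)⁻¹ = z ^ i * w ^ (j + n * i) := by
  rw [(hc.pow_pow i j).eq, c1_U hc.symm h1 h2, (hc.pow_pow i _).eq]

omit [Finite S] in
theorem c1_pow {n x : S} {k : ℕ} (e : n * x * n⁻¹ = x ^ k) (m : ℕ) :
    n ^ m * x * (n ^ m)⁻¹ = x ^ k ^ m := by
  induction m with
  | zero => simp
  | succ m ih =>
    calc n ^ (m + 1) * x * (n ^ (m + 1))⁻¹ = n * (n ^ m * x * (n ^ m)⁻¹) * n⁻¹ := by
          rw [pow_succ']; group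
      _ = (n * x * n⁻¹) ^ k ^ m := by rw [ih, conj_pow]
      _ = _ := by rw [e, ← pow_mul, pow_succ']

theorem St.c1_tv (h : St P z) {D : Subgroup S} (hD : IsD P D) {d : S} (hd : d ∈ D)
    (dz : d ∉ zpowers z) : ∃ y ∈ Nm D, y * z = z * y ∧ y * d * y⁻¹ = d * z := by
  obtain ⟨y0, hy0, yD⟩ : ∃ y ∈ (P : Subgroup S), y ∉ D := by
    by_contra hn
    push Not at hn
    have := card_le_of_le (show (P : Subgroup S) ≤ D from hn)
    rw [h.cardQ, hD.2] at this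
    omega
  have dP := hD.1 hd
  have hw0 := h.comm_mem hy0 dP
  have w1 : y0 * d * y0⁻¹ * d⁻¹ ≠ 1 := fun k => yD (h.Dcen hD hd dz hy0 (by
    rw [mul_inv_eq_one, mul_inv_eq_iff_eq_mul] at k; exact k))
  have ez := (h.chg (h.a1a_zle hw0) w1 fun u hu => h.a1a_zc hw0 hu).2
  obtain ⟨n, hn⟩ := (mem_powers_iff_mem_zpowers.2 (ez ▸ mem_zpowers z) :
    z ∈ Submonoid.powers (y0 * d * y0⁻¹ * d⁻¹))
  have e2 := a4a_conj (h.a1a_zc hw0 hy0) (d := d) (by rw [h.a1a_zc hw0 dP]; group) n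
  simp only at hn
  rw [hn] at e2
  exact ⟨y0 ^ n, h.Dnorm hD (pow_mem hy0 n), h.zc _ (pow_mem hy0 n), e2⟩

theorem St.c1_set (h : St P z) {D : Subgroup S} (hD : IsD P D) (hT : TA z D) :
    ∃ w ∈ D, w ∉ zpowers z ∧ ∃ y ∈ Nm D, ∃ y' ∈ Nm D, y * z = z * y ∧ y * w * y⁻¹ = w * z ∧
      y' * w = w * y' ∧ y' * z * y'⁻¹ = z * w := by
  obtain ⟨Q, hQ, hn⟩ := hT
  obtain ⟨g, -, hq⟩ := h.other Q
  generalize g * z * g⁻¹ = w at hq
  have hDQ : IsD Q D := ⟨hQ, hD.2⟩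
  have wD := hq.zD hDQ
  have zw : z ∉ zpowers w := fun k => hn fun u hu => mem_Cz.2 (hq.a1a_zc k hu)
  have wz : w ∉ zpowers z := fun k => zw (by
    rw [(h.chg (hD.1 wD) hq.z1 fun u hu => h.a1a_zc k hu).2]; exact mem_zpowers z)
  obtain ⟨y, hy, e1, e2⟩ := h.c1_tv hD wD wz
  obtain ⟨y', hy', e3, e4⟩ := hq.c1_tv hDQ (h.zD hD) zw
  exact ⟨w, wD, wz, y, hy, y', hy', e1, e2, e3, e4⟩

theorem c1_num : ∀ i j : Fin 5, i.val ≠ 0 → ∃ n : Fin 5, ((1 + n.val) * i.val) % 5 = j.val := by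
  decide

/-- Let `Q ≥ D`, `Q ≰ C(z)`, `St Q w` (`other`), `w ∈ D` (`zD`), `w ∉ ⟨z⟩`, `D = ⟨w⟩ ⊔ ⟨z⟩`.
For `y ∈ P \ D`: `y w y⁻¹ = w z^k`, `k ≢ 0`; so the conjugates `Q^(y^i)` have centres
`⟨w z^(ik)⟩`: together with `⟨z⟩` these are all six subgroups of order 5 of `D`. -/
theorem St.lines (h : St P z) {D : Subgroup S} (hD : IsD P D) (hT : TA z D) {d : S} (hd : d ∈ D)
    (h1 : d ≠ 1) : ∃ g ∈ Nm D, d ∈ zpowers (g * z * g⁻¹) := by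
  obtain ⟨w, wD, wz, y, hy, y', hy', e1, e2, e3, e4⟩ := h.c1_set hD hT
  have _ := h1
  have hc : Commute z w := h.Dcomm hD (h.zD hD) wD
  have z5 := h.pow5 h.zP
  have w5 := h.pow5 (hD.1 wD)
  obtain ⟨i, j, e⟩ := h.mem_D (hD.1 wD) (h.Deq hD wD wz ▸ hd)
  rw [pow_eq_pow_mod i w5, pow_eq_pow_mod j z5] at e
  by_cases hi : i % 5 = 0
  · refine ⟨1, one_mem _, ?_⟩
    rw [e, hi]
    simpa using pow_mem (mem_zpowers z) _
  obtain ⟨n, hn⟩ := c1_num ⟨i % 5, Nat.mod_lt _ (by norm_num)⟩ ⟨j % 5, Nat.mod_lt _ (by norm_num)⟩ hi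
  simp only at hn
  refine ⟨y ^ n.val * y', mul_mem (pow_mem hy _) hy', ?_⟩
  have k : y ^ n.val * y' * z * (y ^ n.val * y')⁻¹ = z ^ (1 + n.val) * w := by
    have := c1_U hc e1 e2 n.val 1 1
    rw [pow_one, pow_one, mul_one, ← e4] at this
    rw [← this]; group
  rw [k, e, ← hn, ← pow_eq_pow_mod _ z5, ← (hc.pow_pow _ _).eq, pow_mul,
    ← (hc.pow_left _).mul_pow]
  exact pow_mem (mem_zpowers _) _

/-- With `w` as above choose `y ∈ P`, `y' ∈ Q` acting on `D` by `z ↦ z, w ↦ w z` and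
`w ↦ w, z ↦ z w` (powers of elements outside `D`). A word `g` in `y, y'` acts as `z ↦ z^2`,
`w ↦ w^3` (`SL(2,5)` is generated by the two transvections: e.g. with `u(c) = y^c`,
`l(c) = y'^c`: `n(c) = u(c) l(-c⁻¹) u(c)`, `g = n(c) n(-1)`; compute with exponents mod 5).
`NmDZ` writes `g = c n` with `c ∈ Y D ≤ C(D)`, `n ∈ N(P) ∩ N(D)` acting like `g`. Replace `n` by
`n ^ e` with `e ≡ 1 (mod 4)` and `e ≡ 0 (mod 5^k)` (e.g. `e = 5^k`, `5^k ∥ o(n)`; from `Om`,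
`25 ∤ o(n)`, so `e = 5` works): `2^5 = 2`, `3^5 = 3` in `ZMod 5`. -/
theorem St.exh (h : St P z) {D : Subgroup S} (hD : IsD P D) (hT : TA z D) :
    ∃ k ∈ Nm (P : Subgroup S), k ∈ Nm D ∧ ¬ 5 ∣ orderOf k ∧ k * z * k⁻¹ = z ^ 2 ∧
      ∃ a ∈ D, a ∉ zpowers z ∧ k * a * k⁻¹ = a ^ 3 := by
  obtain ⟨w, wD, wz, y, hy, y', hy', e1, e2, e3, e4⟩ := h.c1_set hD hT
  have hc : Commute z w := h.Dcomm hD (h.zD hD) wD
  have z5 := h.pow5 h.zP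
  have w5 := h.pow5 (hD.1 wD)
  have key : ∀ i j : ℕ, (y ^ 1 * y' ^ 1 * y ^ 2 * y' ^ 3) * (z ^ i * w ^ j) *
      (y ^ 1 * y' ^ 1 * y ^ 2 * y' ^ 3)⁻¹ =
      z ^ (i + 2 * (j + 3 * i) + 1 * (j + 3 * i + 1 * (i + 2 * (j + 3 * i)))) *
        w ^ (j + 3 * i + 1 * (i + 2 * (j + 3 * i))) := by
    intro i j
    rw [← c1_U hc e1 e2, ← c1_L hc e3 e4, ← c1_U hc e1 e2, ← c1_L hc e3 e4]
    group
  have hg : y ^ 1 * y' ^ 1 * y ^ 2 * y' ^ 3 ∈ Nm D :=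
    mul_mem (mul_mem (mul_mem (pow_mem hy _) (pow_mem hy' _)) (pow_mem hy _)) (pow_mem hy' _)
  have k1 := key 1 0
  have k2 := key 0 1
  generalize y ^ 1 * y' ^ 1 * y ^ 2 * y' ^ 3 = g at hg k1 k2
  replace k1 : g * z * g⁻¹ = z ^ 2 := by
    have a1 : g * z * g⁻¹ = z ^ 17 * w ^ 10 := by simpa using k1
    rw [a1, pow_eq_pow_mod 17 z5, pow_eq_pow_mod 10 w5]
    norm_num
  replace k2 : g * w * g⁻¹ = w ^ 3 := by
    have a1 : g * w * g⁻¹ = z ^ 5 * w ^ 3 := by simpa using k2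
    rw [a1, z5, one_mul]
  obtain ⟨c, hcY, n, hn, hnD, rfl⟩ := h.NmDZ hD hg (k1 ▸ pow_mem (mem_zpowers z) 2)
  have tr : ∀ {x : S} {m : ℕ}, x ∈ D → c * n * x * (c * n)⁻¹ = x ^ m → n * x * n⁻¹ = x ^ m := by
    intro x m hx e
    have e' := mem_Ce.1 (Y_le_Ce D hcY) _ (pow_mem hx m)
    calc n * x * n⁻¹ = c⁻¹ * (c * n * x * (c * n)⁻¹ * c) := by group
      _ = _ := by rw [e, e']; group
  refine ⟨n ^ 5, pow_mem hn 5, pow_mem hnD 5, fun h5 => ?_, ?_, w, wD, wz, ?_⟩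
  · rcases a0_om5 h (h5.trans (orderOf_pow_dvd 5)) with e | e
    · have : orderOf (n ^ 5) ∣ 2 :=
        orderOf_dvd_of_pow_eq_one (by rw [← pow_mul]; exact orderOf_dvd_iff_pow_eq_one.1 e)
      exact absurd (h5.trans this) (by norm_num)
    · have : orderOf (n ^ 5) ∣ 3 :=
        orderOf_dvd_of_pow_eq_one (by rw [← pow_mul]; exact orderOf_dvd_iff_pow_eq_one.1 e)
      exact absurd (h5.trans this) (by norm_num)
  · rw [c1_pow (tr (h.zD hD) k1) 5, pow_eq_pow_mod _ z5]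
    norm_num
  · rw [c1_pow (tr wD k2) 5, pow_eq_pow_mod _ w5]
    norm_num

end Cfsg.Agent.MCX
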