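import Cfsg.Agent.MCX.C1

/-! Type (a): counting Sylow subgroups above `D`; the frame. -/

set_option autoImplicit false
set_option linter.unusedSectionVars false

namespace Cfsg.Agent.MCX

open Subgroup

variable {S : Type*} [Group S] [Finite S] {P : Sylow 5 S} {z : S}

theorem c1b_smul (g x : S) (Q : Sylow 5 S) :
    x ∈ ((g • Q : Sylow 5 S) : Subgroup S) ↔ g⁻¹ * x * g ∈ (Q : Subgroup S) := by
  rw [Sylow.coe_subgroup_smul, mem_pointwise_smul_iff_inv_smul_mem]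
  simp

theorem c1b_cz {d w : S} (h : d ∈ zpowers w) : Cz w ≤ Cz d := fun g hg => by
  obtain ⟨n, rfl⟩ := h
  exact mem_Cz.2 (Commute.zpow_right (mem_Cz.1 hg) n)

theorem c1b_mS {D : Subgroup S} {g : S} (hg : g ∈ Nm D) : mS (g * z * g⁻¹) D = mS z D := by
  refine (Nat.card_congr ((MulAction.toPerm (β := Sylow 5 S) g).subtypeEquiv fun Q => and_congr ⟨fun k x hx => ?_,
    fun k x hx => ?_⟩ ⟨fun k x hx => ?_, fun k x hx => ?_⟩)).symm
  · exact (c1b_smul g x Q).2 (k ((mem_normalizer_iff''.1 hg x).1 hx))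
  · simpa [mul_assoc] using (c1b_smul g _ Q).1 (k ((mem_normalizer_iff.1 hg x).1 hx))
  · have := mem_Cz.1 (k ((c1b_smul g x Q).1 hx))
    refine mem_Cz.2 ?_
    calc x * (g * z * g⁻¹) = g * (g⁻¹ * x * g * z) * g⁻¹ := by group
      _ = _ := by rw [this]; group
  · have := mem_Cz.1 (k ((c1b_smul g (g * x * g⁻¹) Q).2 (by simpa [mul_assoc] using hx)))
    refine mem_Cz.2 ?_
    calc x * z = g⁻¹ * (g * x * g⁻¹ * (g * z * g⁻¹)) * g := by group
      _ = _ := by rw [this]; group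

/-- `|N(D)| = n(D) |N(D) ⊓ N(P)|` (`card_NmD`). `N(D)` is transitive on the six subgroups of order
5 of `D` (`lines`), with stabilizer `N1 = N(D) ⊓ N(⟨z⟩)`, and `N1 = (Y D)(N(D) ⊓ N(P))`
(`NmDZ`), `Y D ⊓ N(P) = Y P` (`YD_NmP`), `mS_mul`. (Or: partition the Sylow subgroups above `D`
by their centres.) -/
theorem St.nS_TA (h : St P z) {D : Subgroup S} (hD : IsD P D) (hT : TA z D) :
    nS D = 6 * mS z D := by
  classical
  have := Fintype.ofFinite S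
  have := Fintype.ofFinite (Sylow 5 S)
  have k := Finset.card_mul_eq_card_mul (fun (Q : Sylow 5 S) (d : S) => (Q : Subgroup S) ≤ Cz d)
    (s := Finset.univ.filter fun Q : Sylow 5 S => D ≤ (Q : Subgroup S))
    (t := (D : Set S).toFinset.erase 1) (m := 4) (n := mS z D) (fun Q hQ => ?_) fun d hd => ?_
  · rw [Finset.card_erase_of_mem (Set.mem_toFinset.2 D.one_mem), Set.toFinset_card,
      ← Nat.card_eq_fintype_card, show Nat.card (D : Set S) = 25 from hD.2, ← Fintype.card_subtype,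
      ← Nat.card_eq_fintype_card] at k
    rw [nS]
    omega
  · obtain ⟨g, -, hw⟩ := h.other Q
    have hQ' : IsD Q D := ⟨(Finset.mem_filter.1 hQ).2, hD.2⟩
    generalize g * z * g⁻¹ = w at hw
    have : Finset.bipartiteAbove (fun (Q : Sylow 5 S) (d : S) => (Q : Subgroup S) ≤ Cz d)
        ((D : Set S).toFinset.erase 1) Q = (zpowers w : Set S).toFinset.erase 1 := by
      ext d
      simp only [Finset.mem_bipartiteAbove, Finset.mem_erase, Set.mem_toFinset, SetLike.mem_coe]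
      exact ⟨fun ⟨⟨a, b⟩, c⟩ => ⟨a, hw.cen (hQ'.1 b) fun y hy => mem_Cz.1 (c hy)⟩,
        fun ⟨a, b⟩ => ⟨⟨a, zpowers_le.2 (hw.zD hQ') b⟩,
          fun y hy => c1b_cz b (mem_Cz.2 (hw.zc y hy))⟩⟩
    rw [this, Finset.card_erase_of_mem (Set.mem_toFinset.2 (one_mem (zpowers w))), Set.toFinset_card,
      ← Nat.card_eq_fintype_card, show Nat.card (zpowers w : Set S) = 5 from
        (Nat.card_zpowers w).trans hw.oz]
  · obtain ⟨d1, d2⟩ := Finset.mem_erase.1 hd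
    have d3 : d ∈ D := Set.mem_toFinset.1 d2
    obtain ⟨g, hg, e⟩ := h.lines hD hT d3 d1
    have e2 : zpowers d = zpowers (g * z * g⁻¹) := eq_of_le_of_card_ge (zpowers_le.2 e) (by
      rw [Nat.card_zpowers, Nat.card_zpowers, h.ord5 (hD.1 d3) d1, ← h.oz]
      exact (orderOf_injective (MulAut.conj g).toMonoidHom (MulAut.conj g).injective z).le)
    have e3 : Cz d = Cz (g * z * g⁻¹) := le_antisymm (c1b_cz (e2 ▸ mem_zpowers _)) (c1b_cz e)
    rw [← c1b_mS hg, mS, ← e3, Nat.card_eq_fintype_card, Fintype.card_subtype, Finset.bipartiteBelow,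
      Finset.filter_filter]

/-- `k, a` from `exh`. For `y ∈ P \ D`, `k y k⁻¹ = y^μ d` (`Dmax`); conjugating
`[y, a] = z^e ≠ 1` gives `3 μ ≡ 2`, `μ ≡ 4`. So `k y k⁻¹ = y⁻¹ a^i z^j`; replacing `y` by
`y a^m` (`-m ≡ i + 3m`... solve mod 5, `3 ≠ -1`) and then by `y z^m` (`2 ≠ -1`) gives `x`. -/
theorem St.fa (h : St P z) {D : Subgroup S} (hD : IsD P D) (hT : TA z D) :
    ∃ k a x, Fa P z D k a x := by
  obtain ⟨k, kP, kD, k5, kz, a, aD, aZ, ka⟩ := h.exh hD hT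
  obtain ⟨y, yP, yD⟩ : ∃ y ∈ (P : Subgroup S), y ∉ D := by
    by_contra! c
    have := card_le_of_le (show (P : Subgroup S) ≤ D from c)
    rw [h.cardQ, hD.2] at this
    omega
  have aP := hD.1 aD
  have zc : ∀ w ∈ zpowers z, ∀ g ∈ (P : Subgroup S), Commute g w := by
    rintro _ ⟨n, rfl⟩ g hg
    exact Commute.zpow_right (h.zc g hg) n
  have zk : ∀ w ∈ zpowers z, k * w * k⁻¹ = w ^ 2 := by
    rintro _ ⟨n, rfl⟩
    simp only [← conj_zpow, kz, ← zpow_natCast, ← zpow_mul, mul_comm n]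
  have zP : zpowers z ≤ (P : Subgroup S) := zpowers_le.2 h.zP
  obtain ⟨μ, d, hd, e⟩ := h.Dmax hD yP yD ((mem_normalizer_iff.1 kP y).1 yP)
  obtain ⟨c, hc, ec⟩ : ∃ c ∈ zpowers z, y * a * y⁻¹ = c * a :=
    ⟨_, h.comm_mem yP aP, (inv_mul_cancel_right _ _).symm⟩
  have c1 : c ≠ 1 := fun k => yD (h.Dcen hD aD aZ yP (by
    rw [k, one_mul] at ec; exact mul_inv_eq_iff_eq_mul.1 ec))
  have en : ∀ n : ℕ, y ^ n * a * (y ^ n)⁻¹ = c ^ n * a := fun n => by
    induction n with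
    | zero => simp
    | succ n ih =>
      calc y ^ (n + 1) * a * (y ^ (n + 1))⁻¹ = y * (y ^ n * a * (y ^ n)⁻¹) * y⁻¹ := by group
        _ = (y * c ^ n) * a * y⁻¹ := by rw [ih]; group
        _ = c ^ n * (y * a * y⁻¹) := by rw [(zc _ (pow_mem hc n) y yP).eq]; group
        _ = _ := by rw [ec]; group
  have e1 : c ^ (μ * 3) * a ^ 3 = c ^ 2 * a ^ 3 := by
    calc c ^ (μ * 3) * a ^ 3 = (c ^ μ * a) ^ 3 := by
          rw [(zc _ (pow_mem hc μ) a aP).symm.mul_pow, pow_mul]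
      _ = y ^ μ * (a ^ 3 * d) * d⁻¹ * (y ^ μ)⁻¹ := by rw [← en, conj_pow]; group
      _ = (y ^ μ * d) * a ^ 3 * (y ^ μ * d)⁻¹ := by rw [h.Dcomm hD (pow_mem aD 3) hd]; group
      _ = k * (y * a * y⁻¹) * k⁻¹ := by rw [← e, ← ka]; group
      _ = (k * c * k⁻¹) * (k * a * k⁻¹) := by rw [ec]; group
      _ = _ := by rw [zk c hc, ka]
  have e2 := pow_eq_pow_iff_modEq.1 (mul_right_cancel e1)
  rw [h.ord5 (zP hc) c1, Nat.ModEq] at e2
  rw [pow_eq_pow_mod μ (h.pow5 yP), show μ % 5 = 4 by omega] at e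
  obtain ⟨i, j, rfl⟩ := h.mem_D aP (h.Deq hD aD aZ ▸ hd)
  have hw : k * (y * a ^ i) * k⁻¹ * (y * a ^ i) ∈ zpowers z := by
    have b := h.comm_mem (pow_mem aP (4 * i)) yP
    have m := mul_mem (pow_mem (mem_zpowers z) j) b
    have a5 : a ^ (4 * i) * a ^ i = 1 := by
      rw [← pow_add, show 4 * i + i = 5 * i by ring, pow_mul, h.pow5 aP, one_pow]
    have e3 : k * (y * a ^ i) * k⁻¹ * (y * a ^ i) =
        y ^ 4 * (z ^ j * (a ^ (4 * i) * y * (a ^ (4 * i))⁻¹ * y⁻¹)) * y * (a ^ (4 * i) * a ^ i) := by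
      calc _ = (k * y * k⁻¹) * (k * a * k⁻¹) ^ i * (y * a ^ i) := by rw [conj_pow]; group
        _ = y ^ 4 * (a ^ i * z ^ j) * (a ^ 3) ^ i * (y * a ^ i) := by rw [e, ka]
        _ = _ := by rw [(zc _ (pow_mem (mem_zpowers z) j) _ (pow_mem aP i)).eq]; group
    rw [e3, a5, mul_one, (zc _ m _ (pow_mem yP 4)).eq, mul_assoc, ← pow_succ, h.pow5 yP, mul_one]
    exact m
  obtain ⟨x, hx⟩ : ∃ x, x = y * a ^ i := ⟨_, rfl⟩
  have xP : x ∈ (P : Subgroup S) := hx ▸ mul_mem yP (pow_mem aP i)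
  have xD : x ∉ D := fun c => yD ((mul_mem_cancel_right (pow_mem aD i)).1 (hx ▸ c))
  rw [← hx] at hw
  obtain ⟨w, ew⟩ : ∃ w, w = k * x * k⁻¹ * x := ⟨_, rfl⟩
  rw [← ew] at hw
  refine ⟨k, a, x * w ^ 3, h, hD, hT, kP, k5, aD, aZ, mul_mem xP (pow_mem (zP hw) 3),
    fun c => xD ((mul_mem_cancel_right (pow_mem (zpowers_le.2 (h.zD hD) hw) 3)).1 c), kz, ka,
    eq_inv_of_mul_eq_one_left ?_⟩
  calc k * (x * w ^ 3) * k⁻¹ * (x * w ^ 3) = k * x * k⁻¹ * ((k * w ^ 3 * k⁻¹) * x) * w ^ 3 := by group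
    _ = k * x * k⁻¹ * x * (w ^ 3) ^ 2 * w ^ 3 := by
        rw [zk _ (pow_mem hw 3), ← (zc _ (pow_mem (pow_mem hw 3) 2) x xP).eq]; group
    _ = (w ^ 5) ^ 2 := by rw [← ew]; group
    _ = 1 := by rw [h.pow5 (zP hw), one_pow]

end Cfsg.Agent.MCX
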