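import Cfsg.Agent.MCX.A5b
import Cfsg.Agent.MCX.A10
import Cfsg.Agent.MCX.B5
import Cfsg.Agent.MCX.C1

/-! Type (a): `N(P) = P Y(P) ⟨h⟩`, uniqueness of `D`. -/

set_option autoImplicit false

namespace Cfsg.Agent.MCX

open Subgroup

variable {S : Type*} [Group S] [Finite S] {P : Sylow 5 S} {z : S}
variable {D : Subgroup S} {h a x : S}

theorem Fa.ax (F : Fa P z D h a x) : a * x ≠ x * a := fun e =>
  F.xD (F.st.Dcen F.hD F.aD F.aZ F.xP e.symm)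

theorem c2_pow (k : ℕ) : (!![3, 0; 0, 4] : Matrix (Fin 2) (Fin 2) (ZMod 5)) ^ k =
    !![3 ^ k, 0; 0, (3 ^ k) ^ 2] := by
  induction k with
  | zero => simp [Matrix.one_fin_two]
  | succ k ih =>
    rw [pow_succ, ih, Matrix.mul_fin_two]
    have : (4 : ZMod 5) = 3 ^ 2 := by decide
    rw [this]
    congr <;> ring

theorem Cp.c2_five {K : Subgroup S} (hK : Cp P K) {k : S} (hk : k ∈ K) : ¬ 5 ∣ orderOf k := fun e =>
  absurd ((e.trans (K.orderOf_dvd_natCard hk)).trans hK.dvd) (by norm_num)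

theorem Cp.c2_dec {K : Subgroup S} (hK : Cp P K) {b : S}
    {ρ : Nm (P : Subgroup S) →* Matrix (Fin 2) (Fin 2) (ZMod 5)} (R : Rho P z a b ρ)
    (g : Nm (P : Subgroup S)) : ∃ y ∈ (P : Subgroup S), ∃ k : K, (g : S) = y * k ∧
      ρ (inclusion hK.le k) = ρ g := by
  obtain ⟨y, hy, k, hk, e⟩ := hK.dec g g.2
  refine ⟨y, hy, ⟨k, hk⟩, e, ?_⟩
  have : g = ⟨y, le_normalizer hy⟩ * inclusion hK.le ⟨k, hk⟩ := Subtype.ext e
  rw [this, map_mul, R.kerP ⟨y, le_normalizer hy⟩ hy, one_mul]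

theorem Fa.rho (F : Fa P z D h a x) : ∃ ρ, Rho P z a x ρ ∧ ρ ⟨h, F.hN⟩ = !![3, 0; 0, 4] ∧
    ∀ g, ∃ k : ℕ, ρ g = !![3, 0; 0, 4] ^ k := by
  obtain ⟨ρ, R⟩ := F.st.rho (F.hD.1 F.aD) F.xP F.ax
  have h1 : ρ ⟨h, F.hN⟩ = !![3, 0; 0, 4] := by
    have e1 := R.ha ⟨h, F.hN⟩
    have e2 := R.hb ⟨h, F.hN⟩
    have x4 : x⁻¹ = x ^ 4 := by
      rw [inv_eq_iff_mul_eq_one, ← pow_succ', F.st.pow5 F.xP]
    simp only [F.ha, F.hx, x4] at e1 e2
    obtain ⟨a1, a2⟩ := R.inj 3 0 (ρ ⟨h, F.hN⟩ 0 0) (ρ ⟨h, F.hN⟩ 1 0) (by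
      rw [ZMod.val_zero, pow_zero, mul_one]; exact e1)
    obtain ⟨a3, a4⟩ := R.inj 0 4 (ρ ⟨h, F.hN⟩ 0 1) (ρ ⟨h, F.hN⟩ 1 1) (by
      rw [ZMod.val_zero, pow_zero, one_mul]; exact e2)
    rw [Matrix.eta_fin_two (ρ ⟨h, F.hN⟩), ← a1, ← a2, ← a3, ← a4]
  refine ⟨ρ, R, h1, fun g => ?_⟩
  obtain ⟨K, hK⟩ := F.st.compl
  obtain ⟨-, -, k0, -, e0⟩ := hK.c2_dec R ⟨h, F.hN⟩
  obtain ⟨-, -, k, -, e⟩ := hK.c2_dec R g
  rw [← e]
  refine kka (ρ.comp (inclusion hK.le)) (fun g hg => ?_) k0 (e0.trans h1) k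
  rcases R.sp (inclusion hK.le g) (hK.c2_five g.2) hg with e | e
  · exact Or.inl (inclusion_injective hK.le (by rw [map_pow, e, map_one]))
  · exact Or.inr (inclusion_injective hK.le (by rw [map_pow, e, map_one]))

/-- coordinates modulo the centre -/
def C2Co (z a x y : S) (i j : ZMod 5) : Prop := y * (a ^ i.val * x ^ j.val)⁻¹ ∈ zpowers z

theorem c2_add {u : S} (hu : u ^ 5 = 1) (i k : ZMod 5) : u ^ (i + k).val = u ^ i.val * u ^ k.val := by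
  rw [ZMod.val_add, ← pow_eq_pow_mod _ hu, pow_add]

theorem C2Co.mul (F : Fa P z D h a x) {y y' : S} {i j k l : ZMod 5} (h1 : C2Co z a x y i j)
    (h2 : C2Co z a x y' k l) : C2Co z a x (y * y') (i + k) (j + l) := by
  have aP := F.hD.1 F.aD
  unfold C2Co at *
  rw [c2_add (F.st.pow5 aP), c2_add (F.st.pow5 F.xP)]
  have h3 := F.st.comm_mem (pow_mem F.xP j.val) (pow_mem aP k.val)
  have e1 := F.st.a1a_zc h2 (mul_mem (pow_mem aP i.val) (pow_mem F.xP j.val))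
  have e2 := F.st.a1a_zc h3 (pow_mem aP i.val)
  have h4 := mul_mem (mul_mem h1 h2) h3
  generalize a ^ i.val = A at *
  generalize a ^ k.val = A' at *
  generalize x ^ j.val = X at *
  generalize x ^ l.val = X' at *
  have : y * y' * (A * A' * (X * X'))⁻¹ =
      y * (A * X)⁻¹ * (y' * (A' * X')⁻¹) * (X * A' * X⁻¹ * A'⁻¹) := by
    calc _ = y * (A * X)⁻¹ * (A * X * (y' * (A' * X')⁻¹)) * (A' * X⁻¹ * A'⁻¹ * A⁻¹) := by group
      _ = y * (A * X)⁻¹ * (y' * (A' * X')⁻¹) * (A * (X * A' * X⁻¹ * A'⁻¹)) * A⁻¹ := by rw [e1]; group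
      _ = _ := by rw [e2]; group
  rw [this]
  exact h4

theorem C2Co.zero {c : S} (hc : c ∈ zpowers z) : C2Co z a x c 0 0 := by
  simpa [C2Co] using hc

theorem C2Co.pow (F : Fa P z D h a x) {y : S} {i j : ZMod 5} (h1 : C2Co z a x y i j) (n : ℕ) :
    C2Co z a x (y ^ n) (n * i) (n * j) := by
  induction n with
  | zero => simpa using C2Co.zero (one_mem _)
  | succ n ih =>
    rw [pow_succ, Nat.cast_succ, add_mul, add_mul, one_mul, one_mul]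
    exact ih.mul F h1

theorem C2Co.uniq {ρ : Nm (P : Subgroup S) →* Matrix (Fin 2) (Fin 2) (ZMod 5)} (R : Rho P z a x ρ)
    {y : S} {i j k l : ZMod 5} (h1 : C2Co z a x y i j) (h2 : C2Co z a x y k l) : i = k ∧ j = l := by
  refine R.inj i j k l ?_
  have := mul_mem (inv_mem h1) h2
  convert this using 1
  group

theorem c2_conjZ (H : St P z) {g c : S} (hg : g ∈ Nm (P : Subgroup S)) (hc : c ∈ zpowers z) :
    g * c * g⁻¹ ∈ zpowers z := by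
  obtain ⟨k, rfl⟩ := mem_zpowers_iff.1 hc
  rw [← conj_zpow]
  exact zpow_mem (H.NmP_z hg) k

theorem C2Co.act (H : St P z) {ρ : Nm (P : Subgroup S) →* Matrix (Fin 2) (Fin 2) (ZMod 5)}
    (R : Rho P z a x ρ) (g : Nm (P : Subgroup S)) {y : S} {i j : ZMod 5} (h1 : C2Co z a x y i j) :
    C2Co z a x (g * y * (g : S)⁻¹) (ρ g 0 0 * i + ρ g 0 1 * j) (ρ g 1 0 * i + ρ g 1 1 * j) := by
  have := mul_mem (c2_conjZ H g.2 h1) (R.act g i j)
  unfold C2Co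
  convert this using 1
  group

theorem C2Co.mem {E : Subgroup S} (hz : z ∈ E) {y : S} {i j : ZMod 5} (h1 : C2Co z a x y i j)
    (h2 : a ^ i.val * x ^ j.val ∈ E) : y ∈ E := by
  have := mul_mem (zpowers_le.2 hz h1) h2
  rwa [inv_mul_cancel_right] at this

theorem c2_nm (H : St P z) {u : S}
    (hu : ∀ g ∈ Nm (P : Subgroup S), g * u * g⁻¹ ∈ zpowers u ⊔ zpowers z) :
    Nm (P : Subgroup S) ≤ Nm (zpowers u ⊔ zpowers z) := by
  have e1 : ∀ g ∈ Nm (P : Subgroup S), ∀ d ∈ zpowers u ⊔ zpowers z,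
      g * d * g⁻¹ ∈ zpowers u ⊔ zpowers z := fun g hg d hd =>
    (sup_le (zpowers_le.2 (hu g hg)) (zpowers_le.2 (mem_sup_right (H.NmP_z hg))) :
      zpowers u ⊔ zpowers z ≤ (zpowers u ⊔ zpowers z).comap (MulAut.conj g).toMonoidHom) hd
  intro g hg
  refine mem_normalizer_iff.2 fun d => ⟨e1 g hg d, fun hd => ?_⟩
  simpa [mul_assoc] using e1 g⁻¹ (inv_mem hg) _ hd

/-- `ρ` from `rho` with the basis `a, x`; `ρ h = diag(3,4)` by `Rho.inj`. Take `K` from `compl`,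
`h = y k0` (`Cp.dec`), `ρ k0 = ρ h` (`kerP`); apply `kka` to `K` (orders prime to 5 by `Cp.dvd`).
For `g = y' k ∈ N(P)`: `ρ k = ρ k0 ^ j`, so `k k0^(-j) ∈ Y P` (`Rho.ker`); `P` is normal in `N(P)`. -/
theorem Fa.nP (F : Fa P z D h a x) {g : S} (hg : g ∈ Nm (P : Subgroup S)) :
    ∃ y ∈ (P : Subgroup S), ∃ c ∈ Y (P : Subgroup S), ∃ k : ℕ, g = y * c * h ^ k := by
  obtain ⟨ρ, R, h1, h2⟩ := F.rho
  obtain ⟨K, hK⟩ := F.st.compl
  obtain ⟨j, hj⟩ := h2 ⟨g, hg⟩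
  obtain ⟨y, hy, k, e, e'⟩ := hK.c2_dec R (⟨g, hg⟩ * (⟨h, F.hN⟩ ^ j)⁻¹)
  rw [map_mul, hj, ← h1, ← map_pow, ← map_mul, mul_inv_cancel, map_one] at e'
  refine ⟨y, hy, k, (R.ker _ (hK.c2_five k.2)).1 e', j, ?_⟩
  rw [← e]
  simp

/-- `h^4` centralizes `a, x, z`, so `P`, and has order prime to 5 -/
theorem Fa.h4 (F : Fa P z D h a x) : h ^ 4 ∈ Y (P : Subgroup S) := by
  obtain ⟨ρ, R, h1, -⟩ := F.rho
  refine (R.ker (⟨h, F.hN⟩ ^ 4) fun e => F.h5 (e.trans (orderOf_pow_dvd 4))).1 ?_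
  rw [map_pow, h1]
  decide

/-- the image of `K` under `ρ` is `⟨diag(3,4)⟩` of order 4 and the kernel is `Y P` -/
theorem Fa.cardK (F : Fa P z D h a x) {K : Subgroup S} (hK : Cp P K) :
    Nat.card K = 4 * Nat.card (Y (P : Subgroup S)) := by
  obtain ⟨ρ, R, h1, h2⟩ := F.rho
  obtain ⟨-, -, k0, -, e0⟩ := hK.c2_dec R ⟨h, F.hN⟩
  let φ := (ρ.comp (inclusion hK.le)).toHomUnits
  have e1 : (φ k0 : Matrix (Fin 2) (Fin 2) (ZMod 5)) = !![3, 0; 0, 4] := e0.trans h1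
  have hr : φ.range = zpowers (φ k0) := by
    refine le_antisymm ?_ (zpowers_le.2 ⟨k0, rfl⟩)
    rintro _ ⟨k, rfl⟩
    obtain ⟨j, hj⟩ := h2 (inclusion hK.le k)
    have : φ k = φ k0 ^ j := Units.ext (by rw [Units.val_pow_eq_pow_val, e1]; exact hj)
    rw [this]
    exact pow_mem (mem_zpowers _) j
  have ho : orderOf (φ k0) = 2 ^ (1 + 1) := by
    refine orderOf_eq_prime_pow (fun e => ?_) (Units.ext ?_)
    · have := congrArg Units.val e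
      rw [Units.val_pow_eq_pow_val, e1] at this
      revert this
      decide
    · rw [Units.val_pow_eq_pow_val, e1]
      decide
  have hk : φ.ker = (Y (P : Subgroup S)).subgroupOf K := by
    ext k
    rw [MonoidHom.mem_ker, Units.ext_iff, mem_subgroupOf]
    exact R.ker (inclusion hK.le k) (hK.c2_five k.2)
  have := φ.ker.index_mul_card
  rw [index_ker, hr, Nat.card_zpowers, ho, hk,
    Nat.card_congr (subgroupOfEquivOfLe hK.yle).toEquiv] at this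
  omega

theorem Fa.NmD (F : Fa P z D h a x) : Nm (P : Subgroup S) ≤ Nm D := by
  obtain ⟨ρ, R, -, h2⟩ := F.rho
  rw [F.st.Deq F.hD F.aD F.aZ]
  refine c2_nm F.st fun g hg => ?_
  obtain ⟨k, hk⟩ := h2 ⟨g, hg⟩
  have := R.ha ⟨g, hg⟩
  rw [hk, c2_pow] at this
  refine C2Co.mem (mem_sup_right (mem_zpowers z)) this ?_
  simpa using mem_sup_left (pow_mem (mem_zpowers a) _)

theorem Fa.NmD' (F : Fa P z D h a x) :
    Nm (P : Subgroup S) ≤ Nm (zpowers x ⊔ zpowers z) := by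
  obtain ⟨ρ, R, -, h2⟩ := F.rho
  refine c2_nm F.st fun g hg => ?_
  obtain ⟨k, hk⟩ := h2 ⟨g, hg⟩
  have := R.hb ⟨g, hg⟩
  rw [hk, c2_pow] at this
  refine C2Co.mem (mem_sup_right (mem_zpowers z)) this ?_
  simpa using mem_sup_left (pow_mem (mem_zpowers x) _)

/-- `exh` for `E` gives `k ∈ N(P)`, `k z k⁻¹ = z²`, `k a' k⁻¹ = a'^3`; `k = y c h^j` with
`2^j ≡ 2`, so `j ≡ 1 (mod 4)`; writing `a' ≡ a^i x^l (mod Z)`: `a^(3i) x^(-l) ≡ a^(3i) x^(3l)`, so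
`l ≡ 0`, `a' ∈ D`, `E = D` (`Deq`). -/
theorem Fa.ta_uniq (F : Fa P z D h a x) {E : Subgroup S} (hE : IsD P E) (hT : TA z E) :
    E = D := by
  obtain ⟨ρ, R, -, h2⟩ := F.rho
  obtain ⟨k, hk, -, -, kz, b, hb, bz, kb⟩ := F.st.exh hE hT
  obtain ⟨j, hj⟩ := h2 ⟨k, hk⟩
  rw [c2_pow] at hj
  have e1 := R.hz ⟨k, hk⟩
  simp only [kz] at e1
  rw [pow_eq_pow_iff_modEq, F.st.oz, ← ZMod.natCast_eq_natCast_iff, ZMod.natCast_zmod_val, hj,
    Matrix.det_fin_two_of] at e1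
  obtain ⟨i, l, c⟩ := R.sur b (hE.1 hb)
  have c1 := C2Co.act F.st R ⟨k, hk⟩ c
  simp only [kb] at c1
  have c2 := (c1.uniq R (C2Co.pow F c 3)).2
  rw [hj] at c2
  simp only [Matrix.of_apply, Matrix.cons_val', Matrix.cons_val_zero, Matrix.cons_val_one,
    Matrix.cons_val_fin_one] at c2
  have key : ∀ α i l : ZMod 5, ((2 : ℕ) : ZMod 5) = α * α ^ 2 - 0 * 0 →
      0 * i + α ^ 2 * l = ((3 : ℕ) : ZMod 5) * l → l = 0 := by decide
  obtain rfl := key _ _ _ e1 c2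
  have hbD : b ∈ D := C2Co.mem (F.st.zD F.hD) c (by simpa using pow_mem F.aD _)
  rw [F.st.Deq hE hb bz, ← F.st.Deq F.hD hbD bz]

/-- `E = ⟨u⟩ ⊔ ⟨z⟩`, `u ≡ a^i x^l`; if `h` normalizes `E` then `(3i, -l)` is a multiple of
`(i, l)`, so `i ≡ 0` or `l ≡ 0`. -/
theorem Fa.moves (F : Fa P z D h a x) {E : Subgroup S} (hE : IsD P E) (h1 : E ≠ D)
    (h2 : E ≠ zpowers x ⊔ zpowers z) : cj h E ≠ E := by
  intro e
  obtain ⟨ρ, R, h0, -⟩ := F.rho
  obtain ⟨u, hu, uz⟩ : ∃ u ∈ E, u ∉ zpowers z := by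
    by_contra hc
    push Not at hc
    have := card_le_of_le (show E ≤ zpowers z from hc)
    rw [hE.2, F.st.a1a_cz] at this
    omega
  have hE' := F.st.Deq hE hu uz
  have h3 : h * u * h⁻¹ ∈ E := e ▸ mem_cj.2 (by simpa [mul_assoc] using hu)
  rw [hE'] at h3
  obtain ⟨m, n, e1⟩ := F.st.mem_D (hE.1 hu) h3
  obtain ⟨i, l, c⟩ := R.sur u (hE.1 hu)
  have c1 := C2Co.act F.st R ⟨h, F.hN⟩ c
  simp only [e1] at c1
  have c2 := c1.uniq R ((C2Co.pow F c m).mul F (C2Co.zero (pow_mem (mem_zpowers z) n)))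
  rw [h0] at c2
  simp only [Matrix.of_apply, Matrix.cons_val', Matrix.cons_val_zero, Matrix.cons_val_one,
    Matrix.cons_val_fin_one] at c2
  have key : ∀ μ i l : ZMod 5, 3 * i + 0 * l = μ * i + 0 ∧ 0 * i + 4 * l = μ * l + 0 →
      i = 0 ∨ l = 0 := by decide
  rcases key _ _ _ c2 with rfl | rfl
  · have xz : x ∉ zpowers z := fun e => F.xD (zpowers_le.2 (F.st.zD F.hD) e)
    have h4 : u ∈ zpowers x ⊔ zpowers z := C2Co.mem (mem_sup_right (mem_zpowers z)) c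
      (by simpa using mem_sup_left (pow_mem (mem_zpowers x) _))
    exact h2 (hE'.trans (F.st.Deq (F.st.Dmk F.xP xz) h4 uz).symm)
  · have h4 : u ∈ D := C2Co.mem (F.st.zD F.hD) c (by simpa using pow_mem F.aD _)
    exact h1 (hE'.trans (F.st.Deq F.hD h4 uz).symm)

end Cfsg.Agent.MCX
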